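import Cfsg.Agent.Grp.SylowEA

/-!
# Bruhat decomposition for abstract Chevalley groups in characteristic `2`
-/

set_option autoImplicit false
set_option linter.unusedSectionVars false
set_option linter.unusedVariables false
set_option linter.style.haveILetI false

namespace Cfsg

open Subgroup

universe u v

variable {G : Type u} [Group G] {K : Type v} [Field K]

/-- The subgroup generated by a set of root subgroups. -/
def rootGp (X : ℕ → K → G) (S : ℕ → Prop) : Subgroup G := closure {g | ∃ r t, S r ∧ g = X r t}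

theorem mem_rootGp {X : ℕ → K → G} {S : ℕ → Prop} {r : ℕ} (h : S r) (t : K) :
    X r t ∈ rootGp X S := subset_closure ⟨r, t, h, rfl⟩

theorem mem_rootGp_eq (X : ℕ → K → G) (r : ℕ) (t : K) : X r t ∈ rootGp X (· = r) :=
  mem_rootGp (S := (· = r)) rfl t

theorem rootGp_le {X : ℕ → K → G} {S : ℕ → Prop} {A : Subgroup G} (h : ∀ r t, S r → X r t ∈ A) :
    rootGp X S ≤ A := (closure_le _).2 fun _ ⟨r, t, h1, h2⟩ => h2 ▸ h r t h1

theorem mem_normalizer_rootGp [Finite G] {X : ℕ → K → G} {S : ℕ → Prop} {g : G}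
    (h : ∀ r t, S r → g * X r t * g⁻¹ ∈ rootGp X S) : g ∈ normalizer (rootGp X S : Set G) :=
  mem_normalizer_fintype fun _ hx => rootGp_le (A := (rootGp X S).comap (MulAut.conj g).toMonoidHom)
    h hx

/-- The combinatorial data of a root system. -/
structure RootTab where
  l : ℕ
  n : ℕ
  α : ℕ → ℕ
  neg : ℕ → ℕ
  σ : ℕ → ℕ → ℕ
  pos : ℕ → Bool
  m : ℕ → ℕ

/-- The action of a word in the simple reflections. -/
def RootTab.σw (R : RootTab) (L : List ℕ) (r : ℕ) : ℕ := L.foldr R.σ r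

/-- The roots made negative by the inverse of a reduced word. -/
def RootTab.rts (R : RootTab) : List ℕ → List ℕ
  | [] => []
  | i :: L => R.α i :: (R.rts L).map (R.σ i)

/-- The axioms for the tables. -/
structure RootTab.OK (R : RootTab) : Prop where
  simple : ∀ i < R.l, R.α i < R.n ∧ R.pos (R.α i) ∧ R.σ i (R.α i) = R.neg (R.α i)
  neg_lt : ∀ r < R.n, R.neg r < R.n ∧ R.neg (R.neg r) = r ∧ R.pos (R.neg r) = !R.pos r
  refl : ∀ i < R.l, ∀ r < R.n, R.σ i r < R.n ∧ R.σ i (R.σ i r) = r ∧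
    R.σ i (R.neg r) = R.neg (R.σ i r) ∧ (R.pos r → r ≠ R.α i → R.pos (R.σ i r))
  ind : ∀ r < R.n, ∃ i < R.l, r = R.α i ∨ R.m (R.σ i r) < R.m r

/-- The elements `n_i`. -/
def RootTab.nn (R : RootTab) (X : ℕ → K → G) (i : ℕ) : G :=
  X (R.α i) 1 * X (R.neg (R.α i)) 1 * X (R.α i) 1

/-- The product of the `n_i` along a word. -/
def RootTab.nw (R : RootTab) (X : ℕ → K → G) (L : List ℕ) : G := (L.map (R.nn X)).prod

/-- The positive unipotent subgroup. -/
def RootTab.U (R : RootTab) (X : ℕ → K → G) : Subgroup G := rootGp X fun r => r < R.n ∧ R.pos r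

/-- The negative unipotent subgroup. -/
def RootTab.V (R : RootTab) (X : ℕ → K → G) : Subgroup G := rootGp X fun r => r < R.n ∧ ¬ R.pos r

/-- The unipotent radical of a minimal parabolic subgroup. -/
def RootTab.Ui (R : RootTab) (X : ℕ → K → G) (i : ℕ) : Subgroup G :=
  rootGp X fun r => r < R.n ∧ R.pos r ∧ r ≠ R.α i

/-- The torus. -/
def RootTab.tor (R : RootTab) (X : ℕ → K → G) (H : Subgroup G) : Subgroup G :=
  H ⊓ ⨅ r, ⨅ (_ : r < R.n), normalizer (rootGp X (· = r) : Set G)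

theorem RootTab.mem_tor {R : RootTab} {X : ℕ → K → G} {H : Subgroup G} {g : G} :
    g ∈ R.tor X H ↔ g ∈ H ∧ ∀ r < R.n, g ∈ normalizer (rootGp X (· = r) : Set G) := by
  simp [RootTab.tor]

/-- A product of root elements. -/
def wordX (X : ℕ → K → G) (w : List (ℕ × K)) : G := (w.map fun y => X y.1 y.2).prod

/-- The relations in a Chevalley group of characteristic `2`. -/
structure IsBN2 (R : RootTab) (X : ℕ → K → G) (H : Subgroup G) : Prop extends R.OK where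
  add0 : ∀ i < R.l, ∀ t u, X (R.α i) (t + u) = X (R.α i) t * X (R.α i) u
  conj : ∀ i < R.l, ∀ r < R.n, ∀ t, R.nn X i * X r t = X (R.σ i r) t * R.nn X i
  comm : ∀ i < R.l, ∀ r < R.n, R.pos r → r ≠ R.α i → ∃ (L : List ℕ) (a b : ℕ) (S : List ℕ),
    (∀ j ∈ L, j < R.l) ∧ a < R.n ∧ b < R.n ∧ R.σw L a = R.α i ∧ R.σw L b = r ∧
    (∀ c ∈ S, c < R.n ∧ R.pos (R.σw L c) ∧ R.σw L c ≠ R.α i) ∧
    ∀ t u, X a t * X b u * (X a t)⁻¹ ∈ rootGp X (· ∈ S)
  H_nn : ∀ i < R.l, ∀ h ∈ H, (R.nn X i)⁻¹ * h * R.nn X i ∈ H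
  H_mem : ∀ i < R.l, ∀ t ≠ 0, ∀ d, d =
    X (R.α i) t * X (R.neg (R.α i)) t⁻¹ * X (R.α i) t * (R.nn X i)⁻¹ →
      d ∈ H ∧ ∀ r < R.n, ∀ u, ∃ u', d * X r u = X r u' * d
  H_two : ∀ h ∈ H, ∀ k, h ^ 2 ^ k = 1 → h = 1
  braid : ∀ i < R.l, ∀ t ≠ 0, X (R.α i) t * X (R.neg (R.α i)) t⁻¹ * X (R.α i) t =
    X (R.neg (R.α i)) t⁻¹ * X (R.α i) t * X (R.neg (R.α i)) t⁻¹
  gen : rootGp X (· < R.n) = ⊤
  disj : ∀ g ∈ R.U X, g ∈ R.V X → g = 1
  ne_one : ∀ i < R.l, ∀ t ≠ 0, X (R.neg (R.α i)) t ≠ 1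
  pU : IsPGroup 2 (R.U X)

namespace IsBN2

variable [Finite G] [CharP K 2] {R : RootTab} {X : ℕ → K → G} {H : Subgroup G} (h : IsBN2 R X H)
include h

theorem conj' {i r : ℕ} (hi : i < R.l) (hr : r < R.n) (t : K) :
    R.nn X i * X r t * (R.nn X i)⁻¹ = X (R.σ i r) t := by rw [h.conj i hi r hr]; group

theorem root_induction {P : ℕ → Prop} (h0 : ∀ i < R.l, P (R.α i))
    (h1 : ∀ i < R.l, ∀ r < R.n, P r → P (R.σ i r)) {r : ℕ} (hr : r < R.n) : P r := by
  induction hm : R.m r using Nat.strong_induction_on generalizing r with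
  | _ k ih => ?_
  obtain ⟨i, hi, rfl | h2⟩ := h.ind r hr
  · exact h0 i hi
  obtain ⟨a, b, -⟩ := h.refl i hi r hr
  exact b ▸ h1 i hi _ a (ih _ (hm ▸ h2) a rfl)

theorem add {r : ℕ} (hr : r < R.n) (t u : K) : X r (t + u) = X r t * X r u :=
  h.root_induction (P := fun r => X r (t + u) = X r t * X r u) (fun i hi => h.add0 i hi t u)
    (fun i hi r hr e => by simp only [← h.conj' hi hr, e]; group) hr

theorem zero {r : ℕ} (hr : r < R.n) : X r 0 = 1 := by simpa using h.add hr 0 0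

theorem inv {r : ℕ} (hr : r < R.n) (t : K) : (X r t)⁻¹ = X r t :=
  inv_eq_of_mul_eq_one_right (by rw [← h.add hr, CharTwo.add_self_eq_zero, h.zero hr])

theorem nn_inv {i : ℕ} (hi : i < R.l) : (R.nn X i)⁻¹ = R.nn X i := by
  have := (h.simple i hi).1
  simp [RootTab.nn, h.inv this, h.inv (h.neg_lt _ this).1, mul_assoc]

theorem σ_neg_α {i : ℕ} (hi : i < R.l) : R.σ i (R.neg (R.α i)) = R.α i := by
  obtain ⟨a, -, b⟩ := h.simple i hi
  rw [← b, (h.refl i hi _ a).2.1]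

theorem neg_mem_V {i : ℕ} (hi : i < R.l) (t : K) : X (R.neg (R.α i)) t ∈ R.V X := by
  obtain ⟨a, b, -⟩ := h.simple i hi
  exact mem_rootGp ⟨(h.neg_lt _ a).1, by simp [(h.neg_lt _ a).2.2, b]⟩ t

theorem α_mem_U {i : ℕ} (hi : i < R.l) (t : K) : X (R.α i) t ∈ R.U X :=
  mem_rootGp ⟨(h.simple i hi).1, (h.simple i hi).2.1⟩ t

theorem Ui_le (i : ℕ) : R.Ui X i ≤ R.U X := rootGp_le fun r t h => mem_rootGp ⟨h.1, h.2.1⟩ t

theorem nw_conj {L : List ℕ} (hL : ∀ i ∈ L, i < R.l) {r : ℕ} (hr : r < R.n) :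
    R.σw L r < R.n ∧ R.σw L (R.neg r) = R.neg (R.σw L r) ∧
      ∀ t, R.nw X L * X r t * (R.nw X L)⁻¹ = X (R.σw L r) t := by
  induction L with
  | nil => simp [RootTab.σw, RootTab.nw, hr]
  | cons i L ih =>
    obtain ⟨a, b, c⟩ := ih fun j hj => hL j (List.mem_cons_of_mem _ hj)
    have hi := hL i List.mem_cons_self
    refine ⟨(h.refl i hi _ a).1, (congrArg _ b).trans (h.refl i hi _ a).2.2.1, fun t => ?_⟩
    rw [show R.σw (i :: L) r = R.σ i (R.σw L r) from rfl, ← h.conj' hi a, ← c,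
      show R.nw X (i :: L) = R.nn X i * R.nw X L from rfl]
    group

theorem nn_tor {i : ℕ} (hi : i < R.l) {d : G} (hd : d ∈ R.tor X H) :
    R.nn X i * d * (R.nn X i)⁻¹ ∈ R.tor X H := by
  obtain ⟨a, b⟩ := RootTab.mem_tor.1 hd
  refine RootTab.mem_tor.2 ⟨by simpa [h.nn_inv hi] using h.H_nn i hi d a, fun r hr =>
    mem_normalizer_rootGp fun _ t e => ?_⟩
  obtain ⟨c1, c2, -⟩ := h.refl i hi r hr
  have := rootGp_le (A := (rootGp X (· = r)).comap (MulAut.conj (R.nn X i)).toMonoidHom)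
    (S := (· = R.σ i r))
    (fun _ u e => by simpa [e, h.conj' hi c1, c2] using mem_rootGp_eq X r u)
    ((mem_normalizer_iff.1 (b _ c1) _).1 (mem_rootGp_eq X _ t))
  simpa [e, ← h.conj' hi hr, h.nn_inv hi, mul_assoc] using this

theorem nw_H {L : List ℕ} (hL : ∀ i ∈ L, i < R.l) {d : G} (hd : d ∈ R.tor X H) :
    R.nw X L * d * (R.nw X L)⁻¹ ∈ R.tor X H := by
  induction L with
  | nil => simpa [RootTab.nw]
  | cons i L ih =>
    simpa [mul_assoc, RootTab.nw] using h.nn_tor (hL i List.mem_cons_self)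
      (ih fun j hj => hL j (List.mem_cons_of_mem _ hj))

theorem mem_tor {i : ℕ} (hi : i < R.l) {t : K} (ht : t ≠ 0) :
    X (R.α i) t * X (R.neg (R.α i)) t⁻¹ * X (R.α i) t * (R.nn X i)⁻¹ ∈ R.tor X H := by
  obtain ⟨a, b⟩ := h.H_mem i hi t ht _ rfl
  refine RootTab.mem_tor.2 ⟨a, fun r hr => mem_normalizer_rootGp fun _ u e => ?_⟩
  obtain ⟨u', c⟩ := b r hr u
  rw [e, c, mul_inv_cancel_right]; exact mem_rootGp_eq X r _

theorem nn_mem_normalizer {i : ℕ} (hi : i < R.l) : R.nn X i ∈ normalizer (R.Ui X i : Set G) :=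
  mem_normalizer_rootGp fun r t ⟨a, b, c⟩ => by
    obtain ⟨a1, a2, -, a3⟩ := h.refl i hi r a
    rw [h.conj' hi a]
    refine mem_rootGp ⟨a1, a3 b c, fun e => ?_⟩ t
    rw [← a2, e, (h.simple i hi).2.2, (h.neg_lt _ (h.simple i hi).1).2.2, (h.simple i hi).2.1] at b
    simp at b

theorem α_mem_normalizer {i : ℕ} (hi : i < R.l) (t : K) :
    X (R.α i) t ∈ normalizer (R.Ui X i : Set G) :=
  mem_normalizer_rootGp fun r u ⟨a, b, c⟩ => by
    obtain ⟨L, x, y, S, a1, a2, a3, a4, a5, a6, a7⟩ := h.comm i hi r a b c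
    have := rootGp_le (A := (R.Ui X i).comap (MulAut.conj (R.nw X L)).toMonoidHom)
      (fun z u e => by
        obtain ⟨b1, -, b2⟩ := h.nw_conj a1 (a6 z e).1
        simpa [b2, RootTab.Ui] using mem_rootGp (X := X)
          (S := fun r => r < R.n ∧ R.pos r ∧ r ≠ R.α i) ⟨b1, (a6 z e).2⟩ u) (a7 t u)
    have b1 := (h.nw_conj a1 a2).2.2 t
    have b2 := (h.nw_conj a1 a3).2.2 u
    rw [a4] at b1
    rw [a5] at b2
    rw [← b1, ← b2]
    simpa [mul_assoc, RootTab.Ui] using this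

theorem U_le_normalizer {i : ℕ} (hi : i < R.l) : R.U X ≤ normalizer (R.Ui X i : Set G) :=
  rootGp_le fun r t ⟨a, b⟩ => by
    by_cases c : r = R.α i
    · exact c ▸ h.α_mem_normalizer hi t
    · exact le_normalizer (mem_rootGp ⟨a, b, c⟩ t)

theorem H_le_normalizer : R.tor X H ≤ normalizer (R.U X : Set G) := fun d hd =>
  mem_normalizer_rootGp fun r t hr => rootGp_le (S := (· = r)) (fun _ u e => by
      rw [e]; exact mem_rootGp hr u)
    ((mem_normalizer_iff.1 ((RootTab.mem_tor.1 hd).2 r hr.1) _).1 (mem_rootGp_eq X r t))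

theorem exists_eq_mul {i : ℕ} (hi : i < R.l) {u : G} (hu : u ∈ R.U X) :
    ∃ t, (X (R.α i) t)⁻¹ * u ∈ R.Ui X i := by
  have a := (h.simple i hi).1
  induction hu using closure_induction'' with
  | mem x hx =>
    obtain ⟨r, t, ⟨b, c⟩, rfl⟩ := hx
    by_cases e : r = R.α i
    · exact ⟨t, by simp [e]⟩
    · exact ⟨0, by simpa [h.zero a, RootTab.Ui] using mem_rootGp ⟨b, c, e⟩ t⟩
  | inv_mem x hx =>
    obtain ⟨r, t, ⟨b, c⟩, rfl⟩ := hx
    rw [h.inv b]
    by_cases e : r = R.α i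
    · exact ⟨t, by simp [e]⟩
    · exact ⟨0, by simpa [h.zero a, RootTab.Ui] using mem_rootGp ⟨b, c, e⟩ t⟩
  | one => exact ⟨0, by simp [h.zero a]⟩
  | mul x y _ _ hx hy =>
    obtain ⟨t, ht⟩ := hx
    obtain ⟨s, hs⟩ := hy
    refine ⟨t + s, ?_⟩
    have := mul_mem ((mem_normalizer_iff''.1 (h.α_mem_normalizer hi s) _).1 ht) hs
    rw [h.add a]
    simpa [mul_assoc] using this

/-- The union of the Bruhat cells. -/
def _root_.Cfsg.InCell (R : RootTab) (X : ℕ → K → G) (H : Subgroup G) (g : G) : Prop :=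
  ∃ u ∈ R.U X, ∃ d ∈ R.tor X H, ∃ L : List ℕ, (∀ i ∈ L, i < R.l) ∧
    ∃ u' ∈ R.U X, g = u * d * R.nw X L * u'

theorem inCell_mul {u d : G} (hu : u ∈ R.U X) (hd : d ∈ R.tor X H) {g : G}
    (hg : InCell R X H g) :
    InCell R X H (u * d * g) := by
  obtain ⟨u₁, a1, d₁, a2, L, a3, u₂, a4, rfl⟩ := hg
  exact ⟨u * (d * u₁ * d⁻¹), mul_mem hu ((mem_normalizer_iff.1 (h.H_le_normalizer hd) _).1 a1),
    d * d₁, mul_mem hd a2, L, a3, u₂, a4, by group⟩

theorem inCell_nn {i : ℕ} (hi : i < R.l) {g : G} (hg : InCell R X H g) :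
    InCell R X H (g * R.nn X i) := by
  obtain ⟨u, a1, d, a2, L, a3, u', a4, rfl⟩ := hg
  obtain ⟨t, ht⟩ := h.exists_eq_mul hi a4
  have b1 := h.Ui_le i ((mem_normalizer_iff''.1 (h.nn_mem_normalizer hi) _).1 ht)
  obtain ⟨c1, c2, c3⟩ := h.simple i hi
  have b2 : ∀ j ∈ L ++ [i], j < R.l := by simpa [or_imp, forall_and, hi] using a3
  have b3 : R.nw X (L ++ [i]) = R.nw X L * R.nn X i := by simp [RootTab.nw]
  rw [show u * d * R.nw X L * u' * R.nn X i = u * d * (R.nw X L * X (R.α i) t * R.nn X i *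
    ((R.nn X i)⁻¹ * ((X (R.α i) t)⁻¹ * u') * R.nn X i)) by group]
  refine h.inCell_mul a1 a2 ?_
  generalize (R.nn X i)⁻¹ * ((X (R.α i) t)⁻¹ * u') * R.nn X i = v at b1
  obtain ⟨d1, d2, d3⟩ := h.nw_conj a3 c1
  by_cases hp : R.pos (R.σw L (R.α i))
  · exact ⟨_, mem_rootGp ⟨d1, hp⟩ t, 1, one_mem _, _, b2, v, b1, by rw [b3, ← d3]; group⟩
  by_cases h0 : t = 0
  · exact ⟨1, one_mem _, 1, one_mem _, _, b2, v, b1, by simp [b3, h0, h.zero c1]⟩
  have e1 := h.nw_H b2 (h.mem_tor hi (inv_ne_zero h0))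
  have e2 := (h.nw_conj a3 (h.neg_lt _ c1).1).2.2 t⁻¹
  refine ⟨X (R.neg (R.σw L (R.α i))) t⁻¹, mem_rootGp ⟨(h.neg_lt _ d1).1, by
    simpa [(h.neg_lt _ d1).2.2] using hp⟩ _, _, e1, L, a3, X (R.α i) t⁻¹ * v,
    mul_mem (h.α_mem_U hi _) b1, ?_⟩
  rw [← d2, ← e2, b3, inv_inv, ← c3, ← h.conj' hi c1, ← h.conj' hi c1]
  have e3 := h.inv c1 t⁻¹
  have e4 := h.nn_inv hi
  generalize R.nn X i = m at *
  generalize X (R.α i) t⁻¹ = a at *
  have e5 : ∀ z, a * (a * z) = z := fun z => by nth_rw 1 [← e3]; exact inv_mul_cancel_left a z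
  have e6 : ∀ z, m * (m * z) = z := fun z => by nth_rw 1 [← e4]; exact inv_mul_cancel_left m z
  simp [mul_assoc, e4, e5, e6]

theorem bruhat (g : G) : InCell R X H g := by
  have h1 : ∀ r < R.n, ∀ t, ∀ g, InCell R X H g → InCell R X H (g * X r t) := fun r hr t =>
    h.root_induction (P := fun r => ∀ g, InCell R X H g → InCell R X H (g * X r t))
      (fun i hi g ⟨u, a1, d, a2, L, a3, u', a4, e⟩ =>
        ⟨u, a1, d, a2, L, a3, _, mul_mem a4 (h.α_mem_U hi t), by rw [e, mul_assoc]⟩)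
      (fun i hi r hr ih g hg => by
        rw [← h.conj' hi hr, h.nn_inv hi, ← mul_assoc, ← mul_assoc]
        exact h.inCell_nn hi (ih _ (h.inCell_nn hi hg))) hr
  have hg : g ∈ rootGp X (· < R.n) := h.gen ▸ mem_top g
  induction hg using closure_induction_right with
  | one => exact ⟨1, one_mem _, 1, one_mem _, [], by simp, 1, one_mem _, by simp [RootTab.nw]⟩
  | mul_right x _ y hy ih =>
    obtain ⟨r, t, hr, rfl⟩ := hy
    exact h1 r hr t x ih
  | mul_inv_cancel x _ y hy ih =>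
    obtain ⟨r, t, hr, rfl⟩ := hy
    exact (h.inv hr t).symm ▸ h1 r hr t x ih

theorem exchange {i : ℕ} (hi : i < R.l) {L : List ℕ} (hL : ∀ j ∈ L, j < R.l)
    (hp : ¬ R.pos (R.σw L (R.α i))) :
    ∃ L', L'.length < L.length ∧ (∀ j ∈ L', j < R.l) ∧ R.nw X L * R.nn X i = R.nw X L' := by
  obtain ⟨c1, c2, c3⟩ := h.simple i hi
  induction L with
  | nil => exact (hp c2).elim
  | cons j L ih =>
    have hj := hL j List.mem_cons_self
    have hL' := fun k hk => hL k (List.mem_cons_of_mem _ hk)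
    have e : R.nw X (j :: L) = R.nn X j * R.nw X L := rfl
    by_cases h1 : R.pos (R.σw L (R.α i))
    · obtain ⟨d1, d2, d3⟩ := h.nw_conj hL' c1
      have h2 : R.σw L (R.α i) = R.α j := by_contra fun e => hp ((h.refl j hj _ d1).2.2.2 h1 e)
      have h3 := (h.nw_conj hL' (h.neg_lt _ c1).1).2.2 1
      rw [d2, h2] at h3
      have h4 : R.nw X L * R.nn X i * (R.nw X L)⁻¹ = R.nn X j := by
        rw [RootTab.nn, RootTab.nn, ← h3, ← h2, ← d3]; group
      refine ⟨L, by simp, hL', ?_⟩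
      rw [e, ← h.nn_inv hj, ← h4]; group
    · obtain ⟨L', a1, a2, a3⟩ := ih hL' h1
      exact ⟨j :: L', by simpa, by simpa [hj], by rw [e, mul_assoc, a3]; rfl⟩

theorem nw_eq_one_or {L : List ℕ} (hL : ∀ j ∈ L, j < R.l) : R.nw X L = 1 ∨
    ∃ i < R.l, ∀ t, R.nw X L * X (R.neg (R.α i)) t * (R.nw X L)⁻¹ ∈ R.U X := by
  induction hn : L.length using Nat.strong_induction_on generalizing L with
  | _ k ih => ?_
  rcases L.eq_nil_or_concat' with rfl | ⟨L, i, rfl⟩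
  · exact .inl rfl
  obtain ⟨hL', hi⟩ : (∀ j ∈ L, j < R.l) ∧ i < R.l := by simpa [or_imp, forall_and] using hL
  have b3 : R.nw X (L ++ [i]) = R.nw X L * R.nn X i := by simp [RootTab.nw]
  obtain ⟨c1, c2, c3⟩ := h.simple i hi
  by_cases hp : R.pos (R.σw L (R.α i))
  · refine .inr ⟨i, hi, fun t => ?_⟩
    obtain ⟨d1, d2, d3⟩ := h.nw_conj hL' c1
    have := h.conj' hi (h.neg_lt _ c1).1 t
    rw [h.σ_neg_α hi] at this
    rw [show R.nw X (L ++ [i]) * _ * _ = X (R.σw L (R.α i)) t by rw [← d3, ← this, b3]; group]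
    exact mem_rootGp ⟨d1, hp⟩ t
  · obtain ⟨L', a1, a2, a3⟩ := h.exchange hi hL' hp
    rw [b3, a3]
    exact ih _ (by simp at hn; omega) a2 rfl

theorem cube {i : ℕ} (hi : i < R.l) {t : K} (ht : t ≠ 0) :
    (X (R.α i) t * X (R.neg (R.α i)) t⁻¹) ^ 3 = 1 := by
  have a := (h.simple i hi).1
  have := congrArg (·⁻¹) (h.braid i hi t ht)
  simp only [mul_inv_rev, h.inv a] at this
  rw [← mul_inv_eq_one] at this
  simpa [pow_succ, h.inv a, h.inv (h.neg_lt _ a).1, mul_assoc] using this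

theorem not_isPGroup {P : Subgroup G} (hP : IsPGroup 2 P) {i : ℕ} (hi : i < R.l) {y : G}
    (hy : y ∈ R.U X) (hy' : y ∉ R.Ui X i) (hyP : y ∈ P) (h1 : ∀ t, X (R.neg (R.α i)) t ∈ P) :
    False := by
  obtain ⟨t, ht⟩ := h.exists_eq_mul hi hy
  obtain ⟨c1, c2, c3⟩ := h.simple i hi
  have h0 : t ≠ 0 := fun e => hy' (by simpa [e, h.zero c1] using ht)
  let N := normalizer (R.Ui X i : Set G)
  have a1 : X (R.neg (R.α i)) t⁻¹ ∈ N := by
    rw [← c3, ← h.conj' hi c1]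
    exact mul_mem (mul_mem (h.nn_mem_normalizer hi) (h.α_mem_normalizer hi _))
      (inv_mem (h.nn_mem_normalizer hi))
  let π := QuotientGroup.mk' ((R.Ui X i).subgroupOf N)
  have a2 : ∀ z : N, π z = 1 ↔ z.1 ∈ R.Ui X i := fun z => QuotientGroup.eq_one_iff z
  let a : N := ⟨_, h.α_mem_normalizer hi t⟩
  let b : N := ⟨_, a1⟩
  let c : N := ⟨y, h.U_le_normalizer hi hy⟩
  have a3 : π a = π c := QuotientGroup.eq.2 ht
  obtain ⟨k, hk⟩ := hP ⟨_, mul_mem hyP (h1 t⁻¹)⟩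
  have a4 : π (c * b) ^ 2 ^ k = 1 := by
    rw [← map_pow, show (c * b) ^ 2 ^ k = 1 from
      Subtype.ext (congrArg (fun z : P => z.1) hk), map_one]
  have a5 : π (c * b) ^ 3 = 1 := by
    rw [map_mul, ← a3, ← map_mul, ← map_pow, show (a * b) ^ 3 = 1 from
      Subtype.ext (h.cube hi h0), map_one]
  have a6 := (a2 _).1 ((pow_eq_one_iff_of_coprime
    (Nat.Coprime.pow_left k (by decide : Nat.Coprime 2 3))).1 ⟨a4, a5⟩)
  exact h.ne_one i hi _ (inv_ne_zero h0) (h.disj _ ((mul_mem_cancel_left hy).1 (h.Ui_le i a6))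
    (h.neg_mem_V hi _))

theorem α_notMem {i : ℕ} (hi : i < R.l) : X (R.α i) 1 ∉ R.Ui X i := fun h1 => by
  obtain ⟨c1, c2, c3⟩ := h.simple i hi
  have := h.Ui_le i ((mem_normalizer_iff.1 (h.nn_mem_normalizer hi) _).1 h1)
  rw [h.conj' hi c1, c3] at this
  exact h.ne_one i hi 1 one_ne_zero (h.disj _ this (h.neg_mem_V hi _))

theorem le_U_of_le {P : Subgroup G} (hP : IsPGroup 2 P) (hU : R.U X ≤ P) : P ≤ R.U X := by
  intro g hg
  obtain ⟨u, a1, d, a2, L, a3, u', a4, rfl⟩ := h.bruhat g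
  rw [mul_mem_cancel_right (hU a4), mul_assoc, mul_mem_cancel_left (hU a1)] at hg
  rcases h.nw_eq_one_or a3 with e | ⟨i, hi, h1⟩
  · rw [e, mul_one] at hg ⊢
    obtain ⟨k, hk⟩ := hP ⟨d, hg⟩
    rw [h.H_two d a2.1 k (congrArg Subtype.val hk), mul_one]
    exact mul_mem a1 a4
  refine (h.not_isPGroup hP hi (h.α_mem_U hi 1) (h.α_notMem hi) (hU (h.α_mem_U hi 1))
    fun t => ?_).elim
  simpa [mul_assoc] using mul_mem (mul_mem (inv_mem hg)
    (hU ((mem_normalizer_iff.1 (h.H_le_normalizer a2) _).1 (h1 t)))) hg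

theorem sylowEA : SylowEA 2 G := by
  obtain ⟨P, hP⟩ := h.pU.exists_le_sylow
  refine sylowEA_of_abExp P.isPGroup' P.not_dvd_index (abExp_iff_le_powComm.2
    ((h.le_U_of_le P.isPGroup' hP).trans (rootGp_le fun r t hr => ?_)))
  exact mem_powComm_of_pow_eq_one (hP (mem_rootGp hr t))
    (by rw [sq, ← mul_inv_cancel (X r t), h.inv hr.1])

theorem le_U_of_regular {Q : Subgroup G} (hQ : IsPGroup 2 Q)
    (h1 : ∀ i < R.l, ∃ y ∈ Q, y ∈ R.U X ∧ y ∉ R.Ui X i) : Q ≤ R.U X := by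
  obtain ⟨P, hP⟩ := h.pU.exists_le_sylow
  have e := le_antisymm hP (h.le_U_of_le P.isPGroup' hP)
  obtain ⟨P', hP'⟩ := hQ.exists_le_sylow
  obtain ⟨g, rfl⟩ := MulAction.exists_smul_eq G P P'
  have h2 : ∀ y ∈ Q, g⁻¹ * y * g ∈ R.U X := fun y hy => by
    simpa [e] using (mem_pointwise_smul_iff_inv_smul_mem.1 (hP' hy))
  obtain ⟨u, a1, d, a2, L, a3, u', a4, hg⟩ := h.bruhat g⁻¹
  have h3 : ∀ y ∈ Q, R.nw X L * (u' * y * u'⁻¹) * (R.nw X L)⁻¹ ∈ R.U X := fun y hy => by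
    have := h2 y hy
    rw [← inv_inv g, hg, inv_inv] at this
    simpa [mul_assoc] using (mem_normalizer_iff''.1 (mul_mem (le_normalizer a1)
      (h.H_le_normalizer a2)) _).1 this
  rcases h.nw_eq_one_or a3 with e | ⟨i, hi, h4⟩
  · intro y hy
    simpa [e, mul_mem_cancel_left a4, mul_mem_cancel_right (inv_mem a4), mul_assoc,
      mul_mem_cancel_left a4] using h3 y hy
  obtain ⟨y, b1, b2, b3⟩ := h1 i hi
  exact (h.not_isPGroup (P := (R.U X).comap (MulAut.conj (R.nw X L)).toMonoidHom)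
    (h.pU.comap_of_injective _ (MulAut.conj _).injective) hi
    (mul_mem (mul_mem a4 b2) (inv_mem a4))
    (fun e => b3 ((mem_normalizer_iff.1 (h.U_le_normalizer hi a4) _).2 e)) (h3 y b1) h4).elim

theorem rts_lt {L : List ℕ} (hL : ∀ j ∈ L, j < R.l) : ∀ r ∈ R.rts L, r < R.n := by
  induction L with
  | nil => simp [RootTab.rts]
  | cons i L ih =>
    have hi := hL i List.mem_cons_self
    simp only [RootTab.rts, List.forall_mem_cons, List.forall_mem_map]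
    exact ⟨(h.simple i hi).1, fun r hr =>
      (h.refl i hi r (ih (fun j hj => hL j (List.mem_cons_of_mem _ hj)) r hr)).1⟩

theorem conj_wordX {L : List ℕ} (hL : ∀ j ∈ L, j < R.l) {w : List (ℕ × K)}
    (hw : ∀ y ∈ w, y.1 < R.n) : R.nw X L * wordX X w * (R.nw X L)⁻¹ =
      wordX X (w.map fun y => (R.σw L y.1, y.2)) := by
  induction w with
  | nil => simp [wordX]
  | cons y w ih =>
    have := ih fun z hz => hw z (List.mem_cons_of_mem _ hz)
    simp only [wordX, List.map_cons, List.prod_cons] at this ⊢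
    rw [← this, ← (h.nw_conj hL (hw y List.mem_cons_self)).2.2]; group

theorem peel {L : List ℕ} (hL : ∀ j ∈ L, j < R.l) {u : G} (hu : u ∈ R.U X) :
    ∃ w : List (ℕ × K), w.map (·.1) = R.rts L ∧
      (R.nw X L)⁻¹ * ((wordX X w)⁻¹ * u) * R.nw X L ∈ R.U X := by
  induction L generalizing u with
  | nil => exact ⟨[], rfl, by simpa [RootTab.nw, wordX]⟩
  | cons i L ih =>
    have hi := hL i List.mem_cons_self
    have hL' := fun j hj => hL j (List.mem_cons_of_mem _ hj)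
    obtain ⟨t, ht⟩ := h.exists_eq_mul hi hu
    obtain ⟨w, a1, a2⟩ := ih hL'
      (h.Ui_le i ((mem_normalizer_iff''.1 (h.nn_mem_normalizer hi) _).1 ht))
    have a3 := h.conj_wordX (L := [i]) (by simpa) (w := w) fun y hy =>
      h.rts_lt hL' _ (a1 ▸ List.mem_map_of_mem hy)
    refine ⟨(R.α i, t) :: w.map fun y => (R.σw [i] y.1, y.2), by
      simp [RootTab.rts, ← a1, RootTab.σw], ?_⟩
    rw [wordX, List.map_cons, List.prod_cons, ← wordX, ← a3]
    simpa [RootTab.nw, mul_assoc] using a2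

end IsBN2

end Cfsg

set_option linter.all false in
theorem Cfsg.Rz.Lie_BN2_0 : True := by
  have := @_root_.Cfsg.RootTab.OK.mk.congr_simp
  have := @_root_.Cfsg.RootTab.rts.induct
  have := @_root_.Cfsg.RootTab.rts.fun_cases
  have := @_root_.Cfsg.RootTab.Ui.eq_def.{0, 0}
  have := @_root_.Cfsg.RootTab.Ui.fun_cases
  have := @_root_.Cfsg.IsBN2.mk.congr_simp.{0, 0}
  have := @_root_.Cfsg.wordX.eq_def.{0, 0}
  have := @_root_.Cfsg.wordX.fun_cases
  have := @_root_.Cfsg.RootTab.nn.eq_def.{0, 0}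
  have := @_root_.Cfsg.RootTab.nn.fun_cases
  have := @_root_.Cfsg.RootTab.V.eq_def.{0, 0}
  have := @_root_.Cfsg.RootTab.V.eq_1.{0, 0}
  have := @_root_.Cfsg.RootTab.V.fun_cases
  have := @_root_.Cfsg.InCell.eq_def.{0, 0}
  have := @_root_.Cfsg.InCell.eq_1.{0, 0}
  have := @_root_.Cfsg.InCell.fun_cases
  have := @_root_.Cfsg.RootTab.σw.eq_def
  have := @_root_.Cfsg.RootTab.σw.fun_cases
  have := @_root_.Cfsg.RootTab.U.eq_def.{0, 0}
  have := @_root_.Cfsg.RootTab.U.eq_1.{0, 0}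
  have := @_root_.Cfsg.RootTab.U.fun_cases
  have := @_root_.Cfsg.RootTab.tor.eq_def.{0, 0}
  have := @_root_.Cfsg.RootTab.tor.fun_cases
  have := @_root_.Cfsg.RootTab.nw.eq_def.{0, 0}
  have := @_root_.Cfsg.RootTab.nw.fun_cases
  have := @_root_.Cfsg.rootGp.eq_def.{0, 0}
  have := @_root_.Cfsg.rootGp.eq_1.{0, 0}
  have := @_root_.Cfsg.rootGp.fun_cases
  trivial
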