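import Cfsg.Agent.Lie.BN2

/-!
# Sylow `2`-subgroups of twisted subgroups of abstract Chevalley groups
-/

set_option autoImplicit false
set_option linter.unusedSectionVars false
set_option linter.unusedVariables false
set_option linter.style.haveILetI false

namespace Cfsg

open Subgroup
open scoped Pointwise

universe u v

variable {G : Type u} [Group G] {K : Type v} [Field K]

theorem RootTab.nw_append (R : RootTab) (X : ℕ → K → G) (L L' : List ℕ) :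
    R.nw X (L ++ L') = R.nw X L * R.nw X L' := by simp [RootTab.nw]

/-- A relative reduced word for the longest element. -/
def RootTab.twOK (R : RootTab) : List ℕ → List (List ℕ) → Bool
  | Lp, [] => (List.range R.n).all fun r => !R.pos r || !R.pos (R.σw Lp r)
  | Lp, l :: Lr => ((R.rts l).all fun r => R.pos (R.σw Lp r)) && R.twOK (Lp ++ l) Lr

theorem wordX_mem {X : ℕ → K → G} {A : Subgroup G} {w : List (ℕ × K)}
    (h : ∀ y ∈ w, X y.1 y.2 ∈ A) : wordX X w ∈ A :=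
  list_prod_mem (List.forall_mem_map.2 h)

namespace IsBN2

variable [Finite G] [CharP K 2] {R : RootTab} {X : ℕ → K → G} {H : Subgroup G} (h : IsBN2 R X H)
include h

theorem nw_reverse {L : List ℕ} (hL : ∀ j ∈ L, j < R.l) : R.nw X L.reverse = (R.nw X L)⁻¹ := by
  rw [RootTab.nw, RootTab.nw, List.prod_inv_reverse, List.map_reverse, List.map_map]
  congr 2
  exact List.map_congr_left fun j hj => (h.nn_inv (hL j hj)).symm

theorem conj_rootGp {L : List ℕ} (hL : ∀ j ∈ L, j < R.l) {S : ℕ → Prop} {A : Subgroup G}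
    (hS : ∀ r, S r → r < R.n ∧ (R.σw L r < R.n → ∀ t, X (R.σw L r) t ∈ A)) {g : G}
    (hg : g ∈ rootGp X S) : R.nw X L * g * (R.nw X L)⁻¹ ∈ A :=
  rootGp_le (A := A.comap (MulAut.conj (R.nw X L)).toMonoidHom) (fun r t hr => by
    obtain ⟨a, -, b⟩ := h.nw_conj hL (hS r hr).1
    simpa [b] using (hS r hr).2 a t) hg

theorem notMem_Ui {i : ℕ} (hi : i < R.l) {w : List (ℕ × K)} (h1 : (w.map (·.1)).Nodup)
    (h2 : ∀ r ∈ w.map (·.1), r < R.n ∧ R.pos r) (h3 : (R.α i, 1) ∈ w) :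
    wordX X w ∈ R.U X ∧ wordX X w ∉ R.Ui X i := by
  refine ⟨wordX_mem fun y hy => mem_rootGp (h2 _ (List.mem_map_of_mem hy)) _, fun e => ?_⟩
  obtain ⟨w1, w2, rfl⟩ := List.append_of_mem h3
  have h4 : ∀ y ∈ w1 ++ w2, X y.1 y.2 ∈ R.Ui X i := fun y hy => by
    have := h2 y.1 (List.mem_map_of_mem (by grind))
    refine mem_rootGp ⟨this.1, this.2, fun e => ?_⟩ _
    rw [List.map_append, List.map_cons, List.nodup_middle, List.nodup_cons, ← List.map_append] at h1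
    exact h1.1 (List.mem_map.2 ⟨y, hy, e⟩)
  rw [show wordX X (w1 ++ (R.α i, 1) :: w2) = wordX X w1 * (X (R.α i) 1 * wordX X w2) by
    simp [wordX], mul_mem_cancel_left (wordX_mem fun y hy => h4 y (by simp [hy])),
    mul_mem_cancel_right (wordX_mem fun y hy => h4 y (by simp [hy]))] at e
  exact h.α_notMem hi e

theorem peel_cls {Z : Subgroup G} (hZ : IsPGroup 2 Z) (hU : R.U X ≤ normalizer (Z : Set G))
    {L : List ℕ} (hL : ∀ j ∈ L, j < R.l) (hn : R.nw X L ∈ normalizer (Z : Set G))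
    (hr : ∀ r < R.n, R.pos r → (∀ t, X r t ∈ Z) ∨ ¬ R.pos (R.σw L.reverse r))
    (hp : ∀ r ∈ R.rts L, R.pos r) {u : G} (hu : u ∈ R.U X) :
    ∃ w : List (ℕ × K), w.map (·.1) = R.rts L ∧ (wordX X w)⁻¹ * u ∈ Z ∧
      (R.nw X L)⁻¹ * ((wordX X w)⁻¹ * u) * R.nw X L ∈ R.U X := by
  obtain ⟨w, a1, a2⟩ := h.peel hL hu
  refine ⟨w, a1, ?_, a2⟩
  have a3 : Z ≤ R.U X := le_sup_right.trans
    (h.le_U_of_le (h.pU.to_sup_of_normal_right' hZ hU) le_sup_left)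
  let Y := rootGp X fun r => (r < R.n ∧ R.pos r) ∧ ¬ R.pos (R.σw L.reverse r)
  have a4 : R.U X ≤ Y ⊔ Z := rootGp_le fun r t hr' => (hr r hr'.1 hr'.2).elim
    (fun e => mem_sup_right (e t)) fun e => mem_sup_left (mem_rootGp ⟨hr', e⟩ t)
  have a5 := a4 (mul_mem (inv_mem (wordX_mem (w := w) fun y hy => mem_rootGp
    ⟨h.rts_lt hL _ (a1 ▸ List.mem_map_of_mem hy), hp _ (a1 ▸ List.mem_map_of_mem hy)⟩ _)) hu)
  rw [← SetLike.mem_coe, coe_mul_of_left_le_normalizer_right _ _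
    ((rootGp_le fun r t hr => mem_rootGp hr.1 t).trans hU)] at a5
  obtain ⟨y, hy, z, hz, e⟩ := a5
  have a6 := h.conj_rootGp (L := L.reverse) (A := R.V X) (by simpa)
    (fun r hr => ⟨hr.1.1, fun a => mem_rootGp ⟨a, hr.2⟩⟩) hy
  rw [h.nw_reverse hL, inv_inv] at a6
  rw [← e, show _ * (y * z) * _ = (R.nw X L)⁻¹ * y * R.nw X L * ((R.nw X L)⁻¹ * z * R.nw X L) by
    group, mul_mem_cancel_right (a3 ((mem_normalizer_iff''.1 hn z).1 hz))] at a2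
  have a7 : y = 1 := by simpa [mul_assoc, inv_mul_eq_one] using h.disj _ a2 a6
  simpa [← e, a7] using hz

theorem tw_aux {G1 : Subgroup G} {Lr : List (List ℕ)}
    (hc : ∀ l ∈ Lr, (∀ j ∈ l, j < R.l) ∧ R.nw X l ∈ G1 ∧ ∀ u ∈ R.U X, u ∈ G1 →
      ∃ x ∈ powComm 2 (rootGp X (· ∈ R.rts l) ⊓ G1), (R.nw X l)⁻¹ * (x⁻¹ * u) * R.nw X l ∈ R.U X)
    {Lp : List ℕ} (hp : ∀ j ∈ Lp, j < R.l) (hp' : R.nw X Lp ∈ G1) (hw : R.twOK Lp Lr)
    {u : G} (h1 : u ∈ R.U X) (h2 : u ∈ G1) (h3 : R.nw X Lp * u * (R.nw X Lp)⁻¹ ∈ R.U X) :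
    R.nw X Lp * u * (R.nw X Lp)⁻¹ ∈ powComm 2 (R.U X ⊓ G1) := by
  induction Lr generalizing Lp u with
  | nil =>
    rw [h.disj _ h3 (h.conj_rootGp hp (fun r hr => ⟨hr.1, fun a => mem_rootGp ⟨a, ?_⟩⟩) h1)]
    · exact one_mem _
    simpa [hr.2] using List.all_eq_true.1 hw r (List.mem_range.2 hr.1)
  | cons l Lr ih =>
    obtain ⟨a1, a2, a3⟩ := hc l List.mem_cons_self
    obtain ⟨x, b1, b2⟩ := a3 u h1 h2
    obtain ⟨c1, c2⟩ := Bool.and_eq_true_iff.1 hw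
    have b3 : R.nw X Lp * x * (R.nw X Lp)⁻¹ ∈ powComm 2 (R.U X ⊓ G1) := by
      refine powComm_mono (map_le_iff_le_comap.2 fun y hy => ?_)
        (map_powComm_le (MulAut.conj (R.nw X Lp)).toMonoidHom _ ⟨x, b1, rfl⟩)
      exact ⟨h.conj_rootGp hp (fun r hr => ⟨h.rts_lt a1 r hr, fun a => mem_rootGp
        ⟨a, List.all_eq_true.1 c1 r hr⟩⟩) hy.1, G1.mul_mem (mul_mem hp' hy.2) (inv_mem hp')⟩
    have e : R.nw X (Lp ++ l) * ((R.nw X l)⁻¹ * (x⁻¹ * u) * R.nw X l) * (R.nw X (Lp ++ l))⁻¹ =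
        (R.nw X Lp * x * (R.nw X Lp)⁻¹)⁻¹ * (R.nw X Lp * u * (R.nw X Lp)⁻¹) := by
      rw [R.nw_append]; group
    have := ih (fun l hl => hc l (List.mem_cons_of_mem _ hl)) (Lp := Lp ++ l)
      (by simpa [or_imp, forall_and] using ⟨hp, a1⟩) (R.nw_append X .. ▸ mul_mem hp' a2) c2 b2
      (mul_mem (mul_mem (inv_mem a2) (mul_mem (inv_mem (powComm_le _ b1).2) h2)) a2)
      (e ▸ mul_mem (inv_mem (powComm_le _ b3).1) h3)
    rwa [e, mul_mem_cancel_left (inv_mem b3)] at this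

theorem sylowEA_tw {G1 : Subgroup G} {Lr : List (List ℕ)}
    (hc : ∀ l ∈ Lr, (∀ j ∈ l, j < R.l) ∧ R.nw X l ∈ G1 ∧ ∀ u ∈ R.U X, u ∈ G1 →
      ∃ x ∈ powComm 2 (rootGp X (· ∈ R.rts l) ⊓ G1), (R.nw X l)⁻¹ * (x⁻¹ * u) * R.nw X l ∈ R.U X)
    (hw : R.twOK [] Lr) (h1 : ∀ i < R.l, ∃ y ∈ G1, y ∈ R.U X ∧ y ∉ R.Ui X i) : SylowEA 2 G1 := by
  have h2 : IsPGroup 2 (R.U X ⊓ G1 : Subgroup G) := h.pU.to_inf_left
  refine sylowEA_of_le inf_le_right h2 ?_ fun u hu => by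
    simpa [RootTab.nw] using h.tw_aux hc (Lp := []) (by simp) (one_mem _) hw hu.1 hu.2
      (by simpa [RootTab.nw] using hu.1)
  obtain ⟨Q, hQ⟩ := (h2.comap_subtype (K := G1)).exists_le_sylow
  have h3 := h.le_U_of_regular (Q.isPGroup'.map G1.subtype) fun i hi => by
    obtain ⟨y, a, b, c⟩ := h1 i hi
    exact ⟨y, ⟨⟨y, a⟩, hQ ⟨b, a⟩, rfl⟩, b, c⟩
  rw [relIndex, show (R.U X ⊓ G1).subgroupOf G1 = Q from
    le_antisymm hQ fun y hy => ⟨h3 ⟨y, hy, rfl⟩, y.2⟩]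
  exact Q.not_dvd_index

end IsBN2

end Cfsg

set_option linter.all false in
theorem Cfsg.Rz.Lie_BN2Tw_0 : True := by
  have := @_root_.Cfsg.RootTab.twOK.eq_def
  have := @_root_.Cfsg.RootTab.twOK.eq_1
  have := @_root_.Cfsg.RootTab.twOK.induct
  have := @_root_.Cfsg.RootTab.twOK.fun_cases
  trivial
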