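import Cfsg.Agent.Lie.ChevMain

/-!
# A packed model of the root elements in characteristic `2`, and word identities
-/

set_option autoImplicit false
set_option linter.unusedSectionVars false
set_option linter.unusedVariables false
set_option linter.style.haveILetI false
set_option linter.unusedSimpArgs false

namespace Cfsg

open Subgroup Matrix _root_.Cfsg.Lie

namespace Chev

/-- Field number `u` of width `W`. -/
def fld (T W u : ℕ) : ℕ := Nat.mod (Nat.shiftRight T (Nat.mul W u)) (Nat.pow 2 W)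

/-- Bounded conjunction. -/
def allN (f : ℕ → Bool) : ℕ → Bool
  | 0 => true
  | k + 1 => f k && allN f k

theorem of_allN {f : ℕ → Bool} {n : ℕ} (h : allN f n = true) {k : ℕ} (hk : k < n) : f k = true := by
  induction n with
  | zero => omega
  | succ n ih =>
    obtain ⟨h1, h2⟩ := Bool.and_eq_true_iff.1 h
    rcases Nat.lt_succ_iff_lt_or_eq.1 hk with h3 | rfl
    exacts [ih h2 h3, h1]

/-- Packed tables. -/
structure Tab where
  l : ℕ
  n : ℕ
  w : ℕ
  T : ℕ
  Ng : ℕ
  Cm : ℕ
  Hm : ℕ

namespace Tab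

variable (M : Tab)

/-- The code of the `r`-chain through `s`. -/
def code (r s : ℕ) : ℕ := fld (fld M.T (Nat.mul M.w M.n) r) M.w s

/-- One digit of a code. -/
def dg (k d : ℕ) : List (ℕ × ℕ) := cond (Nat.beq d 0) [] [(Nat.add M.l (Nat.pred d), k)]

/-- Decoding of chains. -/
def dec (c : ℕ) : List (ℕ × ℕ) := cond (Nat.beq c 0) []
  (M.dg 1 (Nat.mod c 256) ++ (M.dg 2 (Nat.mod (Nat.div c 256) 256) ++ M.dg 3 (Nat.div c 65536)))

/-- The columns of `x_r(t) - 1` in characteristic `2`. -/
def c2 (r j : ℕ) : List (ℕ × ℕ) :=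
  cond (Nat.ble M.n r) [] (cond (Nat.ble M.l j) (cond (Nat.ble M.n (Nat.sub j M.l)) []
    (cond (Nat.beq (Nat.sub j M.l) (fld M.Ng 8 r))
      (((List.range M.l).filter (fld M.Hm 8 r).testBit).map (·, 1) ++ [(Nat.add M.l r, 2)])
      (M.dec (M.code r (Nat.sub j M.l)))))
    (cond ((fld M.Cm 8 r).testBit j) [(Nat.add M.l r, 1)] []))

end Tab

/-- Oddness. -/
def oddZ (m : ℤ) : Bool := m % 2 == 1

/-- The odd entries. -/
def oddL (L : List (ℕ × ℕ × ℤ)) : List (ℕ × ℕ) := (L.filter fun y => oddZ y.2.2).map fun y => (y.1, y.2.1)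

/-- Comparison of a row of the chain table with the packed table. -/
def goRow (l : ℕ) (f : ℕ → List (ℕ × ℕ)) : ℕ → ℕ → List (ℕ × Array (ℕ × ℤ)) → Bool
  | 0, _, L => L.isEmpty
  | k + 1, s, [] => (f s).isEmpty && goRow l f k (s + 1) []
  | k + 1, s, e :: L => cond (Nat.beq e.1 s)
      (oddL (e.2.toList.zipIdx.map fun q => (l + q.1.1, q.2 + 1, q.1.2)) == f s &&
        goRow l f k (s + 1) L)
      ((f s).isEmpty && goRow l f k (s + 1) (e :: L))

theorem goRow_spec {l : ℕ} {f : ℕ → List (ℕ × ℕ)} {k s : ℕ} {L : List (ℕ × Array (ℕ × ℤ))}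
    (h : goRow l f k s L = true) : (∀ e ∈ L, s ≤ e.1) ∧ ∀ u, s ≤ u → u < s + k →
      oddL ((L.filter fun e => e.1 = u).flatMap fun e =>
        e.2.toList.zipIdx.map fun q => (l + q.1.1, q.2 + 1, q.1.2)) = f u := by
  induction k generalizing s L with
  | zero =>
    rw [goRow, List.isEmpty_iff] at h
    exact ⟨by simp [h], fun u _ _ => by omega⟩
  | succ k ih =>
    have key : ∀ {L}, (f s).isEmpty && goRow l f k (s + 1) L → (∀ e ∈ L, s ≤ e.1) ∧
        ∀ u, s ≤ u → u < s + (k + 1) → oddL ((L.filter fun e => e.1 = u).flatMap fun e =>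
          e.2.toList.zipIdx.map fun q => (l + q.1.1, q.2 + 1, q.1.2)) = f u := fun {L} h => by
      obtain ⟨h1, h2⟩ := Bool.and_eq_true_iff.1 h
      obtain ⟨a, b⟩ := ih h2
      refine ⟨fun e he => by have := a e he; omega, fun u c d => ?_⟩
      rcases c.eq_or_lt with rfl | c
      · rw [List.filter_eq_nil_iff.2 fun e he => by have := a e he; simp; omega,
          List.isEmpty_iff.1 h1]; rfl
      · exact b u c (by omega)
    rcases L with _ | ⟨e, L⟩
    · exact key h
    rw [goRow] at h
    cases h0 : Nat.beq e.1 s <;> rw [h0] at h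
    · exact key h
    obtain ⟨h1, h2⟩ := Bool.and_eq_true_iff.1 h
    obtain ⟨a, b⟩ := ih h2
    have h3 := Nat.eq_of_beq_eq_true h0
    refine ⟨by simpa [h3] using fun x y hx => by have := a _ hx; simp at this; omega,
      fun u c d => ?_⟩
    rcases c.eq_or_lt with rfl | c
    · rw [List.filter_cons_of_pos (by simpa), List.filter_eq_nil_iff.2 fun e he => by
        have := a e he; simp; omega]
      simpa using h1
    · rw [List.filter_cons_of_neg (by simp; omega)]; exact b u c (by omega)

theorem getD_of_map_eq {α β : Type} {A : List α} {F : α → β} {G : ℕ → β} {k : ℕ}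
    (h : A.map F = (List.range k).map G) (d : α) {j : ℕ} (hj : j < k) : F (A.getD j d) = G j := by
  have h1 := congrArg List.length h
  have h2 := congrArg (·[j]?) h
  simp at h1
  simpa [hj, h1] using h2

variable {D : ChevalleyDatum} {M : Tab}

/-- The packed tables describe the datum modulo `2`. -/
structure Link (D : ChevalleyDatum) (M : Tab) : Prop where
  l : M.l = D.rank
  n : M.n = D.nroots
  col : ∀ r j, M.c2 r j = oddL (colN D r j)

theorem link_of_check (h0 : M.l = D.rank ∧ M.n = D.nroots ∧ D.chain.size = M.n)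
    (h1 : D.cartanSR.toList.map (fun a => a.toList.map oddZ) =
      (List.range M.l).map fun j => (List.range M.n).map fun r => (fld M.Cm 8 r).testBit j)
    (h2 : D.coroot.toList.map (fun a => a.toList.map oddZ) =
      (List.range M.n).map fun r => (List.range M.l).map (fld M.Hm 8 r).testBit)
    (h3 : D.negIdx.toList.map id = (List.range M.n).map (fld M.Ng 8))
    (h4 : D.chain.toList.zipIdx.all (fun x =>
      goRow M.l (fun s => M.dec (M.code x.2 s)) M.n 0 x.1.toList) = true)
    (h5 : ∀ r < M.n, M.code r r = 0 ∧ fld M.Ng 8 r ≠ r) : Link D M := by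
  obtain ⟨a, b, c⟩ := h0
  refine ⟨a, b, fun r j => ?_⟩
  have e : ∀ {α : Type} (A : Array α) (i : ℕ) (d : α), A.getD i d = A.toList.getD i d := by
    intros; simp
  simp only [Tab.c2, colN, Bool.cond_eq_ite, Nat.ble_eq, Nat.beq_eq, Nat.sub_eq, Nat.add_eq, ← a,
    ← b, ← not_le, ite_not, e]
  by_cases hr : M.n ≤ r
  · simp [hr, oddL]
  have hr' := not_le.1 hr
  rw [if_neg hr, if_neg hr]
  by_cases hj : M.l ≤ j
  swap
  · have := getD_of_map_eq (getD_of_map_eq h1 #[] (not_le.1 hj)) 0 hr'
    rw [if_neg hj, if_neg hj, ← this]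
    have h6 : ∀ m : ℤ, oddZ (-m) = oddZ m := fun m => by simp only [oddZ]; congr 1; omega
    simp only [oddL, List.filter_cons, h6]
    split_ifs <;> rfl
  rw [if_pos hj, if_pos hj]
  by_cases hs : M.n ≤ j - M.l
  · simp [hs, oddL]
  have h6 := getD_of_map_eq h3 0 hr'
  rw [if_neg hs, if_neg hs, show D.negIdx.toList.getD r 0 = _ from h6]
  by_cases h7 : j - M.l = r
  · rw [if_pos h7, h7, if_neg (h5 r hr').2.symm, (h5 r hr').1]; rfl
  rw [if_neg h7]
  split_ifs with h8
  · simp only [oddL, List.filter_append, List.map_append, List.filter_map, List.map_map]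
    congr 2
    refine List.filter_congr fun i hi => ?_
    exact (getD_of_map_eq (getD_of_map_eq h2 #[] hr') 0 (List.mem_range.1 hi)).symm
  · have := List.all_eq_true.1 h4 (D.chain[r]'(c ▸ hr'), r) (by
      rw [List.mem_zipIdx_iff_getElem?]; simp [c, hr'])
    rw [← (goRow_spec this).2 _ (Nat.zero_le _) (by omega), chainN, a]
    simp [Array.getD, c, hr']

variable {K : Type*} [Field K] [CharP K 2]

theorem Link.x_mulVec (h : Link D M) (r : ℕ) (t : K) (j : ℕ) : D.x K r t *ᵥ bv D K j =
    bv D K j + ((M.c2 r j).map fun y => t ^ y.2 • bv D K y.1).sum := by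
  rw [x_mulVec_bv, h.col, oddL, List.map_map, list_sum_filter]
  congr 2
  refine List.map_congr_left fun y _ => ?_
  rw [CharP.intCast_eq_intCast_mod K 2]
  rcases Int.emod_two_eq_zero_or_one y.2.2 with e | e <;> simp [oddZ, e]

/-! ### Words with polynomial parameters -/

/-- Monomials in four variables. -/
abbrev Mon := ℕ × ℕ × ℕ × ℕ

/-- Product of monomials. -/
def Mon.mul (m m' : Mon) : Mon :=
  (Nat.add m.1 m'.1, Nat.add m.2.1 m'.2.1, Nat.add m.2.2.1 m'.2.2.1, Nat.add m.2.2.2 m'.2.2.2)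

/-- Value of a monomial. -/
def Mon.val (v : K × K × K × K) (m : Mon) : K :=
  v.1 ^ m.1 * v.2.1 ^ m.2.1 * v.2.2.1 ^ m.2.2.1 * v.2.2.2 ^ m.2.2.2

/-- Value of a polynomial. -/
def pval (v : K × K × K × K) (p : List Mon) : K := (p.map (Mon.val v)).sum

/-- `m * p ^ k`. -/
def ppow (p : List Mon) (m : Mon) : ℕ → List Mon
  | 0 => [m]
  | k + 1 => (ppow p m k).flatMap fun a => p.map a.mul

variable (v : K × K × K × K)

theorem Mon.val_mul (m m' : Mon) : (m.mul m').val v = m.val v * m'.val v := by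
  simp only [Mon.val, Mon.mul, Nat.add_eq, pow_add]; ring

theorem pval_ppow (p : List Mon) (m : Mon) (k : ℕ) :
    pval v (ppow p m k) = m.val v * pval v p ^ k := by
  induction k with
  | zero => simp [ppow, pval]
  | succ k ih =>
    rw [pow_succ, ← mul_assoc, ← ih, ppow]
    generalize ppow p m k = L
    induction L with
    | nil => simp [pval]
    | cons a L ih =>
      simp only [pval, List.flatMap_cons, List.map_append, List.sum_append, List.map_cons,
        List.sum_cons, add_mul, List.map_map, Function.comp_def, Mon.val_mul] at ih ⊢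
      rw [ih, List.sum_map_mul_left]

/-- Value of a list of terms. -/
def tval (D : ChevalleyDatum) (v : K × K × K × K) (L : List (ℕ × Mon)) : D.Idx → K :=
  (L.map fun y => y.2.val v • bv D K y.1).sum

theorem tval_append (L L' : List (ℕ × Mon)) : tval D v (L ++ L') = tval D v L + tval D v L' := by
  simp [tval]

theorem tval_cons (y : ℕ × Mon) (L : List (ℕ × Mon)) :
    tval D v (y :: L) = y.2.val v • bv D K y.1 + tval D v L := by simp [tval]

/-- Action of a letter on a list of terms. -/
def Tab.step (M : Tab) (x : ℕ × List Mon) (L : List (ℕ × Mon)) : List (ℕ × Mon) :=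
  L.flatMap fun y => y :: (M.c2 x.1 y.1).flatMap fun z => (ppow x.2 y.2 z.2).map (z.1, ·)

/-- Action of a word on a basis vector. -/
def Tab.expand (M : Tab) (w : List (ℕ × List Mon)) (j : ℕ) : List (ℕ × Mon) :=
  w.foldr M.step [(j, 0, 0, 0, 0)]

/-- An instance of a word. -/
def winst (w : List (ℕ × List Mon)) : List (ℕ × K) := w.map fun x => (x.1, pval v x.2)

theorem Link.step (h : Link D M) (x : ℕ × List Mon) (L : List (ℕ × Mon)) :
    D.x K x.1 (pval v x.2) *ᵥ tval D v L = tval D v (M.step x L) := by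
  induction L with
  | nil => simp [tval, Tab.step]
  | cons y L ih =>
    rw [tval_cons, mulVec_add, ih, Tab.step, Tab.step, List.flatMap_cons, tval_append, tval_cons,
      mulVec_smul, h.x_mulVec, smul_add]
    congr 2
    generalize M.c2 x.1 y.1 = C
    induction C with
    | nil => simp [tval]
    | cons z C ih =>
      rw [List.map_cons, List.sum_cons, smul_add, ih, List.flatMap_cons, tval_append, smul_smul,
        ← pval_ppow]
      simp [tval, pval, List.sum_smul, Function.comp_def]

theorem Link.expand (h : Link D M) (w : List (ℕ × List Mon)) (j : ℕ) :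
    D.wordMat K (winst v w) *ᵥ bv D K j = tval D v (M.expand w j) := by
  induction w with
  | nil => simp [winst, ChevalleyDatum.wordMat, Tab.expand, tval, Mon.val]
  | cons x w ih =>
    rw [Tab.expand, List.foldr_cons, ← h.step, ← Tab.expand, ← ih, mulVec_mulVec]; rfl

/-- Insertion with cancellation. -/
def xins (y : ℕ × Mon) : List (ℕ × Mon) → List (ℕ × Mon)
  | [] => [y]
  | z :: L => cond (Nat.beq y.1 z.1 && y.2 == z.2) L (z :: xins y L)

/-- Cancel equal terms; if `inv` holds the first two variables are inverse to each other. -/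
def xnorm (inv : Bool) (L : List (ℕ × Mon)) : List (ℕ × Mon) :=
  L.foldr (fun y => xins (cond inv (y.1, y.2.1 - y.2.2.1, y.2.2.1 - y.2.1, y.2.2.2) y)) []

theorem tval_xins (y : ℕ × Mon) (L : List (ℕ × Mon)) :
    tval D v (xins y L) = tval D v (y :: L) := by
  induction L with
  | nil => rfl
  | cons z L ih =>
    rw [xins]
    cases h : (Nat.beq y.1 z.1 && y.2 == z.2)
    · simp only [cond_false, tval_cons, ih]; abel
    · simp only [Bool.and_eq_true, Nat.beq_eq, beq_iff_eq] at h
      rw [cond_true, tval_cons, tval_cons, h.1, h.2, ← add_assoc, ← add_smul,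
        CharTwo.add_self_eq_zero, zero_smul, zero_add]

variable {v}

theorem tval_xnorm {inv : Bool} (hv : inv → v.1 * v.2.1 = 1) (L : List (ℕ × Mon)) :
    tval D v (xnorm inv L) = tval D v L := by
  induction L with
  | nil => rfl
  | cons y L ih =>
    rw [xnorm, List.foldr_cons, tval_xins, tval_cons, tval_cons, ← xnorm, ih]
    cases inv
    · rfl
    have : ∀ a b : ℕ, v.1 ^ (a - b) * v.2.1 ^ (b - a) = v.1 ^ a * v.2.1 ^ b := fun a b => by
      rcases le_total a b with h | h <;> obtain ⟨c, rfl⟩ := Nat.exists_eq_add_of_le h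
      · simp [pow_add, ← mul_assoc, ← mul_pow, hv rfl]
      · simp [pow_add, mul_right_comm _ (v.1 ^ c), ← mul_pow, hv rfl]
    simp [Mon.val, this]

theorem tval_eq_of_xnorm {inv : Bool} (hv : inv → v.1 * v.2.1 = 1) {L L' : List (ℕ × Mon)}
    (h : (xnorm inv (L ++ L')).isEmpty) : tval D v L = tval D v L' := by
  have := tval_xnorm (D := D) hv (L ++ L')
  rw [List.isEmpty_iff.1 h, tval_append] at this
  ext i
  exact CharTwo.add_eq_zero.1 (congrFun this i).symm

theorem mat_ext_bv {A B : Matrix D.Idx D.Idx K}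
    (h : ∀ j < D.rank + D.nroots, A *ᵥ bv D K j = B *ᵥ bv D K j) : A = B := by
  ext i j
  simpa [bv_idx] using congrFun (h _ (idx_lt D j)) i

/-- Check of a word identity. -/
def Tab.weq (M : Tab) (inv : Bool) (w w' : List (ℕ × List Mon)) : Bool :=
  allN (fun j => (xnorm inv (M.expand w j ++ M.expand w' j)).isEmpty) (M.l + M.n)

theorem Link.weq (h : Link D M) {inv : Bool} (hv : inv → v.1 * v.2.1 = 1)
    {w w' : List (ℕ × List Mon)} (hw : M.weq inv w w') :
    D.wordMat K (winst v w) = D.wordMat K (winst v w') :=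
  mat_ext_bv fun j hj => by
    rw [h.expand, h.expand]
    exact tval_eq_of_xnorm hv (of_allN hw (by rwa [h.l, h.n]))

end Chev

end Cfsg

set_option linter.all false in
theorem Cfsg.Rz.Lie_Chev2_0 : True := by
  have := @_root_.Cfsg.Chev.oddL.eq_def
  have := @_root_.Cfsg.Chev.oddL.fun_cases
  have := @_root_.Cfsg.Chev.tval.eq_def.{0}
  have := @_root_.Cfsg.Chev.tval.fun_cases
  have := @_root_.Cfsg.Chev.xins.induct
  have := @_root_.Cfsg.Chev.xins.fun_cases
  have := @_root_.Cfsg.Chev.fld.eq_def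
  have := @_root_.Cfsg.Chev.fld.eq_1
  have := @_root_.Cfsg.Chev.fld.fun_cases
  have := @_root_.Cfsg.Chev.Tab.dec.eq_def
  have := @_root_.Cfsg.Chev.Tab.dec.eq_1
  have := @_root_.Cfsg.Chev.Tab.dec.fun_cases
  have := @_root_.Cfsg.Chev.winst.eq_def.{0}
  have := @_root_.Cfsg.Chev.winst.fun_cases
  have := @_root_.Cfsg.Chev.ppow.induct
  have := @_root_.Cfsg.Chev.ppow.fun_cases
  have := @_root_.Cfsg.Chev.Tab.code.eq_def
  have := @_root_.Cfsg.Chev.Tab.code.eq_1
  have := @_root_.Cfsg.Chev.Tab.code.fun_cases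
  have := @_root_.Cfsg.Chev.Tab.weq.eq_def
  have := @_root_.Cfsg.Chev.Tab.weq.eq_1
  have := @_root_.Cfsg.Chev.Tab.weq.fun_cases
  have := @_root_.Cfsg.Chev.Link.mk.congr_simp
  have := @_root_.Cfsg.Chev.Mon.eq_def
  have := @_root_.Cfsg.Chev.Mon.eq_1
  have := @_root_.Cfsg.Chev.Mon.fun_cases
  have := @_root_.Cfsg.Chev.Tab.expand.eq_def
  have := @_root_.Cfsg.Chev.Tab.expand.fun_cases
  have := @_root_.Cfsg.Chev.pval.eq_def.{0}
  have := @_root_.Cfsg.Chev.pval.fun_cases
  trivial

set_option linter.all false in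
theorem Cfsg.Rz.Lie_Chev2_1 : True := by
  have := @_root_.Cfsg.Chev.Mon.val.eq_def.{0}
  have := @_root_.Cfsg.Chev.Mon.val.fun_cases
  have := @_root_.Cfsg.Chev.xnorm.eq_def
  have := @_root_.Cfsg.Chev.xnorm.fun_cases
  have := @_root_.Cfsg.Chev.Tab.dg.eq_def
  have := @_root_.Cfsg.Chev.Tab.dg.eq_1
  have := @_root_.Cfsg.Chev.Tab.dg.fun_cases
  have := @_root_.Cfsg.Chev.Tab.c2.eq_def
  have := @_root_.Cfsg.Chev.Tab.c2.fun_cases
  have := @_root_.Cfsg.Chev.goRow.induct
  have := @_root_.Cfsg.Chev.goRow.fun_cases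
  have := @_root_.Cfsg.Chev.allN.eq_def
  have := @_root_.Cfsg.Chev.allN.eq_1
  have := @_root_.Cfsg.Chev.allN.induct
  have := @_root_.Cfsg.Chev.allN.fun_cases
  have := @_root_.Cfsg.Chev.oddZ.eq_def
  have := @_root_.Cfsg.Chev.oddZ.fun_cases
  have := @_root_.Cfsg.Chev.Mon.mul.eq_def
  have := @_root_.Cfsg.Chev.Mon.mul.fun_cases
  have := @_root_.Cfsg.Chev.Tab.step.eq_def
  have := @_root_.Cfsg.Chev.Tab.step.fun_cases
  trivial
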