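import Cfsg.Agent.Lie.Chev2
import Cfsg.Agent.Lie.BN2

/-!
# The relations of `IsBN2` from checks on the tables
-/

set_option autoImplicit false
set_option linter.unusedSectionVars false
set_option linter.unusedVariables false
set_option linter.style.haveILetI false
set_option linter.unusedSimpArgs false

namespace Cfsg

open Subgroup Matrix _root_.Cfsg.Lie

namespace Chev

/-- Further packed tables. -/
structure Tab2 extends Tab where
  S : ℕ
  al : ℕ
  Mt : ℕ
  W : ℕ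
  c : ℕ
  C : ℕ
  reps : List (ℕ × ℕ × List (ℕ × ℕ × ℕ))

/-- The first variable. -/
def pA : List Mon := [(1, 0, 0, 0)]

/-- The second variable. -/
def pB : List Mon := [(0, 1, 0, 0)]

/-- Hexadecimal digits. -/
def digs : ℕ → ℕ → List ℕ
  | 0, _ => []
  | k + 1, c => cond (Nat.beq c 0) [] (Nat.pred (Nat.mod c 16) :: digs k (Nat.div c 16))

namespace Tab2

variable (M : Tab2)

/-- The simple reflections. -/
def σ (i r : ℕ) : ℕ := fld (fld M.S (Nat.mul 8 M.n) i) 8 r

/-- The root system. -/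
def R : RootTab where
  l := M.l
  n := M.n
  α := fld M.al 8
  neg := fld M.Ng 8
  σ := M.σ
  pos r := Nat.ble (Nat.div M.n 2) r
  m := fld M.Mt 8

/-- The weight tables. -/
def wt (i : ℕ) : ℕ := fld M.W (Nat.mul 8 (Nat.add M.l M.n)) i

/-- The columns of `n_i`. -/
def nC (i j : ℕ) : List ℕ :=
  cond (Nat.ble M.l j) (cond (Nat.ble M.n (Nat.sub j M.l)) [] [Nat.add M.l (M.σ i (Nat.sub j M.l))])
    (j :: cond ((fld M.Cm 8 (M.R.α i)).testBit j) [i] [])

/-- The word `n_i(t)`. -/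
def nW (i : ℕ) : List (ℕ × List Mon) := [(M.R.α i, pA), (M.R.neg (M.R.α i), pB), (M.R.α i, pA)]

/-- Check of the columns of `n_i(t)`. -/
def cN (i : ℕ) : Bool := allN (fun j => (xnorm true (M.expand (M.nW i) j ++
  (M.nC i j).map fun u => (u, wN (M.wt i) u, 3, 0, 0))).isEmpty) (M.l + M.n)

/-- Check of a column of `n_i x_r(t) = x_{s_i r}(t) n_i`. -/
def cG (i r j : ℕ) : Bool := (xnorm false
  ((M.c2 r j).flatMap (fun y => (M.nC i y.1).map (·, y.2, 0, 0, 0)) ++
    (M.nC i j).flatMap fun u => (M.c2 (M.σ i r) u).map fun y => (y.1, y.2, 0, 0, 0))).isEmpty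

/-- Check of `n_i x_r(t) = x_{s_i r}(t) n_i`. -/
def cR (i : ℕ) : Bool := allN (fun r => allN (M.cG i r) M.l && (M.cG i r (M.l + M.R.neg r) &&
  allN (fun s => (Nat.beq (M.code r s) 0 && Nat.beq (M.code (M.σ i r) (M.σ i s)) 0) ||
    M.cG i r (Nat.add M.l s)) M.n)) M.n

/-- Check of a commutator relation. -/
def cC (x : ℕ × ℕ × List (ℕ × ℕ × ℕ)) : Bool :=
  M.weq false [(x.1, pA), (x.2.1, pB)] (x.2.2.map (fun y => (y.1, [(y.2.1, y.2.2, 0, 0)])) ++ [(x.1, pA)])

/-- Transport of a commutator relation. -/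
def cD (i r : ℕ) (L : List ℕ) (x : ℕ × ℕ × List (ℕ × ℕ × ℕ)) : Prop :=
  (∀ j ∈ L, j < M.l) ∧ x.1 < M.n ∧ x.2.1 < M.n ∧ M.R.σw L x.1 = M.R.α i ∧ M.R.σw L x.2.1 = r ∧
    ∀ y ∈ x.2.2, y.1 < M.n ∧ M.R.pos (M.R.σw L y.1) ∧ M.R.σw L y.1 ≠ M.R.α i

instance (i r : ℕ) (L : List ℕ) (x : ℕ × ℕ × List (ℕ × ℕ × ℕ)) : Decidable (M.cD i r L x) := by
  unfold cD; infer_instance

end Tab2

/-- The entry `(a, b)` of a word. -/
def Tab.ent (M : Tab) (w : List (ℕ × List Mon)) (a b : ℕ) : List Mon :=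
  ((xnorm false (M.expand w b)).filter fun y => y.1 = a).map (·.2)

/-- All the checks. -/
structure Cert (D : ChevalleyDatum) (M : Tab2) : Prop extends Link D M.toTab, M.R.OK where
  wt : ∀ i < M.l, IsWt D (M.wt i) 3
  wt0 : IsWt D (M.wt M.l) M.c
  wt1 : IsWt D (M.wt (M.l + 1)) M.c
  ht : ∀ r < M.n, (M.R.pos r → M.c < wN (M.wt M.l) (M.l + r)) ∧
    (¬ M.R.pos r → M.c < wN (M.wt (M.l + 1)) (M.l + r))
  ht' : ∀ j < M.l + M.n, wN (M.wt M.l) j + wN (M.wt (M.l + 1)) j = 2 * M.c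
  sm : ∀ i < M.l, (fld M.Cm 8 (M.R.α i)).testBit i = false ∧ (∀ j < M.l, wN (M.wt i) j = 3) ∧
    M.ent [(M.R.neg (M.R.α i), pA)] (M.l + M.R.neg (M.R.α i)) (M.l + M.R.α i) = [(2, 0, 0, 0)]
  cN : ∀ i < M.l, M.cN i
  cA : ∀ i < M.l, M.weq false [(M.R.α i, pA ++ pB)] [(M.R.α i, pA), (M.R.α i, pB)]
  cB : ∀ i < M.l, M.weq true (M.nW i)
    [(M.R.neg (M.R.α i), pB), (M.R.α i, pA), (M.R.neg (M.R.α i), pB)]
  cR : ∀ i < M.l, M.cR i
  cC : ∀ x ∈ M.reps, M.cC x
  cD : ∀ i < M.l, ∀ r < M.n, M.R.pos r → r ≠ M.R.α i →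
    fld M.C 64 (i * M.n + r) % 256 < M.reps.length ∧
    M.cD i r (digs 14 (fld M.C 64 (i * M.n + r) / 256))
      (M.reps.getD (fld M.C 64 (i * M.n + r) % 256) (0, 0, []))

variable {D : ChevalleyDatum} {M : Tab2} {K : Type*} [Field K] [CharP K 2]

theorem bv_eq_zero {u : ℕ} (h : D.rank + D.nroots ≤ u) : bv D K u = 0 :=
  funext fun i => if_neg (by have := idx_lt D i; omega)

theorem bv_dot {a : ℕ} (h : a < D.rank + D.nroots) (b : ℕ) :
    bv D K a ⬝ᵥ bv D K b = if b = a then 1 else 0 := by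
  obtain ⟨j, rfl⟩ := exists_idx D h
  rw [bv_idx, single_one_dotProduct, bv]; simp only [eq_comm]

theorem Link.ent {M : Tab} (h : Link D M) (v : K × K × K × K) (w : List (ℕ × List Mon)) {a : ℕ}
    (ha : a < D.rank + D.nroots) (b : ℕ) :
    bv D K a ⬝ᵥ D.wordMat K (winst v w) *ᵥ bv D K b = pval v (M.ent w a b) := by
  rw [h.expand, ← tval_xnorm (inv := false) (by simp), Tab.ent]
  generalize xnorm false (M.expand w b) = L
  induction L with
  | nil => simp [tval, pval]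
  | cons y L ih =>
    rw [tval_cons, dotProduct_add, ih, dotProduct_smul, bv_dot ha, List.filter_cons]
    by_cases e : y.1 = a <;> simp [e, pval]

theorem pval_pA (v : K × K × K × K) : pval v pA = v.1 := by simp [pval, pA, Mon.val]

theorem pval_pB (v : K × K × K × K) : pval v pB = v.2.1 := by simp [pval, pB, Mon.val]

theorem subMat_wordX {X : ℕ → K → D.group K} (hX : ∀ r t, subMat _ (X r t) = D.x K r t)
    (w : List (ℕ × K)) : subMat _ (wordX X w) = D.wordMat K w := by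
  simp [wordX, ChevalleyDatum.wordMat, map_list_prod, Function.comp_def, hX]

/-- The diagonal elements acting trivially on the Cartan subalgebra. -/
def diagGp (D : ChevalleyDatum) (K : Type*) [Field K] : Subgroup (D.group K) where
  carrier := {g | ∃ c : ℕ → Kˣ, (∀ j < D.rank, c j = 1) ∧
    ∀ j, rep _ g (bv D K j) = (c j : K) • bv D K j}
  mul_mem' := fun ⟨c, h1, h2⟩ ⟨d, h3, h4⟩ => ⟨c * d, fun j hj => by simp [h1 j hj, h3 j hj],
    fun j => by simp [h2, h4, smul_smul, mul_comm]⟩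
  one_mem' := ⟨1, by simp, by simp⟩
  inv_mem' := fun {g} ⟨c, h1, h2⟩ => ⟨c⁻¹, fun j hj => by simp [h1 j hj], fun j => by
    rw [← rep_inv_apply (rep _) g ((_ : K) • _), map_smul, h2, smul_smul]; simp⟩

namespace Cert

variable (h : Cert D M)
include h

theorem lt_iff {j : ℕ} : j < D.rank + D.nroots ↔ j < M.l + M.n := by rw [h.l, h.n]

theorem exists_X (K : Type*) [Field K] :
    ∃ X : ℕ → K → D.group K, ∀ r t, subMat _ (X r t) = D.x K r t := by
  have : ∀ r t, ∃ g : D.group K, subMat _ g = D.x K r t := fun r t => by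
    by_cases hr : r < D.nroots
    · obtain ⟨g, hg⟩ := exists_unit h.wt0 h.wt1 (w := [(r, t)]) (by
        have := h.ht r (h.n ▸ hr)
        rw [← h.l]; by_cases e : M.R.pos r <;> simp [this, e])
      replace hg : g.1 = D.x K r t := by simpa [ChevalleyDatum.wordMat] using hg
      exact ⟨⟨g, subset_closure ⟨⟨r, hr⟩, t, hg.trans (dif_pos hr)⟩⟩, hg⟩
    · exact ⟨1, by rw [map_one, ChevalleyDatum.x, dif_neg hr]⟩
  exact ⟨fun r t => (this r t).choose, fun r t => (this r t).choose_spec⟩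

variable {X : ℕ → K → D.group K} (hX : ∀ r t, subMat _ (X r t) = D.x K r t)
include hX

theorem weq {v : K × K × K × K} {inv : Bool} (hv : inv → v.1 * v.2.1 = 1)
    {w w' : List (ℕ × List Mon)} (hw : M.weq inv w w') :
    wordX X (winst v w) = wordX X (winst v w') :=
  subMat_injective _ (by rw [subMat_wordX hX, subMat_wordX hX, h.toLink.weq hv hw])

theorem nW_apply {i : ℕ} (hi : i < M.l) {a b : K} (hab : a * b = 1) (j : ℕ) :
    rep _ (X (M.R.α i) a * X (M.R.neg (M.R.α i)) b * X (M.R.α i) a) (bv D K j) =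
      ((M.nC i j).map fun u => (a ^ wN (M.wt i) u * b ^ 3) • bv D K u).sum := by
  by_cases hj : j < M.l + M.n
  · have := tval_eq_of_xnorm (D := D) (v := (a, b, 0, 0)) (fun _ => hab) (of_allN (h.cN i hi) hj)
    rw [← h.expand, ← subMat_wordX hX] at this
    simpa [Tab2.nW, winst, wordX, pval_pA, pval_pB, tval, Mon.val, Function.comp_def, mul_assoc,
      homRep_apply] using this
  · rw [bv_eq_zero (by rw [← h.l, ← h.n]; omega), map_zero, Tab2.nC,
      Nat.ble_eq_true_of_le (by omega), Nat.ble_eq_true_of_le (by simp; omega)]; rfl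

theorem nn_apply {i : ℕ} (hi : i < M.l) (j : ℕ) :
    rep _ (M.R.nn X i) (bv D K j) = ((M.nC i j).map (bv D K)).sum := by
  simpa [RootTab.nn] using h.nW_apply hX hi (mul_one 1) j

omit h hX in
theorem nC_add {i s : ℕ} (hs : s < M.n) : M.nC i (M.l + s) = [M.l + M.σ i s] := by
  simp [Tab2.nC, Bool.cond_eq_ite, hs.not_ge]

omit h hX in
theorem nC_lt {i j : ℕ} (hj : j < M.l) :
    M.nC i j = j :: cond ((fld M.Cm 8 (M.R.α i)).testBit j) [i] [] := by
  simp [Tab2.nC, Bool.cond_eq_ite, hj.not_ge]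

theorem conj {i : ℕ} (hi : i < M.l) {r : ℕ} (hr : r < M.n) (t : K) :
    M.R.nn X i * X r t = X (M.σ i r) t * M.R.nn X i := by
  have h1 := of_allN (h.cR i hi) hr
  simp only [Bool.and_eq_true] at h1
  refine subMat_injective _ (mat_ext_bv fun j hj => ?_)
  have h2 : M.cG i r j := by
    rw [← h.l, ← h.n] at hj
    by_cases c1 : j < M.l
    · exact of_allN h1.1 c1
    obtain ⟨s, rfl⟩ := Nat.exists_eq_add_of_le (not_lt.1 c1)
    have hs : s < M.n := by omega
    by_cases c2 : s = M.R.neg r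
    · exact c2 ▸ h1.2.1
    refine (Bool.or_eq_true_iff.1 (of_allN h1.2.2 hs)).elim (fun c3 => ?_) id
    simp only [Bool.and_eq_true, Nat.beq_eq] at c3
    obtain ⟨a1, a2, a3, -⟩ := h.refl i hi r hr
    obtain ⟨b1, b2, -⟩ := h.refl i hi s hs
    have c4 : M.σ i s ≠ fld M.Ng 8 (M.σ i r) := fun e => c2 (b2.symm.trans ((congrArg _
      (e.trans a3.symm)).trans (h.refl i hi _ (h.neg_lt r hr).1).2.1))
    simp [Tab2.cG, nC_add hs, Tab.c2, Bool.cond_eq_ite, c3, show s ≠ fld M.Ng 8 r from c2, c4,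
      Tab.dec, xnorm]
  have h3 := tval_eq_of_xnorm (D := D) (v := (t, 0, 0, 0)) (by simp) h2
  have h4 := h.nn_apply hX hi
  simp only [homRep_apply] at h4
  rw [map_mul, map_mul, ← mulVec_mulVec, ← mulVec_mulVec, hX, hX, h.x_mulVec, mulVec_add, h4]
  have h5 : ∀ L : List ℕ, D.x K (M.σ i r) t *ᵥ (L.map (bv D K)).sum = (L.map (bv D K)).sum +
      tval D (t, 0, 0, 0) (L.flatMap fun u => (M.c2 (M.σ i r) u).map fun y => (y.1, y.2, 0, 0, 0)) :=
    fun L => by
      induction L with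
      | nil => simp [tval]
      | cons u L ih =>
        rw [List.map_cons, List.sum_cons, mulVec_add, ih, h.x_mulVec, List.flatMap_cons, tval_append]
        simp [tval, Mon.val, Function.comp_def]; abel
  rw [h5, ← h3]
  congr 1
  generalize M.c2 r j = C
  induction C with
  | nil => simp [tval]
  | cons y C ih =>
    rw [List.map_cons, List.sum_cons, mulVec_add, ih, mulVec_smul, h4, List.flatMap_cons,
      tval_append]
    simp [tval, Mon.val, Function.comp_def, List.smul_sum]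

variable [Finite K]

theorem mem_unip {T c : ℕ} (hT : IsWt D T c) {S : ℕ → Prop} (hS : ∀ r, S r → c < wN T (M.l + r)) :
    rootGp X S ≤ flagUnip (rep _) (wtFlag D K T) := rootGp_le fun r t hr =>
  MUnip.mem (isFlag_wtFlag D T) (by
    simpa [ChevalleyDatum.wordMat, ← hX] using mUnip_wordMat hT (w := [(r, t)])
      (by simpa [← h.l] using hS r hr))

theorem isBN2 : IsBN2 M.R X (diagGp D K) := by
  have hU : M.R.U X ≤ _ := h.mem_unip hX h.wt0 fun r hr => (h.ht r hr.1).1 hr.2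
  have hV : M.R.V X ≤ _ := h.mem_unip hX h.wt1 fun r hr => (h.ht r hr.1).2 hr.2
  have ext : ∀ {g g' : D.group K}, (∀ j < M.l + M.n, rep _ g (bv D K j) = rep _ g' (bv D K j)) →
      g = g' := fun e => subMat_injective _ (mat_ext_bv fun j hj => e j (h.lt_iff.1 hj))
  refine { h.toOK with
    add0 := fun i hi t u => ?_
    conj := fun i hi r hr => h.conj hX hi hr
    comm := fun i hi r hr a b => ?_
    H_nn := fun i hi d ⟨c, h1, h2⟩ => ?_
    H_mem := fun i hi t ht d hd => ?_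
    H_two := fun d ⟨c, h1, h2⟩ k hk => ext fun j hj => ?_
    braid := fun i hi t ht => ?_
    gen := eq_top_of_closure fun g ⟨r, t, e⟩ => ?_
    disj := fun g a b => ext fun j hj => funext fun k => ?_
    ne_one := fun i hi t ht e => ?_
    pU := ((isFlag_wtFlag D _).isPGroup (rep_injective _)).to_le hU }
  · simpa [winst, wordX, pval, pA, pB, Mon.val] using
      h.weq hX (v := (t, u, 0, 0)) (by simp) (h.cA i hi)
  · obtain ⟨a1, a2, a3, a4, a5, a6, a7⟩ := h.cD i hi r hr a b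
    have a8 := h.cC (M.reps.getD (fld M.C 64 (i * M.n + r) % 256) (0, 0, [])) (by simp [a1])
    generalize M.reps.getD _ _ = x at *
    refine ⟨_, _, _, x.2.2.map (·.1), a2, a3, a4, a5, a6, List.forall_mem_map.2 a7, fun t u => ?_⟩
    have := h.weq hX (v := (t, u, 0, 0)) (by simp) a8
    simp only [winst, wordX, pval_pA, pval_pB, List.map_cons, List.map_nil, List.prod_cons,
      List.prod_nil, mul_one, List.map_append, List.prod_append] at this
    rw [this, mul_inv_cancel_right]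
    refine list_prod_mem fun z hz => ?_
    simp only [List.map_map, List.mem_map] at hz
    obtain ⟨y, hy, rfl⟩ := hz
    exact mem_rootGp (List.mem_map_of_mem hy) _
  · refine ⟨fun j => if j < M.l then 1 else c (M.l + M.σ i (j - M.l)), fun j hj => if_pos (h.l ▸ hj),
      fun j => ?_⟩
    rw [rep_mul_apply, rep_mul_apply, ← rep_inv_apply (rep _) (M.R.nn X i) ((_ : K) • _), map_smul,
      h.nn_apply hX hi]
    congr 1
    dsimp only
    split_ifs with hj
    · rw [nC_lt hj]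
      cases (fld M.Cm 8 (M.R.α i)).testBit j <;> simp [h2, h1 j (h.l ▸ hj), h1 i (h.l ▸ hi)]
    obtain ⟨s, rfl⟩ := Nat.exists_eq_add_of_le (not_lt.1 hj)
    by_cases hs : s < M.n
    · simp [nC_add hs, h2]
    · simp [Tab2.nC, Bool.cond_eq_ite, not_lt.1 hs]
  · obtain ⟨a1, a2, -⟩ := h.sm i hi
    have a3 := h.nW_apply hX hi (mul_inv_cancel₀ ht)
    have a4 : ∀ j, rep _ d ((M.nC i j).map (bv D K)).sum = _ := fun j => by
      rw [← h.nn_apply hX hi, hd, rep_mul_apply, rep_inv_apply, a3]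
    have a5 : ∀ j < M.l, t ^ wN (M.wt i) j * t⁻¹ ^ 3 = 1 := fun j hj => by
      rw [a2 j hj, ← mul_pow, mul_inv_cancel₀ ht, one_pow]
    have a6 : ∀ j, rep _ d (bv D K j) = (t ^ wN (M.wt i) j * t⁻¹ ^ 3) • bv D K j := fun j => by
      by_cases hj : j < M.l
      · have b1 := a4 i
        have b2 := a4 j
        rw [nC_lt hi, a1] at b1
        rw [nC_lt hj] at b2
        revert b2
        cases (fld M.Cm 8 (M.R.α i)).testBit j <;> simp at b1 <;> simp [b1]
      obtain ⟨s, rfl⟩ := Nat.exists_eq_add_of_le (not_lt.1 hj)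
      by_cases hs : s < M.n
      · obtain ⟨b1, b2, -⟩ := h.refl i hi s hs
        simpa [nC_add b1, show M.σ i (M.R.σ i s) = s from b2] using a4 (M.l + M.R.σ i s)
      · simp [bv_eq_zero (K := K) (show D.rank + D.nroots ≤ M.l + s by rw [← h.l, ← h.n]; omega)]
    refine ⟨⟨fun j => Units.mk0 _ (mul_ne_zero (pow_ne_zero _ ht) (pow_ne_zero 3 (inv_ne_zero ht))),
      fun j hj => Units.ext (a5 j (h.l ▸ hj)), a6⟩,
      fun r hr u => ⟨t ^ wN (M.wt i) (D.rank + r) * t⁻¹ ^ 3 * u, ext fun j hj => ?_⟩⟩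
    rw [rep_mul_apply, rep_mul_apply, a6, map_smul, homRep_apply _ (X r _), homRep_apply _ (X r _),
      hX, hX, x_mulVec_bv, x_mulVec_bv, map_add, a6, smul_add, map_list_sum, List.smul_sum,
      List.map_map, List.map_map]
    congr 2
    refine List.map_congr_left fun y hy => ?_
    have b1 := congrArg (fun n => t ^ n * t⁻¹ ^ (y.2.1 * 3)) (h.wt i hi r j y hy).2
    simp only [pow_add, mul_assoc, ← mul_pow, mul_inv_cancel₀ ht] at b1
    simp only [Function.comp_apply, map_smul, a6, smul_smul]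
    congr 1
    rw [one_pow, mul_one] at b1
    rw [b1]; ring
  · have a1 : ∀ m, rep _ (d ^ m) (bv D K j) = (c j : K) ^ m • bv D K j := fun m => by
      induction m with
      | zero => simp
      | succ m ih => rw [pow_succ, rep_mul_apply, h2, map_smul, ih, smul_smul, pow_succ']
    have a2 := congrArg (bv D K j ⬝ᵥ ·) (a1 (2 ^ k))
    simp only [hk, map_one, Module.End.one_apply, dotProduct_smul,
      bv_dot (h.lt_iff.2 hj), if_true, smul_eq_mul, mul_one] at a2
    rw [h2, (iterateFrobenius K 2 k).injective (a2.symm.trans (map_one _).symm)]; simp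
  · simpa [Tab2.nW, winst, wordX, pval_pA, pval_pB, mul_assoc] using
      h.weq hX (v := (t, t⁻¹, 0, 0)) (fun _ => mul_inv_cancel₀ ht) (h.cB i hi)
  · rw [show g = X r t from subMat_injective _ (e.trans ((hX _ _).trans (dif_pos r.2)).symm)]
    exact mem_rootGp (S := (· < M.n)) (r.2.trans_eq h.n.symm) t
  · have a1 := (hU a).2 _ _ (bv_mem D (le_refl (wN _ j))) k
    have a2 := (hV b).2 _ _ (bv_mem D (le_refl (wN _ j))) k
    have a3 := h.ht' j hj
    have a4 := h.ht' _ (h.lt_iff.1 (idx_lt D k))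
    rw [map_one, Module.End.one_apply, ← sub_eq_zero]
    by_cases a5 : wN (M.wt M.l) (idx D k) < wN (M.wt M.l) j + 1
    exacts [a1 a5, a2 (by omega)]
  · obtain ⟨a1, a2, -⟩ := h.simple i hi
    obtain ⟨b1, -, b2⟩ := h.neg_lt _ a1
    have a3 := h.lt_iff.2 (Nat.add_lt_add_left b1 M.l)
    have := h.ent (t, 0, 0, 0) [(M.R.neg (M.R.α i), pA)] a3 (M.l + M.R.α i)
    rw [(h.sm i hi).2.2, ← subMat_wordX hX] at this
    have a4 : M.R.α i ≠ M.R.neg (M.R.α i) := fun e => by rw [← e, a2] at b2; simp at b2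
    simp [winst, wordX, pA, e, bv_dot a3, a4, pval, Mon.val, ht, eq_comm] at this
    exact ht (pow_eq_zero_iff two_ne_zero |>.1 this.symm)

omit hX in
theorem sylowEA (K : Type*) [Field K] [CharP K 2] [Finite K] : SylowEA 2 (D.group K) := by
  obtain ⟨X, hX⟩ := h.exists_X K
  exact (h.isBN2 hX).sylowEA

end Cert

end Chev

end Cfsg

set_option linter.all false in
theorem Cfsg.Rz.Lie_Chev2BN_0 : True := by
  have := @_root_.Cfsg.Chev.Tab2.cG.eq_def
  have := @_root_.Cfsg.Chev.Tab2.cG.fun_cases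
  have := @_root_.Cfsg.Chev.Tab2.cR.eq_def
  have := @_root_.Cfsg.Chev.Tab2.cR.eq_1
  have := @_root_.Cfsg.Chev.Tab2.cR.fun_cases
  have := @_root_.Cfsg.Chev.Tab2.nW.eq_def
  have := @_root_.Cfsg.Chev.Tab2.nW.fun_cases
  have := @_root_.Cfsg.Chev.Tab2.cD.eq_def
  have := @_root_.Cfsg.Chev.Tab2.cD.eq_1
  have := @_root_.Cfsg.Chev.Tab2.cD.fun_cases
  have := @_root_.Cfsg.Chev.digs.eq_def
  have := @_root_.Cfsg.Chev.digs.eq_1
  have := @_root_.Cfsg.Chev.digs.induct
  have := @_root_.Cfsg.Chev.digs.fun_cases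
  have := @_root_.Cfsg.Chev.Tab2.nC.eq_def
  have := @_root_.Cfsg.Chev.Tab2.nC.fun_cases
  have := @_root_.Cfsg.Chev.Tab2.σ.eq_def
  have := @_root_.Cfsg.Chev.Tab2.σ.eq_1
  have := @_root_.Cfsg.Chev.Tab2.σ.fun_cases
  have := @_root_.Cfsg.Chev.Tab2.instDecidableCD.eq_def
  have := @_root_.Cfsg.Chev.Tab2.instDecidableCD.eq_1
  have := @_root_.Cfsg.Chev.Tab2.instDecidableCD.fun_cases
  have := @_root_.Cfsg.Chev.Tab2.cC.eq_def
  have := @_root_.Cfsg.Chev.Tab2.cC.eq_1
  have := @_root_.Cfsg.Chev.Tab2.cC.fun_cases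
  have := @_root_.Cfsg.Chev.diagGp.eq_def.{0}
  have := @_root_.Cfsg.Chev.diagGp.eq_1.{0}
  have := @_root_.Cfsg.Chev.diagGp.fun_cases
  have := @_root_.Cfsg.Chev.Tab2.wt.eq_def
  have := @_root_.Cfsg.Chev.Tab2.wt.eq_1
  trivial

set_option linter.all false in
theorem Cfsg.Rz.Lie_Chev2BN_1 : True := by
  have := @_root_.Cfsg.Chev.Tab2.wt.fun_cases
  have := @_root_.Cfsg.Chev.Tab.ent.eq_def
  have := @_root_.Cfsg.Chev.Tab.ent.fun_cases
  have := @_root_.Cfsg.Chev.Cert.mk.congr_simp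
  have := @_root_.Cfsg.Chev.pA.eq_def
  have := @_root_.Cfsg.Chev.pA.fun_cases
  have := @_root_.Cfsg.Chev.Tab2.cN.eq_def
  have := @_root_.Cfsg.Chev.Tab2.cN.eq_1
  have := @_root_.Cfsg.Chev.Tab2.cN.fun_cases
  have := @_root_.Cfsg.Chev.Tab2.R.eq_def
  have := @_root_.Cfsg.Chev.Tab2.R.eq_1
  have := @_root_.Cfsg.Chev.Tab2.R.fun_cases
  have := @_root_.Cfsg.Chev.pB.eq_def
  have := @_root_.Cfsg.Chev.pB.fun_cases
  trivial
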