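import Cfsg.Agent.Lie.Chev2BN
import Cfsg.Agent.Lie.BN2Tw

/-!
# Twisted subgroups of Chevalley groups in characteristic `2`: the checks
-/

set_option autoImplicit false
set_option linter.unusedSectionVars false
set_option linter.unusedVariables false
set_option linter.style.haveILetI false
set_option linter.unusedSimpArgs false

namespace Cfsg

open Subgroup Matrix _root_.Cfsg.Lie

/-- The elements intertwining a subrepresentation and a quotient along a semilinear map. -/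
def semiFix {K V G : Type*} [Field K] [AddCommGroup V] [Module K V] [Group G] {φ : K →+* K}
    (ρ : Representation K G V) (I C : Submodule K V) (S : V →ₛₗ[φ] V) : Submonoid G where
  carrier := {g | (∀ v ∈ C, ρ g v ∈ C) ∧ ∀ v ∈ I, ρ g v ∈ I ∧ S (ρ g v) - ρ g (S v) ∈ C}
  one_mem' := ⟨by simp, by simp⟩
  mul_mem' {a b} ha hb := ⟨fun v hv => by rw [rep_mul_apply]; exact ha.1 _ (hb.1 v hv),
    fun v hv => by
      obtain ⟨h1, h2⟩ := hb.2 v hv
      obtain ⟨h3, h4⟩ := ha.2 _ h1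
      simpa [h3] using add_mem h4 (ha.1 _ h2)⟩

theorem wordX_append {G K : Type*} [Group G] (X : ℕ → K → G) (w w' : List (ℕ × K)) :
    wordX X (w ++ w') = wordX X w * wordX X w' := by simp [wordX]

namespace Chev

variable {D : ChevalleyDatum} {M : Tab2} {K : Type*} [Field K] [CharP K 2] {φ : K →+* K}

/-- The semilinear map given by a table. -/
noncomputable def sMap (D : ChevalleyDatum) (φ : K →+* K) (s : ℕ) :
    (D.Idx → K) →ₛₗ[φ] (D.Idx → K) where
  toFun v := ∑ j, φ (v j) • bv D K (wN s (idx D j))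
  map_add' v w := by simp [add_smul, Finset.sum_add_distrib]
  map_smul' c v := by simp [Finset.smul_sum, smul_smul]

theorem sMap_bv (s : ℕ) {b : ℕ} (hb : b < D.rank + D.nroots) :
    sMap D φ s (bv D K b) = bv D K (wN s b) := by
  obtain ⟨j, rfl⟩ := exists_idx D hb
  simp [sMap, bv_idx, Pi.single_apply, apply_ite φ, -Fintype.sum_sum_type]

@[elab_as_elim]
theorem wtFlag_induction {T i : ℕ} {P : (D.Idx → K) → Prop} {v : D.Idx → K}
    (hv : v ∈ wtFlag D K T i) (h0 : P 0) (h1 : ∀ v w, P v → P w → P (v + w))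
    (h2 : ∀ (c : K), ∀ j < D.rank + D.nroots, i ≤ wN T j → P (c • bv D K j)) : P v := by
  rw [eq_sum_bv D v]
  refine Finset.sum_induction _ P h1 h0 fun j _ => ?_
  by_cases hj : wN T (idx D j) < i
  · simpa [hv j hj]
  · exact h2 _ _ (idx_lt D j) (not_lt.1 hj)

theorem tval_mem {T : ℕ} (v : K × K × K × K) {L : List (ℕ × Mon)}
    (h : (xnorm false L).all fun y => Nat.ble 1 (wN T y.1)) : tval D v L ∈ wtFlag D K T 1 := by
  rw [← tval_xnorm (inv := false) (by simp)]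
  exact list_sum_mem (List.forall_mem_map.2 fun y hy => Submodule.smul_mem _ _
    (bv_mem D (Nat.le_of_ble_eq_true (List.all_eq_true.1 h y hy))))

/-- Tables describing a twist. -/
structure Tw where
  s : ℕ
  I : ℕ
  C : ℕ

/-- The elements fixed by the twist. -/
noncomputable def Tw.fix (τ : Tw) (D : ChevalleyDatum) (φ : K →+* K) : Submonoid (D.group K) :=
  semiFix (rep _) (wtFlag D K τ.I 1) (wtFlag D K τ.C 1) (sMap D φ τ.s)

/-- Check that a word is fixed by the twist. -/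
def Tab.fixOK (M : Tab) (τ : Tw) (ψ : Mon → Mon) (w : List (ℕ × List Mon)) : Bool := allN (fun b =>
  (Nat.beq (wN τ.C b) 0 || (xnorm false (M.expand w b)).all fun y => Nat.ble 1 (wN τ.C y.1)) &&
  (Nat.beq (wN τ.I b) 0 || ((xnorm false (M.expand w b)).all (fun y => Nat.ble 1 (wN τ.I y.1)) &&
    ((M.expand w b).all (fun y => Nat.blt y.1 (M.l + M.n)) &&
    (xnorm false ((M.expand w b).map (fun y => (wN τ.s y.1, ψ y.2)) ++
      M.expand w (wN τ.s b))).all fun y => Nat.ble 1 (wN τ.C y.1))))) (M.l + M.n)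

theorem Link.mem_fix {M : Tab} (h : Link D M) {τ : Tw} {ψ : Mon → Mon} {v : K × K × K × K}
    (hψ : ∀ m : Mon, φ (m.val v) = (ψ m).val v) {w : List (ℕ × List Mon)} (hw : M.fixOK τ ψ w)
    {X : ℕ → K → D.group K} (hX : ∀ r t, subMat _ (X r t) = D.x K r t) :
    wordX X (winst v w) ∈ τ.fix D φ := by
  have h1 : ∀ j, rep _ (wordX X (winst v w)) (bv D K j) = tval D v (M.expand w j) := fun j => by
    rw [homRep_apply, subMat_wordX hX, h.expand]
  have h2 := fun j (hj : j < D.rank + D.nroots) => of_allN hw (k := j) (by rwa [h.l, h.n])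
  simp only [Bool.and_eq_true, Bool.or_eq_true, Nat.beq_eq] at h2
  refine ⟨fun z hz => ?_, fun z hz => ?_⟩ <;>
    refine wtFlag_induction hz (by simp) (fun _ _ a b => ?_) (fun c j a b => ?_)
  · simpa using add_mem a b
  rotate_left
  · exact ⟨by simpa using add_mem a.1 b.1, by simpa [add_sub_add_comm] using add_mem a.2 b.2⟩
  rotate_left
  · rw [map_smul, h1]
    exact Submodule.smul_mem _ _ (tval_mem v ((h2 j a).1.resolve_left (by omega)))
  obtain ⟨b1, b2, b3⟩ := (h2 j a).2.resolve_left (by omega)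
  rw [map_smul, map_smulₛₗ, map_smulₛₗ, map_smul, ← smul_sub, sMap_bv _ a, h1, h1]
  refine ⟨Submodule.smul_mem _ _ (tval_mem v b1), Submodule.smul_mem _ _ ?_⟩
  have b4 : sMap D φ τ.s (tval D v (M.expand w j)) =
      tval D v ((M.expand w j).map fun y => (wN τ.s y.1, ψ y.2)) := by
    rw [tval, tval, map_list_sum, List.map_map, List.map_map]
    congr 1
    refine List.map_congr_left fun y hy => ?_
    simp [sMap_bv _ (show y.1 < D.rank + D.nroots by
      simpa [h.l, h.n] using List.all_eq_true.1 b2 y hy), hψ]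
  convert tval_mem (D := D) v b3 using 1
  ext k
  simp [b4, tval_append, CharTwo.sub_eq_add]

/-- The generic word on at most four roots. -/
def genW (L : List ℕ) : List (ℕ × List Mon) := L.zip [pA, pB, [(0, 0, 1, 0)], [(0, 0, 0, 1)]]

theorem exists_genW {w : List (ℕ × K)} (h : w.length ≤ 4) :
    ∃ v, w = winst v (genW (w.map (·.1))) := by
  refine ⟨((w.getD 0 (0, 0)).2, (w.getD 1 (0, 0)).2, (w.getD 2 (0, 0)).2, (w.getD 3 (0, 0)).2), ?_⟩
  rcases w with _ | ⟨a, _ | ⟨b, _ | ⟨c, _ | ⟨d, _ | ⟨e, w⟩⟩⟩⟩⟩ <;>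
    simp [winst, genW, pval, pA, pB, Mon.val] at h ⊢
  omega

/-- Check of a class. -/
def Tab2.clsOK (M : Tab2) (T c : ℕ) (L : List ℕ) : Prop :=
  (∀ j ∈ L, j < M.l ∧ c ≤ wN T (M.l + M.R.neg (M.R.α j))) ∧
    (∀ r < M.n, M.R.pos r → c ≤ wN T (M.l + r) ∧
      (c < wN T (M.l + r) ∨ ¬ M.R.pos (M.R.σw L.reverse r))) ∧
    (∀ r ∈ M.R.rts L, M.R.pos r) ∧ (M.R.rts L).length ≤ 4

instance (T c : ℕ) (L : List ℕ) : Decidable (M.clsOK T c L) := by
  unfold Tab2.clsOK; infer_instance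

/-- Check of a relation between the parameters of a fixed element. -/
def Tab2.rdOK (M : Tab2) (τ : Tw) (T : ℕ) (L : List ℕ) (a b : ℕ) (p p' : List Mon) : Prop :=
  a < M.l + M.n ∧ b < M.l + M.n ∧ wN τ.s a < M.l + M.n ∧ 1 ≤ wN τ.I b ∧ wN τ.C (wN τ.s a) < 1 ∧
    (∀ k < M.l + M.n, wN τ.s k = wN τ.s a → k = a) ∧ wN T a ≤ wN T b ∧
    wN T (wN τ.s a) ≤ wN T (wN τ.s b) ∧ M.ent (genW (M.R.rts L)) a b = p ∧
    M.ent (genW (M.R.rts L)) (wN τ.s a) (wN τ.s b) = p'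

instance (τ : Tw) (T : ℕ) (L : List ℕ) (a b : ℕ) (p p' : List Mon) :
    Decidable (M.rdOK τ T L a b p p') := by
  unfold Tab2.rdOK; infer_instance

/-- The word for a product of the `n_i`. -/
def Tab2.nWd (M : Tab2) (L : List ℕ) : List (ℕ × List Mon) := L.flatMap fun i =>
  [(M.R.α i, [(0, 0, 0, 0)]), (M.R.neg (M.R.α i), [(0, 0, 0, 0)]), (M.R.α i, [(0, 0, 0, 0)])]

namespace Cert

variable (h : Cert D M) {X : ℕ → K → D.group K} (hX : ∀ r t, subMat _ (X r t) = D.x K r t)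
  [Finite K]
include h hX

theorem nw_mem {G1 : Subgroup (D.group K)} {L : List ℕ} {w₁ w₂ w₃ : List (ℕ × List Mon)}
    (hw : M.weq false (M.nWd L) (w₁ ++ w₂ ++ w₃)) (h1 : wordX X (winst (0, 0, 0, 0) w₁) ∈ G1)
    (h2 : wordX X (winst (0, 0, 0, 0) w₂) ∈ G1) (h3 : wordX X (winst (0, 0, 0, 0) w₃) ∈ G1) :
    M.R.nw X L ∈ G1 := by
  have := h.weq hX (v := (0, 0, 0, 0)) (by simp) hw
  rw [winst, winst, List.map_append, List.map_append, wordX_append, wordX_append] at this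
  convert this ▸ mul_mem (mul_mem h1 h2) h3 using 1
  clear * -
  induction L with
  | nil => rfl
  | cons i L ih =>
    rw [Tab2.nWd, List.flatMap_cons, List.map_append, wordX_append, ← Tab2.nWd, ← ih]
    simp [RootTab.nw, RootTab.nn, wordX, pval, Mon.val, mul_assoc]

theorem cls {τ : Tw} {G1 : Subgroup (D.group K)} (hG : ∀ g ∈ G1, g ∈ τ.fix D φ) {T c : ℕ}
    (hT : IsWt D T c) {L : List ℕ} (hL : M.clsOK T c L) (hn : M.R.nw X L ∈ G1)
    (hx : ∀ v, (∀ a b p p', M.rdOK τ T L a b p p' → pval v p' = φ (pval v p)) →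
      wordX X (winst v (genW (M.R.rts L))) ∈ powComm 2 (rootGp X (· ∈ M.R.rts L) ⊓ G1)) :
    (∀ j ∈ L, j < M.R.l) ∧ M.R.nw X L ∈ G1 ∧ ∀ u ∈ M.R.U X, u ∈ G1 →
      ∃ x ∈ powComm 2 (rootGp X (· ∈ M.R.rts L) ⊓ G1),
        (M.R.nw X L)⁻¹ * (x⁻¹ * u) * M.R.nw X L ∈ M.R.U X := by
  obtain ⟨a1, a2, a3, a4⟩ := hL
  have hb := h.isBN2 hX
  have a5 := fun j hj => (a1 j hj).1
  refine ⟨a5, hn, fun u hu hu' => ?_⟩
  have a6 : ∀ r t, c ≤ wN T (M.l + r) → X r t ∈ flagStab (rep _) (wtFlag D K T) := fun r t hr =>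
    MPres.mem (by
      simpa [ChevalleyDatum.wordMat, ← hX] using mPres_wordMat hT (w := [(r, t)])
        (by simpa [← h.l] using hr))
  have a7 : M.R.U X ≤ flagStab (rep _) (wtFlag D K T) :=
    rootGp_le fun r t hr => a6 r t (a2 r hr.1 hr.2).1
  obtain ⟨w, b1, b2, b3⟩ := hb.peel_cls ((isFlag_wtFlag D T).isPGroup (rep_injective _))
    (a7.trans flagStab_le_normalizer) a5 (flagStab_le_normalizer (list_prod_mem
      (List.forall_mem_map.2 fun j hj => mul_mem (mul_mem (a7 (hb.α_mem_U (a5 j hj) 1))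
        (a6 _ _ (a1 j hj).2)) (a7 (hb.α_mem_U (a5 j hj) 1)))))
    (fun r hr hp => (a2 r hr hp).2.imp_left fun e t =>
      h.mem_unip hX hT (S := (· = r)) (by simpa) (mem_rootGp_eq X r t)) a3 hu
  obtain ⟨v, rfl⟩ : ∃ v, w = winst v (genW (M.R.rts L)) :=
    b1 ▸ exists_genW (by rwa [← b1, List.length_map] at a4)
  refine ⟨_, hx v fun a b p p' ⟨c1, c2, c3, c4, c5, c6, c7, c8, c9, c10⟩ => ?_, b3⟩
  set x := wordX X (winst v (genW (M.R.rts L)))
  have b4 : x ∈ flagStab (rep _) (wtFlag D K T) := by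
    simpa using mul_mem (a7 hu) (inv_mem (flagUnip_le b2))
  have b5 : ∀ (a : D.Idx) b, wN T (idx D a) ≤ wN T b →
      rep _ u (bv D K b) a = pval v (M.ent (genW (M.R.rts L)) (idx D a) b) := fun a b hab => by
    have := (b4 _ _).2 (b2.2 _ _ (bv_mem D (le_refl (wN T b)))) a (by omega)
    rw [map_sub, ← rep_mul_apply, mul_inv_cancel_left, Pi.sub_apply, sub_eq_zero] at this
    rw [this, ← h.ent v _ (idx_lt D a), ← subMat_wordX hX, bv_idx, single_one_dotProduct]; rfl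
  obtain ⟨a, rfl⟩ := exists_idx D (h.lt_iff.2 c1)
  obtain ⟨a', e⟩ := exists_idx D (h.lt_iff.2 c3)
  have b6 := ((hG u hu').2 _ (bv_mem D c4)).2 a' (e ▸ c5)
  rw [sMap_bv _ (h.lt_iff.2 c2), Pi.sub_apply, sub_eq_zero, b5 _ _ (e ▸ c8), e, c10] at b6
  rw [← b6, ← c9, ← b5 _ _ c7]
  simp only [sMap, LinearMap.coe_mk, AddHom.coe_mk, Finset.sum_apply, Pi.smul_apply, bv, e]
  rw [Finset.sum_eq_single a (fun j _ hj => ?_) (by simp)]
  · simp
  rw [if_neg fun e => hj (idx_injective D (c6 _ (h.lt_iff.1 (idx_lt D j)) e.symm)), smul_zero]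

theorem mem_powComm {G1 : Subgroup (D.group K)} {L : List ℕ} (hL : M.weq false (genW L ++ genW L) [])
    {v : K × K × K × K} (hv : wordX X (winst v (genW L)) ∈ G1) :
    wordX X (winst v (genW L)) ∈ powComm 2 (rootGp X (· ∈ L) ⊓ G1) :=
  mem_powComm_of_pow_eq_one ⟨wordX_mem (List.forall_mem_map.2 fun y hy =>
    mem_rootGp (List.of_mem_zip hy).1 _), hv⟩ (by
      simpa [winst, wordX, sq] using h.weq hX (v := v) (by simp) hL)

theorem cls_inv {τ : Tw} {G1 : Subgroup (D.group K)} (hG : ∀ g ∈ G1, g ∈ τ.fix D φ) {T c : ℕ}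
    (hT : IsWt D T c) {L rs ns : List ℕ} (hL : M.clsOK T c L ∧ M.R.rts L = rs ∧
      M.weq false (genW rs ++ genW rs) [] ∧ M.weq false (M.nWd L)
        (rs.map (·, [(0, 0, 0, 0)]) ++ ns.map (·, [(0, 0, 0, 0)]) ++ rs.map (·, [(0, 0, 0, 0)])))
    (h1 : wordX X (rs.map (·, 1)) ∈ G1) (h2 : wordX X (ns.map (·, 1)) ∈ G1)
    (hx : ∀ v, (∀ a b p p', M.rdOK τ T L a b p p' → pval v p' = φ (pval v p)) →
      wordX X (winst v (genW rs)) ∈ G1) :
    (∀ j ∈ L, j < M.R.l) ∧ M.R.nw X L ∈ G1 ∧ ∀ u ∈ M.R.U X, u ∈ G1 →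
      ∃ x ∈ powComm 2 (rootGp X (· ∈ M.R.rts L) ⊓ G1),
        (M.R.nw X L)⁻¹ * (x⁻¹ * u) * M.R.nw X L ∈ M.R.U X := by
  obtain ⟨a1, rfl, a2, a3⟩ := hL
  have e : ∀ l : List ℕ, winst (K := K) (0, 0, 0, 0) (l.map (·, [(0, 0, 0, 0)])) = l.map (·, 1) :=
    fun l => by simp [winst, pval, Mon.val]
  exact h.cls hX hG hT a1 (h.nw_mem hX a3 (e _ ▸ h1) (e _ ▸ h2) (e _ ▸ h1)) fun v hv =>
    h.mem_powComm hX a2 (hx v hv)

theorem reg {G1 : Subgroup (D.group K)} {i : ℕ} {rs : List ℕ} (h1 : wordX X (rs.map (·, 1)) ∈ G1)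
    (h2 : i < M.l ∧ rs.Nodup ∧ (∀ r ∈ rs, r < M.R.n ∧ M.R.pos r) ∧ M.R.α i ∈ rs) :
    ∃ y ∈ G1, y ∈ M.R.U X ∧ y ∉ M.R.Ui X i :=
  ⟨_, h1, (h.isBN2 hX).notMem_Ui h2.1 (by simpa [Function.comp_def] using h2.2.1)
    (by simpa [Function.comp_def] using h2.2.2.1) (List.mem_map_of_mem h2.2.2.2)⟩

omit h in
theorem sylowEA_gen {S : Set (List (ℕ × K))} (hS : SylowEA 2 (closure (wordX X '' S))) :
    SylowEA 2 (D.genSubgroup K S) := by
  have : (closure (wordX X '' S)).map (D.group K).subtype = D.genSubgroup K S := by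
    rw [MonoidHom.map_closure, Set.image_image]
    congr 1
    ext g
    exact exists_congr fun w => and_congr_right fun _ => by
      rw [← subMat_wordX hX, Units.ext_iff, eq_comm]; rfl
  exact this ▸ hS.of_surjective _ (MonoidHom.subgroupMap_surjective _ _)

omit h hX in
theorem closure_fix {τ : Tw} {S : Set (D.group K)} (hS : ∀ g ∈ S, g ∈ τ.fix D φ) :
    ∀ g ∈ closure S, g ∈ τ.fix D φ := fun g hg =>
  Submonoid.closure_le.2 hS ((closure_toSubmonoid_of_finite (s := S)).le hg)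

end Cert

end Chev

end Cfsg

set_option linter.all false in
theorem Cfsg.Rz.Lie_ChevTw_0 : True := by
  have := @_root_.Cfsg.Chev.Tab2.rdOK.eq_def
  have := @_root_.Cfsg.Chev.Tab2.rdOK.eq_1
  have := @_root_.Cfsg.Chev.Tab2.rdOK.fun_cases
  have := @_root_.Cfsg.Chev.instDecidableRdOK.eq_def
  have := @_root_.Cfsg.Chev.instDecidableRdOK.eq_1
  have := @_root_.Cfsg.Chev.instDecidableRdOK.fun_cases
  have := @_root_.Cfsg.Chev.sMap.eq_def.{0}
  have := @_root_.Cfsg.Chev.sMap.fun_cases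
  have := @_root_.Cfsg.Chev.Tab2.nWd.eq_def
  have := @_root_.Cfsg.Chev.Tab2.nWd.fun_cases
  have := @_root_.Cfsg.Chev.genW.eq_def
  have := @_root_.Cfsg.Chev.genW.fun_cases
  have := @_root_.Cfsg.Chev.Tw.fix.eq_def.{0}
  have := @_root_.Cfsg.Chev.Tw.fix.eq_1.{0}
  have := @_root_.Cfsg.Chev.Tw.fix.fun_cases
  have := @_root_.Cfsg.Chev.instDecidableClsOK.eq_def
  have := @_root_.Cfsg.Chev.instDecidableClsOK.eq_1
  have := @_root_.Cfsg.Chev.instDecidableClsOK.fun_cases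
  have := @_root_.Cfsg.Chev.Tab.fixOK.eq_def
  have := @_root_.Cfsg.Chev.Tab.fixOK.eq_1
  have := @_root_.Cfsg.Chev.Tab.fixOK.fun_cases
  have := @_root_.Cfsg.Chev.Tab2.clsOK.eq_def
  have := @_root_.Cfsg.Chev.Tab2.clsOK.eq_1
  have := @_root_.Cfsg.Chev.Tab2.clsOK.fun_cases
  have := @_root_.Cfsg.semiFix.eq_def.{0, 0, 0}
  have := @_root_.Cfsg.semiFix.eq_1.{0, 0, 0}
  have := @_root_.Cfsg.semiFix.fun_cases
  trivial
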