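import Cfsg.Agent.Lie.ChevMain
import Cfsg.Prelude.Def_ChevG2

/-!
# Rigidity of the Chevalley groups of type `G2` (generated certificates)
-/

set_option autoImplicit false
set_option linter.unusedSectionVars false
set_option linter.unusedVariables false
set_option linter.style.haveILetI false
set_option linter.style.longLine false
set_option maxRecDepth 100000

namespace Cfsg

open Subgroup Matrix _root_.Cfsg.Lie

namespace Chev

theorem isWt_G2_0 : IsWt chevG2
    203539633870149560062011758347525 5 :=
  isWt_of_check _ (by decide +kernel)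

theorem isWt_G2_1 : IsWt chevG2
    81368254993456543407271569261058 2 :=
  isWt_of_check _ (by decide +kernel)

theorem isWt_G2_2 : IsWt chevG2
    122171378876693016654740189086467 3 :=
  isWt_of_check _ (by decide +kernel)

theorem isWt_G2_3 : IsWt chevG2
    79850778275052821537117308165 5 :=
  isWt_of_check _ (by decide +kernel)

theorem isWt_G2_4 : IsWt chevG2
    203301641097133156974346087957765 5 :=
  isWt_of_check _ (by decide +kernel)

theorem isWt_G2_5 : IsWt chevG2
    121933386103676613567074518696707 3 :=
  isWt_of_check _ (by decide +kernel)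

theorem isWt_G2_6 : IsWt chevG2
    183336451224771951190563696477445 5 :=
  isWt_of_check _ (by decide +kernel)

theorem isWt_G2_7 : IsWt chevG2
    61165072348078934535823507390978 2 :=
  isWt_of_check _ (by decide +kernel)

theorem pRigid_G2 {K : Type*} [Field K] {p : ℕ} [Fact p.Prime] [CharP K p]
    [Finite (chevG2.group K)] [IsSimpleGroup (chevG2.group K)] : PRigid p (chevG2.group K) := by
  have hws := wOK_letter (K := K) isWt_G2_0 isWt_G2_3 (by decide +kernel)
  refine pRigid_of_std Nat.cast_zero hws isWt_G2_0 isWt_G2_1 isWt_G2_2
    (i0 := 2) (i1 := 3) (y := 7) (k := 4) (z1 := 6) (z2 := 5)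
    (l0 := [
    855046, 657670, 720905, 590087, 786698, 1543, 394502, 66314, 525067, 197126, 262664, 328201,
    459274])
    (l1 := [
    854026, 655368, 720905, 786698, 393993, 525067, 590858, 67334, 197126, 262664, 328201, 459274,
    523])
    (l2 := [
    655368, 720905, 590087, 786698, 852235, 1543, 328201, 459274, 262919, 393993, 66314, 525067])
    (by decide +kernel) (by decide +kernel) (by decide +kernel) (by decide +kernel)
    fun F hF b0 b1 b2 => ?_
  have k0 := wMem_std (q := 0) isWt_G2_0 isWt_G2_1 isWt_G2_2 b0 b1 b2
  have k1 := k0.or ((wMem_pres isWt_G2_5).mono (stab_le_two Nat.cast_zero hws hF isWt_G2_5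
    (unip_le_of_cert Nat.cast_zero hws hF k0 isWt_G2_4 (wMem_pres isWt_G2_5) (i0 := 2)
      (l := [854026, 722442, 655368, 393476, 786698, 525067, 2308, 590858, 67334, 197126, 262664, 328201, 459274])
      (by decide +kernel) le_rfl)
    (i0 := 2) (i1 := 7) (y := 4) (k := 5) (z1 := 10) (z2 := 1)
    (l := [655368, 720905, 393476, 852235, 525067, 2308, 197126, 262664, 329476, 67334, 591624, 788235])
    (by decide +kernel) (by decide +kernel)))
  have k2 := k1.or ((wMem_pres isWt_G2_7).mono (stab_le_one Nat.cast_zero hws hF isWt_G2_7
    (unip_le_of_cert Nat.cast_zero hws hF k1 isWt_G2_6 (wMem_pres isWt_G2_7) (i0 := 3)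
      (l := [789765, 592389, 655368, 720905, 852235, 329221, 1543, 459274, 131845, 262919, 393993, 66314, 525067])
      (by decide +kernel) le_rfl) (i0 := 3)
    (l := [788235, 720905, 590087, 852235, 328201, 459274, 656395, 1543, 67589, 131845, 262919, 393993, 525067])
    (by decide +kernel)))
  exact group_eq_top (k2.or ((wMem_rais isWt_G2_3).mono
    (unip_le_of_cert Nat.cast_zero hws hF k2 isWt_G2_3 (wMem_pres isWt_G2_3) (i0 := 13)
      (l := [131845, 329221, 196865, 393476, 264195, 2308, 592389, 68609, 527617, 789765, 460805, 724227, 658436])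
      (by decide +kernel) le_rfl))) (by decide +kernel)

end Chev

end Cfsg
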