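import Cfsg.Agent.Lie.RigG2
import Cfsg.Prelude.Def_LieTwisted

/-!
# Rigidity of the Ree groups `²G₂`, via the seven-dimensional module
-/

set_option autoImplicit false
set_option linter.unusedSectionVars false
set_option linter.unusedVariables false
set_option linter.style.haveILetI false
set_option linter.style.longLine false
set_option linter.unusedSimpArgs false

namespace Cfsg

open Subgroup Matrix _root_.Cfsg.Lie Chev

namespace Ree

variable {K : Type*} [Field K] [CharP K 3]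

/-- The coordinates of the ideal spanned by the short roots. -/
def ix : Fin 7 → chevG2.Idx :=
  ![.inr ⟨9, by decide⟩, .inr ⟨8, by decide⟩, .inr ⟨7, by decide⟩, .inl ⟨0, by decide⟩,
    .inr ⟨4, by decide⟩, .inr ⟨3, by decide⟩, .inr ⟨2, by decide⟩]

/-- The embedding of the seven-dimensional module. -/
noncomputable def emb (K : Type*) [Field K] : (Fin 7 → K) →ₗ[K] (chevG2.Idx → K) :=
  Fintype.linearCombination K fun i => bv chevG2 K (idx chevG2 (ix i))

theorem emb_ix (x : Fin 7 → K) (i : Fin 7) : emb K x (ix i) = x i := by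
  have h : ∀ i j, ix i = ix j ↔ i = j := by decide
  simp [emb, Fintype.linearCombination_apply, bv_idx, Pi.single_apply, h]

/-- The root elements on the seven-dimensional module. -/
def act (r : ℕ) (t : K) (x : Fin 7 → K) : Fin 7 → K :=
  match r with
  | 0 => ![x 0, x 1, x 2, x 3, x 4, x 5 - t * x 0, x 6 + t * x 1]
  | 1 => ![x 0, x 1, x 2, x 3, x 4 - t * x 0, x 5, x 6 + t * x 2]
  | 2 => ![x 0, x 1, x 2, x 3 + t * x 0, x 4 - t * x 1, x 5 + t * x 2, x 6 - t ^ 2 * x 0 + t * x 3]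
  | 3 => ![x 0, x 1, x 2 - t * x 0, x 3 - t * x 1, x 4, x 5 - t ^ 2 * x 1 - t * x 3, x 6 + t * x 4]
  | 4 => ![x 0, x 1 + t * x 0, x 2, x 3 - t * x 2, x 4 - t ^ 2 * x 2 - t * x 3, x 5, x 6 - t * x 5]
  | 5 => ![x 0, x 1, x 2 + t * x 1, x 3, x 4, x 5 - t * x 4, x 6]
  | 6 => ![x 0, x 1 + t * x 2, x 2, x 3, x 4 - t * x 5, x 5, x 6]
  | 7 => ![x 0 + t * x 1, x 1, x 2 + t * x 3 - t ^ 2 * x 4, x 3 + t * x 4, x 4, x 5 - t * x 6, x 6]
  | 8 => ![x 0 - t * x 2, x 1 + t * x 3 - t ^ 2 * x 5, x 2, x 3 + t * x 5, x 4 + t * x 6, x 5, x 6]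
  | 9 => ![x 0 - t * x 3 - t ^ 2 * x 6, x 1 - t * x 4, x 2 + t * x 5, x 3 - t * x 6, x 4, x 5, x 6]
  | 10 => ![x 0 - t * x 4, x 1, x 2 + t * x 6, x 3, x 4, x 5, x 6]
  | 11 => ![x 0 - t * x 5, x 1 + t * x 6, x 2, x 3, x 4, x 5, x 6]
  | _ + 12 => x

/-- The columns of the root elements. -/
def tab : List (List (List (ℕ × ℕ × ℤ))) :=
  [[[(5, 1, -1)], [(4, 1, 1)], [], [(2, 1, 0)], [], [], []],
  [[(6, 1, -1)], [], [(4, 1, 1)], [(3, 1, 3)], [], [], []],
  [[(0, 1, -2), (1, 1, -3), (4, 2, -1)], [(6, 1, 2), (3, 2, 3)], [(5, 1, -2), (2, 2, -3)], [(4, 1, 1)], [(3, 1, 3)], [(2, 1, 3)], []],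
  [[(9, 1, 2), (7, 2, -3)], [(0, 1, -1), (1, 1, -3), (5, 2, -1)], [(7, 1, -3)], [(5, 1, -1)], [(4, 1, -2), (2, 2, 3)], [], [(2, 1, -3)]],
  [[(10, 1, -2), (8, 2, 3)], [(8, 1, -3)], [(0, 1, -1), (1, 1, 0), (6, 2, -1)], [(6, 1, 2)], [], [(4, 1, 2), (3, 2, -3)], [(3, 1, -3)]],
  [[], [(9, 1, 1)], [], [(7, 1, -3)], [(5, 1, -1)], [], []],
  [[], [], [(10, 1, 1)], [(8, 1, 3)], [], [(6, 1, -1)], []],
  [[(12, 1, 3)], [(11, 1, -2), (12, 2, -3)], [], [(9, 1, -2)], [(0, 1, 1), (1, 1, 0), (9, 2, -1)], [(7, 1, 3)], [(5, 1, 2), (7, 2, 3)]],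
  [[(13, 1, 3)], [], [(11, 1, 2), (13, 2, 3)], [(10, 1, 1)], [(8, 1, 3)], [(0, 1, 1), (1, 1, 3), (10, 2, -1)], [(6, 1, -2), (8, 2, -3)]],
  [[], [(13, 1, -3)], [(12, 1, -3)], [(11, 1, -1)], [(10, 1, 2), (13, 2, -3)], [(9, 1, -2), (12, 2, 3)], [(0, 1, 2), (1, 1, 3), (11, 2, -1)]],
  [[], [], [], [(12, 1, -3)], [(11, 1, -1)], [], [(9, 1, 1)]],
  [[], [], [], [(13, 1, 0)], [], [(11, 1, -1)], [(10, 1, 1)]]]

theorem colN_eq : ∀ r < 12, ∀ i : Fin 7,
    colN chevG2 r (idx chevG2 (ix i)) = (tab.getD r []).getD i [] := by decide +kernel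

theorem x_emb (r : ℕ) (t : K) (x : Fin 7 → K) :
    chevG2.x K r t *ᵥ emb K x = emb K (act r t x) := by
  by_cases hr : r < 12
  swap
  · obtain ⟨r, rfl⟩ : ∃ s, r = s + 12 := ⟨r - 12, by omega⟩
    rw [ChevalleyDatum.x, dif_neg (show ¬ r + 12 < chevG2.nroots from hr), one_mulVec]; rfl
  have h : ∀ i : Fin 7, idx chevG2 (ix i) = ![11, 10, 9, 0, 6, 5, 4] i := by decide
  simp only [emb, Fintype.linearCombination_apply, mulVec_sum, mulVec_smul, x_mulVec_bv,
    colN_eq r hr]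
  simp only [h, Fin.sum_univ_seven]
  interval_cases r <;> simp [tab, act] <;> match_scalars <;> grind

theorem word_emb (w : List (ℕ × K)) (x : Fin 7 → K) :
    chevG2.wordMat K w *ᵥ emb K x = emb K (w.foldr (fun y => act y.1 y.2) x) := by
  induction w with
  | nil => exact one_mulVec _
  | cons y w ih =>
    rw [List.foldr_cons, ← x_emb, ← ih, mulVec_mulVec]; rfl

variable [Finite K] {e : ℕ}

theorem exists_emb (g : twistedG2 K e) (x : Fin 7 → K) : ∃ y, emb K y = rep _ g (emb K x) := by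
  have h : flagStab (rep (twistedG2 K e)) (fun _ => LinearMap.range (emb K)) = ⊤ :=
    eq_top_of_closure fun g ⟨w, _, hg⟩ => mem_flagStab.2 fun _ _ ⟨x, hx⟩ =>
      ⟨_, (word_emb w x).symm.trans (by rw [← hg, hx]; rfl)⟩
  exact mem_flagStab.1 (h.ge (mem_top g)) 0 _ ⟨x, rfl⟩

/-- The seven-dimensional representation. -/
noncomputable def rho (K : Type*) [Field K] [CharP K 3] [Finite K] (e : ℕ) :
    Representation K (twistedG2 K e) (Fin 7 → K) where
  toFun g := LinearMap.funLeft K K ix ∘ₗ rep _ g ∘ₗ emb K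
  map_one' := LinearMap.ext fun x => funext fun i => by simp [emb_ix]
  map_mul' g h := LinearMap.ext fun x => by
    obtain ⟨y, hy⟩ := exists_emb h x
    have : LinearMap.funLeft K K ix (emb K y) = y := funext (emb_ix y)
    simp [← hy, this]

theorem rho_word {g : twistedG2 K e} {w : List (ℕ × K)} (hg : subMat _ g = chevG2.wordMat K w)
    (x : Fin 7 → K) : rho K e g x = w.foldr (fun y => act y.1 y.2) x := funext fun i => by
  rw [← emb_ix (List.foldr _ _ _), ← word_emb, ← hg]; rfl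

theorem exists_U (t u v : K) : ∃ g : twistedG2 K e,
    subMat _ g = chevG2.wordMat K (reeWordU e t u v) :=
  exists_gen isWt_G2_0 isWt_G2_3 ⟨t, u, v, .inl rfl⟩ (l := [7, 6, 8, 9, 10, 11]) rfl (by decide +kernel)

theorem exists_V (t u v : K) : ∃ g : twistedG2 K e,
    subMat _ g = chevG2.wordMat K (reeWordV e t u v) :=
  exists_gen isWt_G2_0 isWt_G2_3 ⟨t, u, v, .inr rfl⟩ (l := [4, 5, 3, 2, 1, 0]) rfl (by decide +kernel)

/-- The standard flag. -/
def fl (K : Type*) [Field K] (n : ℕ) : Submodule K (Fin 7 → K) where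
  carrier := {v | ∀ j : Fin 7, 6 < j + n → v j = 0}
  add_mem' {a b} ha hb j hj := by rw [Pi.add_apply, ha j hj, hb j hj, add_zero]
  zero_mem' j hj := rfl
  smul_mem' c v hv j hj := by rw [Pi.smul_apply, hv j hj, smul_zero]

theorem isFlag_fl : IsFlag (fl K) where
  zero := top_unique fun v _ j hj => by omega
  anti i v hv j hj := hv j (by omega)
  fin := ⟨7, bot_unique fun v hv => funext fun j => hv j (by omega)⟩

theorem mem_unip {g : twistedG2 K e}
    (h : ∀ x (j : Fin 7), (∀ k, j < k → x k = 0) → rho K e g x j = x j) :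
    g ∈ flagUnip (rho K e) (fl K) :=
  isFlag_fl.mem_flagUnip.2 fun n x hx j hj => sub_eq_zero.2 (h x j fun k hk => hx k (by omega))

theorem act_zero (r : ℕ) (x : Fin 7 → K) : act r 0 x = x := by
  unfold act; split <;> first | rfl | (ext j; fin_cases j <;> simp)

theorem word_up {w : List (ℕ × K)} (hw : ∀ y ∈ w, 6 ≤ y.1 ∧ y.1 < 12) (x : Fin 7 → K) (j : Fin 7)
    (h : ∀ k, j < k → x k = 0) : w.foldr (fun y => act y.1 y.2) x j = x j := by
  induction w generalizing j with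
  | nil => rfl
  | cons y w ih =>
    have h1 := ih fun z hz => hw z (List.mem_cons_of_mem _ hz)
    have h2 := hw y List.mem_cons_self
    rw [List.foldr_cons, ← h1 j h]
    replace h1 : ∀ k, j < k → w.foldr (fun y => act y.1 y.2) x k = 0 := fun k hk =>
      (h1 k fun l hl => h l (hk.trans hl)).trans (h k hk)
    generalize w.foldr (fun y => act y.1 y.2) x = z at h1
    obtain ⟨r, t⟩ := y
    obtain ⟨h2, h3⟩ : 6 ≤ r ∧ r < 12 := h2
    interval_cases r <;> fin_cases j <;> simp [Fin.forall_fin_succ] at h1 <;> simp [h1, act]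

theorem word_lo {w : List (ℕ × K)} (hw : ∀ y ∈ w, y.1 < 6) (x : Fin 7 → K) (j : Fin 7)
    (h : ∀ k, k < j → x k = 0) : w.foldr (fun y => act y.1 y.2) x j = x j := by
  induction w generalizing j with
  | nil => rfl
  | cons y w ih =>
    have h1 := ih fun z hz => hw z (List.mem_cons_of_mem _ hz)
    have h2 := hw y List.mem_cons_self
    rw [List.foldr_cons, ← h1 j h]
    replace h1 : ∀ k, k < j → w.foldr (fun y => act y.1 y.2) x k = 0 := fun k hk =>
      (h1 k fun l hl => h l (hl.trans hk)).trans (h k hk)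
    generalize w.foldr (fun y => act y.1 y.2) x = z at h1
    obtain ⟨r, t⟩ := y
    replace h2 : r < 6 := h2
    interval_cases r <;> fin_cases j <;> simp [Fin.forall_fin_succ] at h1 <;> simp [h1, act]

theorem U_mem {g : twistedG2 K e} {t u v : K}
    (hg : subMat _ g = chevG2.wordMat K (reeWordU e t u v)) : g ∈ flagUnip (rho K e) (fl K) :=
  mem_unip fun x j h => by
    rw [rho_word hg]
    exact word_up (by simp [reeWordU, g2a, g2b, g2ab, g2aab, g2aaab, g2aaabb]) x j h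

theorem reeWordV_eq (t u v : K) : reeWordV e t u v = [(4, -t ^ e), (5, -t),
    (3, -(t ^ (e + 1) + u ^ e)), (2, -(t ^ (2 * e + 1) + v ^ e)), (1, -u), (0, -v)] := rfl

theorem reeWordU_eq (t u v : K) : reeWordU e t u v = [(7, t ^ e), (6, t),
    (8, t ^ (e + 1) + u ^ e), (9, t ^ (2 * e + 1) + v ^ e), (10, u), (11, v)] := rfl

theorem foldr_act (r : ℕ) (t : K) (w : List (ℕ × K)) (x : Fin 7 → K) :
    ((r, t) :: w).foldr (fun y => act y.1 y.2) x = act r t (w.foldr (fun y => act y.1 y.2) x) :=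
  (rfl)

theorem act_u (a s : K) (x : Fin 7 → K) : act 8 a (act 10 s x) = ![x 0 - a * x 2 - s * x 4 -
    a * s * x 6, x 1 + a * x 3 - a ^ 2 * x 5, x 2 + s * x 6, x 3 + a * x 5, x 4 + a * x 6, x 5, x 6] := by
  ext j; fin_cases j <;> simp [act]; ring

theorem act_v (a s : K) (x : Fin 7 → K) : act 3 (-a) (act 1 (-s) x) = ![x 0, x 1, x 2 + a * x 0,
    x 3 + a * x 1, x 4 + s * x 0, x 5 - a ^ 2 * x 1 + a * x 3,
    x 6 - s * x 2 - a * x 4 - a * s * x 0] := by
  ext j; fin_cases j <;> simp [act]; ring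

theorem exists_n (he : e ≠ 0) {s : K} (hs : s ≠ 0) : ∃ u v : twistedG2 K e,
    u ∈ flagUnip (rho K e) (fl K) ∧ subMat _ v = chevG2.wordMat K (reeWordV e 0 s⁻¹ 0) ∧
    (∀ x, rho K e u x = act 8 (s ^ e) (act 10 s x)) ∧
    (∀ x, rho K e v x = act 3 (-(s ^ e)⁻¹) (act 1 (-s⁻¹) x)) ∧
    ∀ x, rho K e (u * v * u) x = fun j => -(![s ^ e * s, s ^ e * s ^ e, (s ^ e)⁻¹ * s, 1,
      s ^ e * s⁻¹, (s ^ e)⁻¹ * (s ^ e)⁻¹, (s ^ e)⁻¹ * s⁻¹] j * x j.rev) := by
  obtain ⟨u, hu⟩ := exists_U (e := e) 0 s 0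
  obtain ⟨v, hv⟩ := exists_V (e := e) 0 s⁻¹ 0
  have h1 : ∀ x, rho K e u x = act 8 (s ^ e) (act 10 s x) := fun x => by
    rw [rho_word hu, reeWordU_eq]; simp [foldr_act, -List.foldr_cons, act_zero, he]
  have h2 : ∀ x, rho K e v x = act 3 (-(s ^ e)⁻¹) (act 1 (-s⁻¹) x) := fun x => by
    rw [rho_word hv, reeWordV_eq]; simp [foldr_act, -List.foldr_cons, act_zero, he]
  refine ⟨u, v, U_mem hu, hv, h1, h2, fun x => ?_⟩
  have h3 := mul_inv_cancel₀ hs
  have h4 := mul_inv_cancel₀ (pow_ne_zero e hs)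
  rw [rep_mul_apply, rep_mul_apply, h1, h2, h1]
  generalize s ^ e = a at *
  generalize a⁻¹ = b at *
  generalize s⁻¹ = c at *
  ext j; fin_cases j <;> simp [act_u, act_v] <;> grind

theorem exists_reg (he : e ≠ 0) : ∃ y ∈ flagUnip (rho K e) (fl K), ∀ x, rho K e y x =
    ![x 0 + x 1 - x 4 - x 5 + x 6, x 1 + x 2 + x 3 - x 4 - x 6, x 2 + x 3 - x 4 + x 6, x 3 + x 4,
      x 4 - x 5 + x 6, x 5 - x 6, x 6] := by
  obtain ⟨y, hy⟩ := exists_U (e := e) (1 : K) 0 0
  refine ⟨y, U_mem hy, fun x => ?_⟩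
  rw [rho_word hy, reeWordU_eq]
  simp only [foldr_act, List.foldr_nil, act_zero, one_pow, zero_pow he, add_zero]
  rw [show act 9 1 x = ![x 0 - x 3 - x 6, x 1 - x 4, x 2 + x 5, x 3 - x 6, x 4, x 5, x 6] by
    simp [act], show act 8 (1 : K) _ = ![x 0 - x 3 - x 6 - (x 2 + x 5), x 1 - x 4 + (x 3 - x 6) - x 5,
      x 2 + x 5, x 3 - x 6 + x 5, x 4 + x 6, x 5, x 6] by simp [act]]
  ext j; fin_cases j <;> simp [act] <;> grind

theorem rho_injective (he : e ≠ 0) [IsSimpleGroup (twistedG2 K e)] :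
    Function.Injective (rho K e) := by
  refine (MonoidHom.ker_eq_bot_iff _).1 ((MonoidHom.normal_ker _).eq_bot_or_eq_top.resolve_right
    fun h => ?_)
  obtain ⟨y, -, hy⟩ := exists_reg (K := K) he
  have := congrFun (hy (Pi.single 1 1)) 0
  rw [show rho K e y = 1 from h.ge (mem_top y)] at this
  simp at this

theorem pRigid [Fintype K] (he : 3 ≤ e) (hK : 4 * e + 1 < Fintype.card K)
    [IsSimpleGroup (twistedG2 K e)] : PRigid 3 (twistedG2 K e) := by
  have he0 : e ≠ 0 := by omega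
  have hρ := rho_injective (K := K) he0
  have ext : ∀ {g h : twistedG2 K e}, (∀ x, rho K e g x = rho K e h x) → g = h := fun h =>
    hρ (LinearMap.ext h)
  obtain ⟨y, hy, hy'⟩ := exists_reg (K := K) he0
  refine pRigid_of_simple (isFlag_fl.isPGroup hρ) (fun h => ?_) fun a ha hF hU => ?_
  · have := congrFun (hy' (Pi.single 1 1)) 0
    rw [mem_bot.1 (h.le hy), map_one] at this
    simp at this
  have hB := hF.flagStab_le isFlag_fl hρ hU (isFlag_fl.pGood_of_one hρ le_rfl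
    (e := Pi.single 6 1) fun z => ⟨z 6, by
      convert sub_mem_commSub (ρ := rho K e) hy ![0, z 0 + z 3 - z 4, z 1 - z 2 - 2 * z 5,
        z 2 + z 3 + z 5, z 3, -z 4 - z 5, -z 5] using 1
      rw [hy']; ext j; fin_cases j <;> simp <;> ring⟩) le_rfl
  have hD : ∀ (g : twistedG2 K e) (d : Fin 7 → K), (∀ x j, rho K e g x j = d j * x j) →
      a g = g := fun g d h => hB (mem_flagStab.2 fun n x hx j hj => by rw [h, hx j hj, mul_zero])
  obtain ⟨u, v, hu, hv, hu', hv', hw⟩ := exists_n (K := K) he0 one_ne_zero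
  set w := u * v * u with hw0
  replace hw : ∀ x j, rho K e w x j = -x j.rev := fun x j => by rw [hw]; fin_cases j <;> simp
  have hww : w⁻¹ = w := inv_eq_of_mul_eq_one_right (ext fun x => funext fun j => by
    simp [rep_mul_apply, hw])
  have hV : ∀ {g : twistedG2 K e} {t s r : K}, subMat _ g = chevG2.wordMat K (reeWordV e t s r) →
      a (w * g * w) = w * g * w := fun {g t s r} hg => hU (mem_unip fun x j h => by
    rw [rep_mul_apply, rep_mul_apply, hw, rho_word hg, word_lo (by simp [reeWordV_eq]) _ _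
      fun k hk => by rw [hw, h _ (Fin.lt_rev_iff.1 hk), neg_zero], hw]; simp)
  obtain ⟨s, hs⟩ := IsCyclic.exists_ofOrder_eq_natCard (α := Kˣ)
  rw [Nat.card_units, Nat.card_eq_fintype_card] at hs
  obtain ⟨u₁, v₁, -, -, -, -, hn⟩ := exists_n he0 s.ne_zero
  generalize u₁ * v₁ * u₁ = n at hn
  obtain ⟨d, hd, hn⟩ : ∃ d : Fin 7 → K, Function.Injective d ∧
      ∀ x j, rho K e n x j = -(d j * x j.rev) := by
    refine ⟨_, fun i j h => ?_, fun x j => congrFun (hn x) j⟩
    have h1 : ∀ i : Fin 7, ![(s : K) ^ e * s, s ^ e * s ^ e, (s ^ e : K)⁻¹ * s, 1, s ^ e * (s : K)⁻¹,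
        (s ^ e : K)⁻¹ * (s ^ e : K)⁻¹, (s ^ e : K)⁻¹ * (s : K)⁻¹] i = ↑(s ^ (![(e : ℤ) + 1, e + e,
          -e + 1, 0, e - 1, -e + -e, -e - 1] i : ℤ)) := fun i => by
      fin_cases i <;> simp [_root_.zpow_add, _root_.zpow_sub]
    rw [h1, h1, Units.val_inj, zpow_eq_zpow_iff_modEq, hs] at h
    have := Int.eq_zero_of_abs_lt_dvd h.dvd (by
      rw [abs_lt]; fin_cases i <;> fin_cases j <;> simp <;> omega)
    fin_cases i <;> fin_cases j <;> simp at this ⊢ <;> omega
  have h1 := hD (n * w) d fun x j => by simp [rep_mul_apply, hn, hw]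
  have h2 := hD (w * n) (fun j => d j.rev) fun x j => by simp [rep_mul_apply, hn, hw]
  obtain ⟨c, hc⟩ : ∃ c, a w = w * c := ⟨w⁻¹ * a w, by simp⟩
  have hc' : a w = c⁻¹ * w := by rw [← hww, map_inv, hc, _root_.mul_inv_rev, hww]
  have h3 : c * (n * w) = n * w * c := by
    have : w * n = w * (n * w) * w⁻¹ := by group
    rw [this, map_mul, map_mul, h1, map_inv, hc] at h2
    have h3 := congrArg (fun z => w⁻¹ * z * w * c) h2
    simpa [mul_assoc] using h3
  have h4 : ∀ i j, i ≠ j → rho K e c (Pi.single j 1) i = 0 := fun i j hij => by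
    have h5 : rho K e (n * w) (Pi.single j 1) = d j • Pi.single j 1 := funext fun k => by
      by_cases h : k = j <;> simp [rep_mul_apply, hn, hw, h]
    have := congrFun (congrArg (fun g => rho K e g (Pi.single j 1)) h3) i
    simp only [rep_mul_apply _ c, h5, map_smul] at this
    simp only [rep_mul_apply, hn, hw, Pi.smul_apply, smul_eq_mul, Fin.rev_rev, mul_neg, neg_neg] at this
    exact (mul_eq_mul_right_iff.1 this).resolve_left fun h => hij (hd h).symm
  obtain ⟨γ, hγ⟩ : ∃ γ : Fin 7 → K, ∀ x j, rho K e c x j = γ j * x j :=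
    ⟨fun j => rho K e c (Pi.single j 1) j, fun x j => by
      conv_lhs => rw [← Finset.univ_sum_single x, map_sum, Finset.sum_apply]
      rw [Finset.sum_eq_single j (fun i _ h => by
        rw [← mul_one (x i), ← smul_eq_mul, Pi.single_smul, map_smul]; simp [h4 j i h.symm])
        (by simp), ← mul_one (x j), ← smul_eq_mul, Pi.single_smul, map_smul]
      simp [mul_comm]⟩
  have hγ0 : ∀ j, γ j ≠ 0 := fun j h => by
    have : rho K e c (Pi.single j 1) = 0 := funext fun k => by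
      by_cases h' : k = j <;> simp [hγ, h, h']
    have h5 := rep_inv_apply (rho K e) c (Pi.single j 1)
    rw [this, map_zero] at h5
    simpa using congrFun h5 j
  have h5 : c * v * u * c = v * c * u := by
    have b1 := hV hv
    have b2 : a u = u := hU hu
    have b3 : w * w = 1 := by nth_rw 1 [← hww]; exact inv_mul_cancel w
    rw [map_mul, map_mul] at b1
    nth_rw 1 [hc] at b1
    rw [hc'] at b1
    rw [hw0, map_mul, map_mul, b2] at hc
    have b4 : c * a v = v * c := by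
      have := congrArg (fun z => w⁻¹ * z * w⁻¹ * c) b1
      simpa [mul_assoc] using this
    have b5 : a v * u = v * u * c := by simpa [mul_assoc] using hc
    rw [← b4, mul_assoc c (a v), b5]; group
  have b0 := congrFun (congrArg (fun g => rho K e g (Pi.single 0 1)) h5)
  have b1 := congrFun (congrArg (fun g => rho K e g (Pi.single 1 1)) h5)
  simp [rep_mul_apply, hu', hv', act_u, act_v, hγ, Fin.forall_fin_succ, hγ0] at b0 b1
  have h6 : c = 1 := ext fun x => funext fun j => by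
    fin_cases j <;> simp [hγ, b0, b1]
  rw [h6, mul_one] at hc
  have h7 : ∀ g, a (w * g * w) = w * g * w → a g = g := fun g h => by
    rwa [map_mul a (w * g), map_mul a w, hc, mul_left_inj, mul_right_inj] at h
  refine eq_top_of_closure ?_
  rintro g ⟨_, ⟨t, s, r, rfl | rfl⟩, hg⟩
  exacts [hU (U_mem hg), h7 g (hV hg)]

end Ree

theorem pRigid_twistedG2 {K : Type*} [Field K] [Fintype K] {m : ℕ} (hm : 1 ≤ m)
    (hK : Fintype.card K = 3 ^ (2 * m + 1)) [IsSimpleGroup (twistedG2 K (3 ^ m))] :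
    PRigid 3 (twistedG2 K (3 ^ m)) := by
  haveI : CharP K 3 := charP_of_card_eq_prime_pow hK
  have h : 3 ≤ 3 ^ m := Nat.le_self_pow (by omega) 3
  exact Ree.pRigid h (by rw [hK, pow_succ, pow_mul']; nlinarith)

end Cfsg

set_option linter.all false in
theorem Cfsg.Rz.Lie_RigRee_0 : True := by
  have := @_root_.Cfsg.Ree.fl.eq_def.{0}
  have := @_root_.Cfsg.Ree.fl.eq_1.{0}
  have := @_root_.Cfsg.Ree.fl.fun_cases
  have := @_root_.Cfsg.Ree.act.eq_def.{0}
  have := @_root_.Cfsg.Ree.act.fun_cases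
  have := @_root_.Cfsg.Ree.rho.eq_def.{0}
  have := @_root_.Cfsg.Ree.rho.eq_1.{0}
  have := @_root_.Cfsg.Ree.rho.fun_cases
  have := @_root_.Cfsg.Ree.ix.eq_def
  have := @_root_.Cfsg.Ree.ix.eq_1
  have := @_root_.Cfsg.Ree.ix.fun_cases
  have := @_root_.Cfsg.Ree.emb.eq_def.{0}
  have := @_root_.Cfsg.Ree.emb.fun_cases
  have := @_root_.Cfsg.Ree.tab.eq_def
  have := @_root_.Cfsg.Ree.tab.fun_cases
  trivial
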