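import Cfsg.Agent.Lie.Rigid
import Cfsg.Agent.Char.SzGroup

/-!
# Rigidity of the Suzuki groups
-/

set_option autoImplicit false
set_option linter.unusedSectionVars false
set_option linter.unusedVariables false

namespace Cfsg

open Subgroup

theorem Suz.pRigid {F : Type*} [Field F] [CharP F 2] {θ : F →+* F} [Suz.Tits θ] [Finite F]
    [IsSimpleGroup (Suz.grp θ)] : PRigid 2 (Suz.grp θ) := by
  have h := Suz.rankOne (θ := θ)
  have h0 : IsPGroup 2 (Suz.SU θ) := fun x => ⟨2, by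
    ext <;> simp [pow_succ] <;> grind⟩
  have hU : IsPGroup 2 (Suz.uni θ).range := h0.of_surjective _ (Suz.uni θ).rangeRestrict_surjective
  have h1 : (⟨0, 1⟩ : Suz.SU θ) ≠ 1 := fun e => one_ne_zero (congrArg Suz.SU.b e)
  have hle : (Suz.uni θ).range ≤ Suz.borel θ := fun _ ⟨x, hx⟩ => hx ▸ h.mem x
  refine pRigid_of_simple hU (fun e => h1 (h.inj ((mem_bot.1 (e.le ⟨_, rfl⟩)).trans
    (map_one _).symm))) fun a ha hF hUF => hF.rankOne (Suz.borel θ) (fun b hb => hF.closed _ hUF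
      (fun g hg => ?_) _ hU le_rfl (mem_normalizer_fintype fun _ ⟨x, hx⟩ => hx ▸ h.norm b hb x))
      _ hle hU (Suz.weyl θ) fun g hg => ?_
  · have h2 : g * Suz.uni θ ⟨0, 1⟩ * g⁻¹ = Suz.uni θ ⟨0, 1⟩ := by
      rw [← hg _ ⟨_, rfl⟩, mul_inv_cancel_right]
    have h3 : g ∈ Suz.borel θ := by
      by_contra h3
      obtain ⟨u, hu⟩ := h.cover g h3
      have := mul_mem (mul_mem hu (h.mem ⟨0, 1⟩)) (inv_mem hu)
      refine h1 (conj_eq_one_iff.1 (h.free (u⁻¹ * ⟨0, 1⟩ * u⁻¹⁻¹) ?_))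
      rw [map_mul, map_mul, ← h2]
      convert this using 1
      simp [mul_assoc]
    obtain ⟨x, t, rfl⟩ := Suz.exists_eq_uni_mul h3
    have h4 := congrArg Suz.SU.b (Suz.conj_eq h2)
    have h5 : t = 1 := Units.ext (θ.injective (by simp at h4; rw [Units.val_one, map_one]; grind))
    obtain ⟨k, hk⟩ := h0 x
    exact ⟨k, by rw [h5, map_one, mul_one, ← map_pow, hk, map_one]; exact one_mem _⟩
  · obtain ⟨u, hu⟩ := h.cover g hg
    exact ⟨_, ⟨u, rfl⟩, hu⟩

theorem pRigid_sz {F : Type*} [Field F] [Fintype F] {m : ℕ} (hq : Fintype.card F = 2 ^ (2 * m + 1))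
    [h : IsSimpleGroup (Lie.Sz F (2 ^ (m + 1)))] : PRigid 2 (Lie.Sz F (2 ^ (m + 1))) := by
  haveI : CharP F 2 := charP_of_card_eq_prime_pow hq
  haveI : Suz.Tits (iterateFrobenius F 2 (m + 1)) := ⟨fun x => by
    rw [iterateFrobenius_def, iterateFrobenius_def, ← pow_mul,
      show 2 ^ (m + 1) * 2 ^ (m + 1) = Fintype.card F * 2 by rw [hq]; ring, pow_mul,
      FiniteField.pow_card]⟩
  have e0 : Lie.Sz F (2 ^ (m + 1)) = Suz.grp (iterateFrobenius F 2 (m + 1)) :=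
    Subgroup.closure_eq (Suz.grp (iterateFrobenius F 2 (m + 1)))
  rw [e0] at h ⊢
  exact Suz.pRigid

end Cfsg
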