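import Cfsg.Agent.Lie.SylPolar
import Cfsg.Agent.Lie.Orth
import Cfsg.Agent.Char.SzGroup

/-!
# Sylow `2`-subgroups of classical groups and Suzuki groups in characteristic `2`
-/

set_option autoImplicit false
set_option linter.unusedSectionVars false
set_option linter.unusedVariables false
set_option linter.style.haveILetI false
set_option linter.unusedSimpArgs false

namespace Cfsg

open Subgroup Submodule
open scoped commutatorElement

variable {K : Type} [Field K] [Finite K] [CharP K 2]

theorem exists_sq_eq_char_two {K : Type*} [Field K] [Finite K] [CharP K 2] (a : K) :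
    ∃ s, s ^ 2 = a := surjective_frobenius K 2 a

theorem sylowEA_sl (n : ℕ) : SylowEA 2 (Matrix.SpecialLinearGroup (Fin n) K) :=
  sylowEA_of_transvections (homRep_injective (slToMat_injective (K := K) n)) fun φ v hv => by
    obtain ⟨g, hg⟩ := exists_sl_of_unip 2 (T := 1 + φ.smulRight v) (k := 2)
      (LinearMap.ext fun w => by simp [sq, hv])
    exact ⟨g, fun w => by rw [homRep_apply, hg]; rfl⟩

theorem sylowEA_sp (m : ℕ) : SylowEA 2 (Matrix.symplecticGroup (Fin m) K) := by
  obtain ⟨B, hB, hP, he⟩ := exists_polar_sp K m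
  exact Polar2.sylowEA
    { hP with
      trans := fun x _ _ _ c _ _ => he x c
      aniso := fun _ _ _ h => (h trivial).elim
      sq := .inl fun v => hP.self v trivial }

theorem sylowEA_su [Fintype K] (n : ℕ) {q : ℕ} (hq : Fintype.card K = q ^ 2) :
    SylowEA 2 (SU n K q) := by
  obtain ⟨σ, B, -, ⟨t, ht⟩, h1, hP, he⟩ := exists_polar_su 2 n hq
  have h2 : ∀ v, σ (B v v) = B v v := fun v => by rw [← one_mul (σ _), ← h1]
  exact Polar2.sylowEA
    { hP with
      trans := fun x hx g y c hy hg => by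
        have a1 := hP.iso g y y
        have a2 : B x y = 1 := by rw [h1, hy]; simp
        simp [hg, LinearMap.map_smulₛₗ, hy, a2, hP.self x hx] at a1
        obtain ⟨r, hr⟩ := he c x 0 hx (by simp) (by simp; grind)
        exact ⟨r, fun w => by simp [hr, eichT_apply]⟩
      aniso := fun a b hab ha => by
        obtain ⟨s, hs⟩ := exists_sq_eq_char_two (B b b / B a a)
        have a1 : σ s = s := frobenius_inj K 2 (by
          rw [frobenius_def, frobenius_def, ← map_pow, hs, map_div₀, h2, h2])
        refine ⟨s, show B _ _ = 0 from ?_⟩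
        have a2 : B a a ≠ 0 := ha
        simp only [map_add, map_smul, LinearMap.add_apply, LinearMap.smul_apply,
          LinearMap.map_smulₛₗ, smul_eq_mul, a1, hab, hP.refl _ _ hab, RingHom.id_apply]
        field_simp at hs
        grind
      sq := .inr ⟨t / (σ t + t), by
        have : σ t + t ≠ 0 := fun e => ht (by grind)
        rw [map_div₀, map_add, hP.invol, add_comm t, ← add_div, div_self this]⟩ }

theorem OmegaData.sylowEA {ι : Type} [Fintype ι] [DecidableEq ι] {Q : (ι → K) → K}
    (h : OmegaData Q) : SylowEA 2 (Omega K Q) := by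
  obtain ⟨B, ρ, hP, q1, q2, hI, -⟩ := h.polar
  exact Polar2.sylowEA
    { hP with
      trans := fun x hx g y c hy hg => by
        have a1 := hI g y
        rw [hg, q1, q2, show Q x = 0 from hx, map_smul, hy] at a1
        exact ⟨1, fun w => by simp [show c = 0 by simpa using a1]⟩
      aniso := fun a b hab ha => by
        obtain ⟨s, hs⟩ := exists_sq_eq_char_two (Q b / Q a)
        refine ⟨s, show Q _ = 0 from ?_⟩
        have a2 : Q a ≠ 0 := ha
        rw [q1, q2, hs, map_smul, LinearMap.smul_apply, hP.refl _ _ hab, div_mul_cancel₀ _ a2]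
        simp [CharTwo.add_self_eq_zero]
      sq := .inl fun v => by
        have := q1 v v
        rw [← two_smul K v, q2] at this
        grind }

/-- `θ(a) a` is a commutator value, for a Tits endomorphism. -/
theorem exists_tits_comm {K : Type*} [Field K] [Finite K] (θ : K →+* K)
    (h1 : ∀ r : K, θ r * r = 1 → r = 1) (h2 : ∃ x, θ x + x ≠ 0) (a : K) :
    ∃ x y, θ x * y + θ y * x = a := by
  obtain ⟨x, hx⟩ := h2
  have : Function.Injective fun c => θ c * c := fun c d (h : θ c * c = θ d * d) => by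
    by_cases hd : d = 0
    · simpa [hd] using h
    exact (div_eq_one_iff_eq hd).1 (h1 _ (by rw [map_div₀, div_mul_div_comm, h, div_self (by simpa)]))
  obtain ⟨c, hc⟩ := Finite.injective_iff_surjective.1 this (a / (θ x + x))
  refine ⟨c * x, c, ?_⟩
  rw [eq_div_iff hx] at hc
  rw [map_mul, ← hc]; ring

theorem Suz.sylowEA {F : Type*} [Field F] [CharP F 2] {θ : F →+* F} [Suz.Tits θ] [Finite F]
    (hF : 2 < Nat.card F) : SylowEA 2 (Suz.grp θ) := by
  have h := Suz.rankOne (θ := θ)
  have h0 : IsPGroup 2 (Suz.SU θ) := fun x => ⟨2, by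
    ext <;> simp [pow_succ] <;> grind⟩
  have hU : IsPGroup 2 (Suz.uni θ).range := h0.of_surjective _ (Suz.uni θ).rangeRestrict_surjective
  refine sylowEA_of_split (L := ⊥) hU bot_le (fun P x => by
    rw [Subsingleton.elim (x ^ 2) 1]; exact one_mem _) fun P hP g hg => ⟨g, ?_, by simp⟩
  have h3 : g ∈ Suz.borel θ := by
    obtain ⟨z, hz0, hz⟩ := exists_rep_fixed (ρ := homRep (subMat (Suz.grp θ))) P.isPGroup'
      (x := fun _ => 1) fun e => one_ne_zero (congrFun e 0)
    have a1 := hz _ (hP ⟨⟨1, 0⟩, rfl⟩)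
    rw [homRep_apply, show subMat _ (Suz.uni θ ⟨1, 0⟩) = Suz.umat (⟨1, 0⟩ : Suz.SU θ) from rfl] at a1
    have b0 := congrFun a1 0
    have b1 := congrFun a1 1
    have b2 := congrFun a1 2
    simp [Suz.umat, Matrix.mulVec, dotProduct, Fin.sum_univ_four, add_assoc] at b0 b1 b2
    simp [b1, b2] at b0
    have b3 : z 0 ≠ 0 := fun e => hz0 (by ext i; fin_cases i <;> simp [*])
    have a2 : ∀ i, subMat _ g i 0 * z 0 = z i := fun i => by
      simpa [homRep_apply, Matrix.mulVec, dotProduct, Fin.sum_univ_four, b0, b1, b2] using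
        congrFun (hz g hg) i
    exact Suz.mem_borel.2 ⟨(mul_eq_zero_iff_right b3).1 ((a2 1).trans b0),
      (mul_eq_zero_iff_right b3).1 ((a2 2).trans b1), (mul_eq_zero_iff_right b3).1 ((a2 3).trans b2)⟩
  obtain ⟨x, t, rfl⟩ := Suz.exists_eq_uni_mul h3
  obtain ⟨k, hk⟩ := P.isPGroup' ⟨_, (P.mul_mem_cancel_left (hP ⟨x, rfl⟩)).1 hg⟩
  have h4 := congrFun (congrFun (congrArg (fun g : P => Suz.mat g.1) hk) 0) 0
  simp only [Subgroup.coe_pow, ← map_pow, Suz.mat_dia, OneMemClass.coe_one, Suz.mat_one] at h4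
  have h5 : t = 1 := Units.ext (iterateFrobenius F 2 k |>.injective (by
    simpa [Suz.dmat, iterateFrobenius_def] using h4))
  obtain ⟨a, b, hab⟩ := exists_tits_comm θ (fun r hr => by
    have := congrArg θ hr
    rw [map_mul, Suz.Tits.sq, map_one] at this
    grind) (by
      by_contra! h6
      haveI := Fintype.ofFinite F
      obtain ⟨s, hs⟩ := Chev.exists_pow_ne_pow (K := F) one_pos one_lt_two
        (by rwa [← Nat.card_eq_fintype_card])
      have := Suz.Tits.sq (θ := θ) s
      have := h6 s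
      have := h6 (θ s)
      grind) (θ x.a * x.a)
  rw [h5, map_one, mul_one]
  refine mem_powComm.2 ⟨⟨x, rfl⟩, ?_⟩
  rw [← map_pow, show x ^ 2 = ⁅(⟨a, 0⟩ : Suz.SU θ), ⟨b, 0⟩⁆ by
    ext <;> simp [pow_succ, commutatorElement_def] <;> grind, map_commutatorElement]
  exact commutator_mem_commutator ⟨_, rfl⟩ ⟨_, rfl⟩

theorem sylowEA_sz {F : Type*} [Field F] [Fintype F] {m : ℕ} (hm : 1 ≤ m)
    (hq : Fintype.card F = 2 ^ (2 * m + 1)) : SylowEA 2 (Lie.Sz F (2 ^ (m + 1))) := by
  haveI : CharP F 2 := charP_of_card_eq_prime_pow hq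
  haveI : Suz.Tits (iterateFrobenius F 2 (m + 1)) := ⟨fun x => by
    rw [iterateFrobenius_def, iterateFrobenius_def, ← pow_mul,
      show 2 ^ (m + 1) * 2 ^ (m + 1) = Fintype.card F * 2 by rw [hq]; ring, pow_mul,
      FiniteField.pow_card]⟩
  rw [show Lie.Sz F (2 ^ (m + 1)) = Suz.grp (iterateFrobenius F 2 (m + 1)) from
    Subgroup.closure_eq (Suz.grp (iterateFrobenius F 2 (m + 1)))]
  exact Suz.sylowEA (by
    rw [Nat.card_eq_fintype_card, hq]; exact lt_self_pow₀ one_lt_two (by omega))

end Cfsg
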