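import Cfsg.Agent.Lie.Polar
import Cfsg.Agent.Grp.SylowEA

/-!
# Sylow `2`-subgroups of classical groups in characteristic `2`
-/

set_option autoImplicit false
set_option linter.unusedSectionVars false
set_option linter.unusedVariables false
set_option linter.style.haveILetI false
set_option linter.unusedSimpArgs false

namespace Cfsg

open Subgroup Submodule
open scoped commutatorElement

universe u v w

theorem sylowEA_of_split {H : Type w} [Group H] [Finite H] {p : ℕ} [Fact p.Prime]
    {R L : Subgroup H} (hR : IsPGroup p R) (hL : L ≤ normalizer (R : Set H)) (hL' : SylowEA p L)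
    (h : ∀ P : Sylow p H, R ≤ P → ∀ g ∈ P, ∃ r ∈ powComm p R, r⁻¹ * g ∈ L) : SylowEA p H := by
  let T : Sylow p L := default
  obtain ⟨P, hP⟩ := (hR.to_sup_of_normal_left' (T.isPGroup'.map L.subtype)
    ((Subgroup.map_subtype_le _).trans hL)).exists_le_sylow
  have h1 : ¬ p ∣ (P : Subgroup H).relIndex L := fun h => T.not_dvd_index (h.trans
    (index_dvd_of_le fun x hx => hP (mem_sup_right ⟨x, hx, rfl⟩)))
  have h2 := le_sup_left.trans hP
  refine sylowEA_of_abExp P.isPGroup' P.not_dvd_index (abExp_iff_le_powComm.2 fun g hg => ?_)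
  obtain ⟨r, hr, h3⟩ := h P h2 g hg
  simpa using mul_mem (powComm_mono h2 hr) (powComm_mono inf_le_left (hL'.inf_le_powComm
    P.isPGroup' h1 ⟨P.mul_mem (P.inv_mem (h2 (powComm_le _ hr))) hg, h3⟩))

variable {K : Type u} [Field K] {V : Type v} [AddCommGroup V] [Module K V] {H : Type w} [Group H]
  {ρ : Representation K H V} {σ : K →+* K} {B : V →ₗ[K] V →ₛₗ[σ] K} {Sg : Set V} {α : K}

theorem exists_rep_fixed {p : ℕ} [Fact p.Prime] [CharP K p] [Finite V] {P : Subgroup H}
    (hP : IsPGroup p P) {x : V} (hx : x ≠ 0) : ∃ z ≠ 0, ∀ g ∈ P, ρ g z = z := by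
  letI := MulAction.compHom V (ρ.comp P.subtype)
  obtain ⟨z, hz, h0⟩ := hP.exists_fixed_point_of_prime_dvd_card_of_fixed_point V
    (by rw [← addOrderOf_eq_prime (p := p) (x := x) (by
      rw [← Nat.cast_smul_eq_nsmul K, CharP.cast_eq_zero, zero_smul]) hx]
        exact addOrderOf_dvd_natCard x) (a := 0) fun g => map_zero (ρ g)
  exact ⟨z, h0.symm, fun g hg => hz ⟨g, hg⟩⟩

/-- The pointwise stabilizer of two vectors. -/
def fixTwo (ρ : Representation K H V) (x y : V) : Subgroup H where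
  carrier := {g | ρ g x = x ∧ ρ g y = y}
  mul_mem' {a b} ha hb := by simp [ha.1, ha.2, hb.1, hb.2]
  one_mem' := by simp
  inv_mem' {a} ha := ⟨by simpa [ha.1] using rep_inv_apply ρ a x,
    by simpa [ha.2] using rep_inv_apply ρ a y⟩

variable [CharP K 2] [Finite H]

theorem sylowEA_of_finrank_le_two [FiniteDimensional K V] (hρ : Function.Injective ρ)
    (hd : Module.finrank K V ≤ 2) : SylowEA 2 H := fun P x => by
  obtain ⟨k, hk⟩ := P.isPGroup' x
  have h0 : ((2 : ℕ) : Module.End K V) = 0 := by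
    rw [← map_natCast (algebraMap K (Module.End K V)), CharP.cast_eq_zero, map_zero]
  obtain ⟨r, hr⟩ := (Commute.one_right (ρ x)).exists_add_pow_prime_pow_eq Nat.prime_two k
  rw [h0, ← map_pow, ← Subgroup.coe_pow, hk, one_pow, OneMemClass.coe_one, map_one,
    one_add_one_eq_two, show (2 : Module.End K V) = 0 from h0] at hr
  have h1 : (ρ x + 1) ^ 2 = 0 := pow_eq_zero_of_le hd (LinearMap.ker_eq_top.1 (top_unique
    (le_trans (by rw [hr]; simp) (Module.End.ker_pow_le_ker_pow_finrank _ (2 ^ k)))))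
  have h2 : ρ (x ^ 2) = ρ 1 := by
    rw [map_pow, map_one, ← sub_eq_zero, ← h1, ← sub_eq_zero, ← mul_zero (-ρ x - 1), ← h0,
      Nat.cast_ofNat]
    noncomm_ring
  rw [show x ^ 2 = 1 from Subtype.ext (hρ h2)]
  exact one_mem _

/-- Polar spaces in characteristic `2`. -/
structure Polar2 (ρ : Representation K H V) (σ : K →+* K) (B : V →ₗ[K] V →ₛₗ[σ] K) (Sg : Set V)
    (α : K) : Prop extends Polar ρ σ B Sg α where
  trans : ∀ x ∈ Sg, ∀ (g : H) (y : V) (c : K), B y x = 1 → ρ g y = y + c • x →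
    ∃ t : H, ∀ w, ρ t w = w + (c * B w x) • x
  aniso : ∀ a b, B b a = 0 → a ∉ Sg → ∃ s : K, s • a + b ∈ Sg
  sq : (∀ v, B v v = 0) ∨ ∃ c, σ c + c = 1

theorem Polar2.mem_powComm (h : Polar2 ρ σ B Sg α) {x v : V} (hx : x ∈ Sg) (hv : B v x = 0)
    {g : H} {μ : K} (hg : ∀ w, ρ g w = w + B w x • v + (α * B w v + μ * B w x) • x) :
    g ∈ powComm 2 (flagUnip ρ (tsFlag B (span K {x}))) := by
  have h1 := h.self x hx
  have h2 := h.refl _ _ hv
  have h3 : ∀ {v : V} {g : H} {μ : K}, B v x = 0 → (∀ w, ρ g w = w + B w x • v +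
      (α * B w v + μ * B w x) • x) → g ∈ flagUnip ρ (tsFlag B (span K {x})) := fun hv hg =>
    h.mem_unip (h.le_perp_one hx) (mem_span_singleton_self x) (mem_perpS_span.2 (by simpa)) hg
  rcases h.sq with hc | ⟨c, hc⟩
  · refine mem_powComm_of_pow_eq_one (h3 hv hg) (h.inj (LinearMap.ext fun w => ?_))
    simp only [pow_two, rep_mul_apply, hg, map_add, map_smul, LinearMap.add_apply,
      LinearMap.smul_apply, smul_eq_mul, h1, h2, hv, hc, map_one, Module.End.one_apply]
    match_scalars <;> grind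
  have a1 : B (c • v) x = 0 := by simp [hv]
  obtain ⟨g', μ', hg'⟩ := h.eich x hx _ a1
  have a2 : g * g' = g ^ 2 * g' * g := h.inj (LinearMap.ext fun w => by
    simp only [pow_two, rep_mul_apply, hg, hg', map_add, map_smul, LinearMap.add_apply,
      LinearMap.smul_apply, smul_eq_mul, h1, h2, hv, LinearMap.map_smulₛₗ]
    match_scalars <;> grind)
  refine Cfsg.mem_powComm.2 ⟨h3 hv hg, ?_⟩
  rw [show g ^ 2 = ⁅g, g'⁆ by rw [commutatorElement_def, a2]; group]
  exact commutator_mem_commutator (h3 hv hg) (h3 a1 hg')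

theorem Polar2.restrict (h : Polar2 ρ σ B Sg α) {x y : V} (hx : x ∈ Sg) (hy : B y x = 1)
    (hW : ∀ g, perpS B (span K {x, y}) ≤
      (perpS B (span K {x, y})).comap (ρ.comp (fixTwo ρ x y).subtype g)) :
    Polar2 (Representation.subrepresentation (ρ.comp (fixTwo ρ x y).subtype) _ hW) σ
      (B.domRestrict₁₂ _ _) {w | w.1 ∈ Sg} α := by
  have h1 := h.self x hx
  have h2 : B x y ≠ 0 := fun e => one_ne_zero (hy.symm.trans (h.refl _ _ e))
  have h3 : ∀ w : perpS B (span K {x, y}), B x w = 0 ∧ B y w = 0 := fun w =>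
    ⟨h.refl _ _ (w.2 x (subset_span (by simp))), h.refl _ _ (w.2 y (subset_span (by simp)))⟩
  have h4 : ∀ v, ∃ (w : perpS B (span K {x, y})) (a b : K), v = w + a • x + b • y := fun v =>
    ⟨⟨v - B v x • y - (B (v - B v x • y) y / B x y) • x, mem_perpS_span.2 (by
      simp [h1, hy, h2])⟩, B (v - B v x • y) y / B x y, B v x, by simp⟩
  exact
    { invol := h.invol
      refl := fun u v => h.refl _ _
      nondeg := fun u hu => Subtype.ext (h.nondeg _ fun v => by
        obtain ⟨w, a, b, rfl⟩ := h4 v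
        simpa [h3 u] using show B w u = 0 from hu w)
      inj := fun g g' e => Subtype.ext (h.inj (LinearMap.ext fun v => by
        obtain ⟨w, a, b, rfl⟩ := h4 v
        have := congrArg Subtype.val (LinearMap.congr_fun e w)
        simpa [g.2.1, g.2.2, g'.2.1, g'.2.2] using this))
      iso := fun g u v => h.iso g u v
      sing := fun g u hu => h.sing g u hu
      self := fun u hu => h.self u hu
      comb := fun u hu v hv => h.comb u hu v hv
      ne := h.ne
      eich := fun u hu v huv => by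
        obtain ⟨g, μ, hg⟩ := h.eich u hu v huv
        exact ⟨⟨g, by simp [hg, h3], by simp [hg, h3]⟩, μ, fun w => Subtype.ext (hg w)⟩
      trans := fun u hu g v c huv e => by
        obtain ⟨t, ht⟩ := h.trans u hu g v c huv (congrArg Subtype.val e)
        exact ⟨⟨t, by simp [ht, h3], by simp [ht, h3]⟩, fun w => Subtype.ext (ht w)⟩
      aniso := fun a b => h.aniso a b
      sq := h.sq.imp_left fun h v => h v }

theorem Polar2.sylowEA [Finite V] (h : Polar2 ρ σ B Sg α) : SylowEA 2 H := by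
  generalize hn : Module.finrank K V = n
  induction n using Nat.strong_induction_on generalizing V H with
  | _ n ih => ?_
  subst hn
  by_cases hd : Module.finrank K V ≤ 2
  · exact sylowEA_of_finrank_le_two h.inj hd
  have h0 : ∀ a : V, ∃ b, B b a = 0 ∧ b ∉ span K {a} := fun a => by
    by_contra! h1
    have h2 := LinearMap.finrank_range_add_finrank_ker (B.flip a)
    have h3 : Module.finrank K (LinearMap.range (B.flip a)) ≤ 1 := by
      simpa using (LinearMap.range (B.flip a)).finrank_le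
    have h4 := (Submodule.finrank_mono (s := LinearMap.ker (B.flip a)) h1).trans
      (finrank_span_le_card (R := K) {a})
    simp at h4; omega
  obtain ⟨x, hx, hx0⟩ : ∃ x ∈ Sg, x ≠ 0 := by
    haveI := Module.nontrivial_of_finrank_pos (R := K) (M := V) (by omega)
    obtain ⟨a, ha⟩ := exists_ne (0 : V)
    by_cases ha' : a ∈ Sg
    · exact ⟨a, ha', ha⟩
    obtain ⟨b, h1, h2⟩ := h0 a
    obtain ⟨s, hs⟩ := h.aniso a b h1 ha'
    exact ⟨_, hs, fun e => h2 (mem_span_singleton.2 ⟨-s, by
      rw [neg_smul, neg_eq_of_add_eq_zero_right e]⟩)⟩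
  obtain ⟨y, hy⟩ := h.exists_eq_one hx0
  have hxx := h.self x hx
  have hW : ∀ g, perpS B (span K {x, y}) ≤
      (perpS B (span K {x, y})).comap (ρ.comp (fixTwo ρ x y).subtype g) := fun g w hw =>
    mem_perpS_span.2 (by
      rintro z (rfl | rfl)
      · exact (congrArg _ g.2.1.symm).trans ((h.iso g w z).trans (hw z (subset_span (by simp))))
      · exact (congrArg _ g.2.2.symm).trans ((h.iso g w z).trans (hw z (subset_span (by simp)))))
  refine sylowEA_of_split ((isFlag_flagTwo (h.le_perp_one hx)).isPGroup h.inj)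
    (fun g hg => flagStab_le_normalizer (h.mem_stab fun v hv => ?_))
    (ih _ (Submodule.finrank_lt fun e => ?_) (h.restrict hx hy hW) rfl) fun P hP g hg => ?_
  · obtain ⟨c, rfl⟩ := mem_span_singleton.1 hv
    rwa [map_smul, hg.1]
  · exact one_ne_zero (hy.symm.trans (e.ge (mem_top (x := y)) x (subset_span (by simp))))
  have h1 : ρ g x = x := by
    obtain ⟨z, hz0, hz⟩ := exists_rep_fixed (ρ := ρ) P.isPGroup' hx0
    have a1 : ∀ v, B v x = 0 → B z x • v ∈ span K {x} ∧ (B z x = 0 → B z v = 0) := fun v hv => by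
      obtain ⟨r, μ, hr⟩ := h.eich x hx v hv
      have := hz r (hP (powComm_le _ (h.mem_powComm hx hv hr)))
      rw [hr, add_assoc, add_eq_left] at this
      refine ⟨mem_span_singleton.2 ⟨-_, by rw [neg_smul, neg_eq_of_add_eq_zero_left this]⟩,
        fun e => by simpa [e, hx0, h.ne] using this⟩
    obtain ⟨b, b1, b2⟩ := h0 x
    have a2 : B z x = 0 := by_contra fun e => b2 ((smul_mem_iff _ e).1 (a1 b b1).1)
    obtain ⟨c, rfl⟩ : ∃ c : K, c • x = z := mem_span_singleton.1 (by_contra fun e => by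
      obtain ⟨w, c1, c2⟩ := h.exists_eq_zero_one e
      exact one_ne_zero (c2.symm.trans (h.refl _ _ ((a1 w c1).2 a2))))
    have := hz g hg
    rw [map_smul] at this
    exact smul_right_injective V (fun e => hz0 (by simp [e])) this
  have h2 : B (ρ g y - y) x = 0 := by
    have := h.iso g y x
    rw [h1] at this
    simp [this]
  obtain ⟨r, μ, hr⟩ := h.eich x hx _ h2
  have h3 : ρ r x = x := by rw [hr, hxx, h.refl _ _ h2]; simp
  obtain ⟨t, ht⟩ := h.trans x hx (g⁻¹ * r) y (α * B y (ρ g y - y) + μ) hy (by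
    rw [rep_mul_apply, hr, hy, one_smul, add_sub_cancel, map_add, rep_inv_apply, map_smul, mul_one,
      ← h1, rep_inv_apply, h1])
  have h4 : ρ t x = x := by simp [ht, hxx]
  refine ⟨r * t⁻¹, mul_mem (h.mem_powComm hx h2 hr) (inv_mem (h.mem_powComm hx (v := 0)
    (by simp) (by simpa using ht))), ?_, ?_⟩
  · rw [rep_mul_apply, h1, mul_inv_rev, rep_mul_apply, ← h3, rep_inv_apply, h3, inv_inv, h4]
  · have : ρ g y = ρ (r * t⁻¹) y := by
      have a1 : ρ t⁻¹ y = y - (α * B y (ρ g y - y) + μ) • x := by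
        rw [← rep_inv_apply ρ t (y - _), map_sub, map_smul, h4, ht, hy]; simp
      rw [rep_mul_apply, a1, map_sub, map_smul, h3, hr, hy]; simp
    rw [rep_mul_apply, this, rep_inv_apply]

theorem sylowEA_of_transvections [Finite V] (hρ : Function.Injective ρ)
    (ht : ∀ (φ : V →ₗ[K] K) (v : V), φ v = 0 → ∃ g : H, ∀ w, ρ g w = w + φ w • v) :
    SylowEA 2 H := by
  generalize hn : Module.finrank K V = n
  induction n using Nat.strong_induction_on generalizing V H with
  | _ n ih => ?_
  subst hn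
  by_cases hd : Module.finrank K V ≤ 2
  · exact sylowEA_of_finrank_le_two hρ hd
  haveI := Module.nontrivial_of_finrank_pos (R := K) (M := V) (by omega)
  obtain ⟨x, hx⟩ := exists_ne (0 : V)
  obtain ⟨π, hπ⟩ := Module.Projective.exists_dual_eq_one K hx
  have hW := isFlag_flagTwo (bot_le : ⊥ ≤ span K {x})
  have tr : ∀ {φ : V →ₗ[K] K} {g : H}, φ x = 0 → (∀ w, ρ g w = w + φ w • x) →
      g ∈ powComm 2 (flagUnip ρ (flagTwo (span K {x}) ⊥)) := fun {φ g} h1 hg =>
    mem_powComm_of_pow_eq_one (mem_unip_flagTwo bot_le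
      (fun w => by rw [hg, add_sub_cancel_left]; exact mem_span_singleton.2 ⟨_, rfl⟩)
      (fun w hw => by obtain ⟨c, rfl⟩ := mem_span_singleton.1 hw; simp [hg, h1])
      fun w hw => by rw [show w = 0 from hw, map_zero]) (hρ (LinearMap.ext fun w => by
        simp only [pow_two, rep_mul_apply, hg, map_add, map_smul, h1, map_one, Module.End.one_apply,
          smul_zero]
        match_scalars <;> grind))
  let L := fixTwo ρ x x ⊓ flagStab ρ fun _ => LinearMap.ker π
  have hL : ∀ g, LinearMap.ker π ≤ (LinearMap.ker π).comap (ρ.comp L.subtype g) :=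
    fun g => mem_flagStab.1 g.2.2 0
  have h4 : ∀ v, ∃ (w : LinearMap.ker π) (a : K), v = w + a • x := fun v =>
    ⟨⟨v - π v • x, by simp [hπ]⟩, π v, by simp⟩
  refine sylowEA_of_split (L := L) (hW.isPGroup hρ)
    (fun g hg => flagStab_le_normalizer (mem_stab_flagTwo (fun v hv => ?_) fun v hv => ?_))
    (ih _ (Submodule.finrank_lt fun e => ?_) (ρ := Representation.subrepresentation _ _ hL)
      (fun g g' e => Subtype.ext (hρ (LinearMap.ext fun v => ?_))) (fun φ v hv => ?_) rfl)
    fun P hP g hg => ?_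
  · obtain ⟨c, rfl⟩ := mem_span_singleton.1 hv
    rwa [map_smul, hg.1.1]
  · rw [show v = 0 from hv, map_zero]; exact zero_mem _
  · exact one_ne_zero (hπ.symm.trans (e.ge (mem_top (x := x))))
  · obtain ⟨w, a, rfl⟩ := h4 v
    have := congrArg Subtype.val (LinearMap.congr_fun e w)
    simpa [g.2.1.1, g'.2.1.1] using this
  · let q : V →ₗ[K] LinearMap.ker π := (LinearMap.id - π.smulRight x).codRestrict _ (by simp [hπ])
    have a1 : ∀ w : LinearMap.ker π, q w = w := fun w =>
      Subtype.ext (show w.1 - π w • x = w by simp [show π w = 0 from w.2])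
    have a2 : q x = 0 := Subtype.ext (show x - π x • x = 0 by simp [hπ])
    obtain ⟨g, hg⟩ := ht (φ ∘ₗ q) v (by simp [a1, hv])
    exact ⟨⟨g, ⟨by simp [hg, a2], by simp [hg, a2]⟩, mem_flagStab.2 fun _ w hw => by
      rw [hg]; exact add_mem hw (Submodule.smul_mem _ _ v.2)⟩,
      fun w => Subtype.ext (by simpa [a1] using hg w)⟩
  have h1 : ρ g x = x := by
    obtain ⟨z, hz0, hz⟩ := exists_rep_fixed (ρ := ρ) P.isPGroup' hx
    obtain ⟨c, rfl⟩ : ∃ c : K, c • x = z := mem_span_singleton.1 (by_contra fun e => by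
      obtain ⟨φ, c1, c2⟩ := (span K {x}).exists_dual_map_eq_bot_of_notMem e inferInstance
      have c3 : φ x = 0 := c2.le ⟨x, mem_span_singleton_self x, rfl⟩
      obtain ⟨r, hr⟩ := ht φ x c3
      simpa [hr, c1, hx] using hz r (hP (powComm_le _ (tr c3 hr))))
    have := hz g hg
    rw [map_smul] at this
    exact smul_right_injective V (fun e => hz0 (by simp [e])) this
  have h2 : (π ∘ₗ ρ g⁻¹ - π) x = 0 := by
    have := rep_inv_apply ρ g x
    rw [h1] at this
    simp [this]
  obtain ⟨r, hr⟩ := ht _ x h2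
  have h3 : ρ r⁻¹ x = x := by simpa [hr, h2] using rep_inv_apply ρ r x
  refine ⟨r, tr h2 hr, ⟨by simp [h1, h3], by simp [h1, h3]⟩,
    (flagStab ρ _).inv_mem_iff.1 (mem_flagStab.2 fun _ w hw => ?_)⟩
  have h5 : ρ g⁻¹ x = x := by simpa [h1] using rep_inv_apply ρ g x
  simp [hr, h5, hπ, show π w = 0 from hw, CharTwo.add_self_eq_zero]

end Cfsg

set_option linter.all false in
theorem Cfsg.Rz.Lie_SylPolar_0 : True := by
  have := @_root_.Cfsg.Polar2.mk.congr_simp.{0, 0, 0}
  have := @_root_.Cfsg.fixTwo.eq_def.{0, 0, 0}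
  have := @_root_.Cfsg.fixTwo.eq_1.{0, 0, 0}
  have := @_root_.Cfsg.fixTwo.fun_cases
  trivial
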