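import Cfsg.Agent.Lie.ChevTw
import Cfsg.Agent.Lie.TabE6
import Cfsg.Agent.Lie.TabD4
import Cfsg.Agent.Lie.TabF4
import Cfsg.Agent.Lie.SylCl
import Cfsg.Agent.Lie.RigTw

/-!
# Sylow `2`-subgroups of `²E₆`, `³D₄`, `²F₄` in characteristic `2`
-/

set_option autoImplicit false
set_option linter.unusedSectionVars false
set_option linter.unusedVariables false
set_option linter.style.haveILetI false
set_option linter.style.longLine false
set_option linter.unusedSimpArgs false
set_option maxRecDepth 100000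

namespace Cfsg

open Subgroup Matrix _root_.Cfsg.Lie
open scoped commutatorElement

namespace Chev

variable {K : Type*} [Field K] [Finite K] [CharP K 2] {q : ℕ} {φ : K →+* K}

/-- The graph automorphism of `E₆`. -/
def twE6 : Tw := ⟨0x4d4c4b483d4a473c453a3742332f2c2a49463b4439364338353441322e2b40312d3f303e152314262213282521121f1e1b101d1a0f180d0a29272420111c190e170c09160b080706000203040105, 0x10101010101010101010101010101010101010101010101010101010101010101010101010101010101010101010101010101010101010101010101010101010101010101010101010101010101, 0⟩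

theorem sylowEA_twE6 (hφ : ∀ t, t ^ q = φ t) (h2 : ∀ t, φ (φ t) = t) :
    SylowEA 2 (twistedE6 K q) := by
  have h := certE6
  obtain ⟨X, hX⟩ := h.exists_X K
  refine Cert.sylowEA_gen hX ?_
  set G1 := closure (wordX X '' e6Words K q)
  have m1 : ∀ r ∈ [46, 25, 39, 32], ∀ t, t = φ t → wordX X [(r, t)] ∈ G1 := fun r hr t ht =>
    subset_closure ⟨_, .inl ⟨t, (hφ t).trans ht.symm, r, hr, rfl⟩, rfl⟩
  have m2 : ∀ rs ∈ [(56, 36), (15, 35), (42, 37), (29, 34)], ∀ t t', t' = φ t →
      wordX X [(rs.1, t), (rs.2, t')] ∈ G1 := fun rs hr t _ e =>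
    subset_closure ⟨_, .inr ⟨t, rs, hr, by rw [hφ, e]⟩, rfl⟩
  have o := (map_one φ).symm
  have hG : ∀ g ∈ G1, g ∈ twE6.fix chevE6 φ := Cert.closure_fix <| by
    rintro _ ⟨_, ⟨t, ht, r, hr, rfl⟩ | ⟨t, rs, hr, rfl⟩, rfl⟩
    · simpa [winst, pval_pA] using h.mem_fix (φ := φ) (τ := twE6) (ψ := id) (v := (t, 1, 1, 1))
        (fun m => by simp [Mon.val, ← hφ t, ht]) (w := [(r, pA)]) (by revert r; decide +kernel) hX
    · simpa [winst, pval_pA, pval_pB, hφ] using h.mem_fix (φ := φ) (τ := twE6)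
        (ψ := fun m => (m.2.1, m.1, m.2.2)) (v := (t, φ t, 1, 1))
        (fun m => by simp [Mon.val, h2, mul_comm]) (w := [(rs.1, pA), (rs.2, pB)])
        (by revert rs; decide +kernel) hX
  refine (h.isBN2 hX).sylowEA_tw (Lr := [[1], [3], [1], [0, 5], [2, 4], [3], [1], [0, 5], [2, 4], [3], [1], [0, 5], [2, 4], [3], [1], [0, 5], [2, 4], [3], [1], [0, 5], [2, 4], [3], [0, 5], [2, 4]])
    (fun l hl => ?_) (by decide +kernel) fun i (hi : i < 6) => ?_
  · obtain rfl | rfl | rfl | rfl : l = [1] ∨ l = [3] ∨ l = [0, 5] ∨ l = [2, 4] := by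
      revert l; decide
    · exact h.cls_inv hX hG (T := 0x121211100f100f0e0e0d0c0e0d0c0b0a0f0e0d0d0c0b0c0b0a090d0c0b0a0c0b0a0b0a0a080807080706080706050908070607060505040308070605040605040403020302010000090909090909) (c := 9)
        (isWt_of_check _ (by decide +kernel)) (rs := [46]) (ns := [25]) (by decide +kernel)
        (m1 46 (by simp) 1 o) (m1 25 (by simp) 1 o) fun v hv =>
          m1 46 (by simp) _ (hv 1 31 pA pA (by decide +kernel))
    · exact h.cls_inv hX hG (T := 0x100f0f0e0d0e0d0c0d0c0b0c0b0a0a090d0c0b0c0b0a0b0a09090b0a09090a09080a0909070706080706070706050707060506050405040307060605040504030403020302010100080808080808) (c := 8)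
        (isWt_of_check _ (by decide +kernel)) (rs := [39]) (ns := [32]) (by decide +kernel)
        (m1 39 (by simp) 1 o) (m1 32 (by simp) 1 o) fun v hv =>
          m1 39 (by simp) _ (hv 3 38 pA pA (by decide +kernel))
    · exact h.cls_inv hX hG (T := 0x1211100f0f0f0e0e0d0d0c0c0c0b0a090f0e0e0d0d0c0c0c0b0a0c0c0b0a0b0b0a0a0a09090808080707080706060807060606050504040309080706060605050404030303020100090909090909) (c := 9)
        (isWt_of_check _ (by decide +kernel)) (rs := [56, 36]) (ns := [15, 35]) (by decide +kernel)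
        (m2 (56, 36) (by simp) 1 1 o) (m2 (15, 35) (by simp) 1 1 o) fun v hv =>
          m2 (56, 36) (by simp) _ _ (hv 0 21 pA pB (by decide +kernel))
    · exact h.cls_inv hX hG (T := 0xe0d0c0c0b0c0c0b0b0a0a0a090908080b0b0a0a09090a09090809080807090808080708060706060605070606050605050405050404030306060505040404030302020302020100070707070707) (c := 7)
        (isWt_of_check _ (by decide +kernel)) (rs := [42, 37]) (ns := [29, 34]) (by decide +kernel)
        (m2 (42, 37) (by simp) 1 1 o) (m2 (29, 34) (by simp) 1 1 o) fun v hv =>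
          m2 (42, 37) (by simp) _ _ (hv 2 35 pA pB (by decide +kernel))
  have a1 := fun i => h.reg hX (i := i) (rs := [56, 36]) (m2 (56, 36) (by simp) 1 1 o)
  have a2 := fun i => h.reg hX (i := i) (rs := [42, 37]) (m2 (42, 37) (by simp) 1 1 o)
  interval_cases i
  exacts [a1 _ (by decide +kernel), h.reg hX (rs := [46]) (m1 46 (by simp) 1 o) (by decide +kernel),
    a2 _ (by decide +kernel), h.reg hX (rs := [39]) (m1 39 (by simp) 1 o) (by decide +kernel),
    a2 _ (by decide +kernel), a1 _ (by decide +kernel)]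

/-- The triality automorphism of `D₄`. -/
def twD4 : Tw := ⟨0x1b1a15191411181317121016090f0d080c070e0b060a050400030102, 0x1010101010101010101010101010101010101010101010101010101, 0⟩

theorem sylowEA_twD4 (hφ : ∀ t, t ^ q = φ t) (h2 : ∀ t, φ (φ (φ t)) = t) :
    SylowEA 2 (twistedD4 K q) := by
  have h := certD4
  obtain ⟨X, hX⟩ := h.exists_X K
  refine Cert.sylowEA_gen hX ?_
  set G1 := closure (wordX X '' d4Words K q)
  have hφ' : ∀ t, t ^ q ^ 2 = φ (φ t) := fun t => by rw [sq, pow_mul, hφ, hφ]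
  have m1 : ∀ r ∈ [14, 9], ∀ t, t = φ t → wordX X [(r, t)] ∈ G1 := fun r hr t ht =>
    subset_closure ⟨_, .inl ⟨t, (hφ t).trans ht.symm, r, hr, rfl⟩, rfl⟩
  have m2 : ∀ rs ∈ [(18, 13, 12), (5, 10, 11)], ∀ t t' t'', t' = φ t → t'' = φ t' →
      wordX X [(rs.1, t), (rs.2.1, t'), (rs.2.2, t'')] ∈ G1 := fun rs hr t _ _ e e' =>
    subset_closure ⟨_, .inr ⟨t, rs, hr, by rw [hφ, hφ', e', e]⟩, rfl⟩
  have o := (map_one φ).symm
  have hG : ∀ g ∈ G1, g ∈ twD4.fix chevD4 φ := Cert.closure_fix <| by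
    rintro _ ⟨_, ⟨t, ht, r, hr, rfl⟩ | ⟨t, rs, hr, rfl⟩, rfl⟩
    · simpa [winst, pval_pA] using h.mem_fix (φ := φ) (τ := twD4) (ψ := id) (v := (t, 1, 1, 1))
        (fun m => by simp [Mon.val, ← hφ t, ht]) (w := [(r, pA)]) (by revert r; decide +kernel) hX
    · simpa [winst, pval, pA, pB, Mon.val, hφ, hφ'] using h.mem_fix (φ := φ) (τ := twD4)
        (ψ := fun m => (m.2.2.1, m.1, m.2.1, m.2.2.2)) (v := (t, φ t, φ (φ t), 1))
        (fun m => by simp only [Mon.val, map_mul, map_pow, h2, map_one]; ring)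
        (w := [(rs.1, pA), (rs.2.1, pB), (rs.2.2, [(0, 0, 1, 0)])])
        (by revert rs; decide +kernel) hX
  refine (h.isBN2 hX).sylowEA_tw (Lr := [[1], [0, 2, 3], [1], [0, 2, 3], [1], [0, 2, 3]])
    (fun l hl => ?_) (by decide +kernel) fun i (hi : i < 4) => ?_
  · obtain rfl | rfl : l = [1] ∨ l = [0, 2, 3] := by revert l; decide
    · exact h.cls_inv hX hG (T := 0x6060505040405040403040402020302020102020101000003030303) (c := 3)
        (isWt_of_check _ (by decide +kernel)) (rs := [14]) (ns := [9]) (by decide +kernel)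
        (m1 14 (by simp) 1 o) (m1 9 (by simp) 1 o) fun v hv =>
          m1 14 (by simp) _ (hv 1 13 pA pA (by decide +kernel))
    · exact h.cls_inv hX hG (T := 0x4030303030203030303020202020101010102010101010002020202) (c := 2)
        (isWt_of_check _ (by decide +kernel)) (rs := [18, 13, 12]) (ns := [5, 10, 11])
        (by decide +kernel) (m2 (18, 13, 12) (by simp) 1 1 1 o o)
        (m2 (5, 10, 11) (by simp) 1 1 1 o o) fun v hv => m2 (18, 13, 12) (by simp) _ _ _
          (hv 0 9 pA pB (by decide +kernel)) (hv 2 14 pB _ (by decide +kernel))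
  have a1 := fun i => h.reg hX (i := i) (rs := [18, 13, 12]) (m2 (18, 13, 12) (by simp) 1 1 1 o o)
  interval_cases i
  exacts [a1 _ (by decide +kernel), h.reg hX (rs := [14]) (m1 14 (by simp) 1 o) (by decide +kernel),
    a1 _ (by decide +kernel), a1 _ (by decide +kernel)]

/-- The special isogeny of `F₄`. -/
def twF4 : Tw := ⟨0xffffff33ffffff32312f242e231e1cffffff2d221dffffffffffff1a150affffff1b19140913080605ffffff04ffffffffff0203, 0x1000000010101010101010100000001010100000000000001010100000001010101010101010000000100000000000101, 0x1000000010101010101010100000001010100000000000001010100000001010101010101010000000100000000000101⟩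

theorem sylowEA_twF4 (hφ : ∀ t, t ^ q = φ t) (h2 : ∀ t, φ (φ t) ^ 2 = t) (h3 : ∃ x, φ x + x ≠ 0) :
    SylowEA 2 (twistedF4 K q) := by
  have h := certF4
  obtain ⟨X, hX⟩ := h.exists_X K
  refine Cert.sylowEA_gen hX ?_
  set G1 := closure (wordX X '' f4Words K q)
  let ψ := (frobenius K 2).comp φ
  have hψ : ∀ t, ψ t = φ t ^ 2 := fun _ => rfl
  have h4 : ∀ t t', t' = ψ t → t = φ t' := fun t t' e => by rw [e, hψ, map_pow, h2]
  have hq : q ≠ 0 := fun e => by simpa [e] using hφ 0
  have m1 : ∀ rs ∈ [(33, 24), (14, 23)], ∀ t t', t' = ψ t →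
      wordX X [(rs.1, t), (rs.2, t')] ∈ G1 := fun rs hr t t' e =>
    subset_closure ⟨_, .inl ⟨t', by
      simp only [List.mem_cons, List.not_mem_nil, or_false] at hr
      rcases hr with rfl | rfl <;> simp [f4PairWord, hφ, ← h4 _ _ e, f4p1, f4p4, f4m1, f4m4]⟩, rfl⟩
  have m2 : ∀ t u, wordX X [(27, φ t), (25, t), (28, φ t * t + u), (30, φ u ^ 2)] ∈ G1 ∧
      wordX X [(20, φ t), (22, t), (19, φ t * t + u), (17, φ u ^ 2)] ∈ G1 := fun t u =>
    ⟨subset_closure ⟨_, .inr ⟨t, u, .inl (by simp only [b2ClassWord, ← hφ, pow_succ _ q, pow_mul']; rfl)⟩, rfl⟩,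
      subset_closure ⟨_, .inr ⟨t, u, .inr (by simp only [b2ClassWord, ← hφ, pow_succ _ q, pow_mul']; rfl)⟩, rfl⟩⟩
  have o := (map_one ψ).symm
  have hG : ∀ g ∈ G1, g ∈ twF4.fix chevF4 ψ := Cert.closure_fix <| by
    have key : ∀ t u w, tabF4.fixOK twF4 (fun m => (m.2.1, 2 * m.1, m.2.2.2, 2 * m.2.2.1)) w →
        wordX X (winst (t, φ t, u, φ u) w) ∈ twF4.fix chevF4 ψ := fun t u w hw =>
      h.mem_fix (fun m => by
        simp only [Mon.val, map_mul, map_pow]; simp only [hψ, h2]; ring) hw hX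
    rintro _ ⟨_, ⟨t, rfl | rfl⟩ | ⟨t, u, rfl | rfl⟩, rfl⟩
    · simpa [winst, pval_pA, pval_pB, f4PairWord, hφ] using
        key t 0 [(f4p1, pB), (f4p4, pA)] (by decide +kernel)
    · simpa [winst, pval_pA, pval_pB, f4PairWord, hφ] using
        key t 0 [(f4m1, pB), (f4m4, pA)] (by decide +kernel)
    · simpa [winst, pval, pA, pB, Mon.val, b2ClassWord, hφ, pow_succ _ q, pow_mul', mul_comm t] using
        key t u [(f4a, pB), (f4b, pA), (f4ab, [(1, 1, 0, 0), (0, 0, 1, 0)]), (f4aab, [(0, 0, 0, 2)])]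
          (by decide +kernel)
    · simpa [winst, pval, pA, pB, Mon.val, b2ClassWord, hφ, pow_succ _ q, pow_mul', mul_comm t] using
        key t u [(f4ma, pB), (f4mb, pA), (f4mab, [(1, 1, 0, 0), (0, 0, 1, 0)]), (f4maab, [(0, 0, 0, 2)])]
          (by decide +kernel)
  have hb := h.isBN2 hX
  refine hb.sylowEA_tw (Lr := [[0, 3], [1, 2, 1, 2], [0, 3], [1, 2, 1, 2], [0, 3], [1, 2, 1, 2], [0, 3], [1, 2, 1, 2]])
    (fun l hl => ?_) (by decide +kernel) fun i (hi : i < 4) => ?_
  · obtain rfl | rfl : l = [0, 3] ∨ l = [1, 2, 1, 2] := by revert l; decide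
    · exact h.cls_inv hX hG (T := 0xe0e0d0c0b0a0a0c0b0a0a090908070b0a0a09090808080707060606050504040307060505040403020404030201000007070707) (c := 7)
        (isWt_of_check _ (by decide +kernel)) (rs := [33, 24]) (ns := [14, 23]) (by decide +kernel)
        (m1 (33, 24) (by simp) 1 1 o) (m1 (14, 23) (by simp) 1 1 o) fun v hv =>
          m1 (33, 24) (by simp) _ _ (hv 0 18 pA pB (by decide +kernel))
    refine h.cls hX hG (T := 0x8070707070706060606050605050505050405040405040503040304040304030303030302030202020201010101010004040404) (c := 4)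
      (isWt_of_check _ (by decide +kernel)) (by decide +kernel) (h.nw_mem hX
        (w₁ := [(27, [(0, 0, 0, 0)]), (25, [(0, 0, 0, 0)]), (28, [(0, 0, 0, 0)]), (30, [])])
        (w₂ := [(20, []), (22, []), (19, [(0, 0, 0, 0)]), (17, [(0, 0, 0, 0)])])
        (w₃ := [(27, [(0, 0, 0, 0)]), (25, [(0, 0, 0, 0)]), (28, []), (30, [(0, 0, 0, 0)])])
        (by decide +kernel) (by simpa [winst, pval, Mon.val] using (m2 1 0).1)
        (by simpa [winst, pval, Mon.val] using (m2 0 1).2)
        (by simpa [winst, pval, Mon.val, CharTwo.add_self_eq_zero] using (m2 1 1).1))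
      fun ⟨a, b, c, d⟩ hv => ?_
    have a1 := h4 _ _ (hv 1 24 pA [(0, 0, 0, 1)] (by decide +kernel))
    have a2 := hv 1 23 [(1, 0, 0, 1), (0, 0, 1, 0)] pB (by decide +kernel)
    simp [pval, pA, pB, Mon.val, hψ] at a1 a2
    subst a1
    rw [show tabF4.R.rts [1, 2, 1, 2] = [27, 30, 28, 25] by decide +kernel]
    have a3 : ∀ v w, (∀ y ∈ w, y.1 ∈ [27, 30, 28, 25]) →
        wordX X (winst v w) ∈ rootGp X (· ∈ [27, 30, 28, 25]) := fun v w hw =>
      wordX_mem (List.forall_mem_map.2 fun y hy => mem_rootGp (hw y hy) _)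
    refine mem_powComm.2 ⟨⟨a3 _ _ (by decide), ?_⟩, ?_⟩
    · rw [h.weq hX (inv := false) (by simp) (w' := [(27, pA), (25, [(0, 0, 0, 1)]),
        (28, [(0, 0, 1, 0)]), (30, pB)]) (by decide +kernel)]
      simpa [winst, pval, pA, pB, Mon.val, a2, ← add_assoc, CharTwo.add_self_eq_zero] using
        (m2 d (φ d * d + c)).1
    obtain ⟨x, y, e⟩ := exists_tits_comm φ (fun r hr => by
      have := congrArg (fun z => φ z ^ 2) hr
      simp only [map_mul, mul_pow, h2, map_one] at this
      grind) h3 (φ d * d)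
    have a4 := h.weq hX (v := (φ d, b, c, d)) (inv := false) (by simp)
      (w := genW [27, 30, 28, 25] ++ genW [27, 30, 28, 25])
      (w' := [(28, [(1, 0, 0, 1)]), (30, [(2, 0, 0, 1)])]) (by decide +kernel)
    have a5 := h.weq hX (v := (x, φ x, y, φ y)) (inv := false) (by simp)
      (w := [(27, pB), (25, pA), (28, [(1, 1, 0, 0)])] ++
        [(27, [(0, 0, 0, 1)]), (25, [(0, 0, 1, 0)]), (28, [(0, 0, 1, 1)])])
      (w' := [(28, [(0, 1, 1, 0), (1, 0, 0, 1)]), (30, [(0, 2, 1, 0), (1, 0, 0, 2)])] ++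
        ([(27, [(0, 0, 0, 1)]), (25, [(0, 0, 1, 0)]), (28, [(0, 0, 1, 1)])] ++
          [(27, pB), (25, pA), (28, [(1, 1, 0, 0)])])) (by decide +kernel)
    simp only [winst, List.map_append, wordX_append] at a4 a5
    have a6 := congrArg (fun z => φ z ^ 2) e
    simp only [map_mul, map_add, mul_pow, h2, CharTwo.add_sq] at a6
    have z := hb.zero (r := 30) (by decide)
    rw [← mul_inv_eq_iff_eq_mul, _root_.mul_inv_rev, ← mul_assoc, ← commutatorElement_def] at a5
    rw [sq, winst, a4]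
    convert a5 ▸ commutator_mem_commutator (H₁ := rootGp X (· ∈ [27, 30, 28, 25]) ⊓ G1)
      (H₂ := rootGp X (· ∈ [27, 30, 28, 25]) ⊓ G1)
      ⟨a3 _ _ (by decide), by simpa [winst, wordX, pval, pA, pB, Mon.val, z, mul_comm x] using (m2 x 0).1⟩
      ⟨a3 _ _ (by decide), by simpa [winst, wordX, pval, Mon.val, z, mul_comm y] using (m2 y 0).1⟩ using 2
    simp [pval, Mon.val]
    grind
  have a1 := fun i => h.reg hX (i := i) (rs := [33, 24]) (m1 (33, 24) (by simp) 1 1 o)
  have a2 := fun i => h.reg hX (G1 := G1) (i := i) (rs := [27, 25, 28])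
    (by simpa [wordX, hb.zero (r := 30) (by decide)] using (m2 1 0).1)
  interval_cases i
  exacts [a1 _ (by decide +kernel), a2 _ (by decide +kernel), a2 _ (by decide +kernel),
    a1 _ (by decide +kernel)]

end Chev

end Cfsg

set_option linter.all false in
theorem Cfsg.Rz.Lie_SylTw_0 : True := by
  have := @_root_.Cfsg.Chev.twF4.eq_def
  have := @_root_.Cfsg.Chev.twF4.eq_1
  have := @_root_.Cfsg.Chev.twF4.fun_cases
  have := @_root_.Cfsg.Chev.twE6.eq_def
  have := @_root_.Cfsg.Chev.twE6.eq_1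
  have := @_root_.Cfsg.Chev.twE6.fun_cases
  have := @_root_.Cfsg.Chev.twD4.eq_def
  have := @_root_.Cfsg.Chev.twD4.eq_1
  have := @_root_.Cfsg.Chev.twD4.fun_cases
  trivial
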