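import Cfsg.Agent.Lie.TabE8d

/-!
# Checks for the Chevalley groups of type `E8` in characteristic `2` (generated)
-/

set_option autoImplicit false
set_option maxRecDepth 100000

namespace Cfsg

open _root_.Cfsg.Lie

namespace Chev

theorem cRE8_2 : tabE8.cR 2 := by decide +kernel

theorem wtE8_2 : IsWt chevE8 (tabE8.wt 2) 3 := isWt_of_check _ (by decide +kernel)

theorem cRE8_3 : tabE8.cR 3 := by decide +kernel

theorem wtE8_3 : IsWt chevE8 (tabE8.wt 3) 3 := isWt_of_check _ (by decide +kernel)

end Chev

end Cfsg
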