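import Cfsg.Agent.Lie.TabE8r0
import Cfsg.Agent.Lie.TabE8r1
import Cfsg.Agent.Lie.TabE8r2
import Cfsg.Agent.Lie.TabE8r3

/-!
# Checks for the Chevalley groups of type `E8` in characteristic `2` (generated)
-/

set_option autoImplicit false
set_option maxRecDepth 100000

namespace Cfsg

open _root_.Cfsg.Lie

namespace Chev

theorem linkE8 : Link chevE8 tabE8.toTab :=
  link_of_check (by decide +kernel) (by decide +kernel) (by decide +kernel) (by decide +kernel)
    (by decide +kernel) (by decide +kernel)

theorem cNE8 : ∀ i < tabE8.l, tabE8.cN i := by decide +kernel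

theorem cCE8 : ∀ x ∈ tabE8.reps, tabE8.cC x := by decide +kernel

theorem okE8 : tabE8.R.OK :=
  ⟨by decide +kernel, by decide +kernel, by decide +kernel, by decide +kernel⟩

theorem certE8 : Cert chevE8 tabE8 where
  toLink := linkE8
  toOK := okE8
  wt i hi := by
    have : i < 8 := hi
    interval_cases i
    exacts [wtE8_0, wtE8_1, wtE8_2, wtE8_3, wtE8_4, wtE8_5, wtE8_6, wtE8_7]
  wt0 := isWt_of_check _ (by decide +kernel)
  wt1 := isWt_of_check _ (by decide +kernel)
  ht := by decide +kernel
  ht' := by decide +kernel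
  sm := by decide +kernel
  cA := by decide +kernel
  cB := by decide +kernel
  cD := by decide +kernel
  cN := cNE8
  cC := cCE8
  cR i hi := by
    have : i < 8 := hi
    interval_cases i
    exacts [cRE8_0, cRE8_1, cRE8_2, cRE8_3, cRE8_4, cRE8_5, cRE8_6, cRE8_7]

end Chev

end Cfsg
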